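import Cfsg.Agent.FusionAux.NormalCriterion
import Cfsg.Prelude.Def_PLocal

/-!
`℧^n(Z(S))` is normal in every saturated fusion system over a `p`-group `S` of class at most
`n(p-1)+1`.
-/
set_option autoImplicit false

open Cfsg Cfsg.FusionSystem Cfsg.Agent.FusionSys
open scoped IsMulCommutative

namespace Cfsg.Agent.FusionAux

variable {Ω : Type*} [Group Ω] {S : Subgroup Ω}

theorem powerClosure_le {p n : ℕ} (H : Subgroup Ω) : powerClosure p n H ≤ H :=
  (Subgroup.closure_le _).2 fun _ ⟨_, hx, h⟩ => h ▸ H.pow_mem hx _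

/-- A conjugation in `S` applied `i` times as a commutator lands in the `i`-th lower central term. -/
theorem centerEnd_pow_mem {Q : Subgroup Ω} (hQ : Q ≤ S) {β : MulAut Q} {g : Ω} (hg : g ∈ S)
    (hβ : ∀ x : Q, (β x : Ω) = g * x * g⁻¹) (z : Additive (Subgroup.center Q)) (i : ℕ) :
    ((((Additive.toMul (((centerEnd Q β - 1) ^ i) z)) : Subgroup.center Q) : Q) : Ω) ∈
      Subgroup.lowerCentralSeries S i := by
  induction i with
  | zero => exact hQ (Additive.toMul z).1.2
  | succ i ih =>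
    rw [pow_succ']
    obtain ⟨w, hw⟩ : ∃ w, w = ((centerEnd Q β - 1) ^ i) z := ⟨_, rfl⟩
    rw [← hw] at ih
    rw [AddMonoid.End.coe_mul, Function.comp_apply, ← hw, Subgroup.lowerCentralSeries_succ,
      Subgroup.commutator_comm]
    have e : ((((Additive.toMul ((centerEnd Q β - 1) w)) : Subgroup.center Q) : Q) : Ω) =
        g * ((Additive.toMul w).1 : Ω) * g⁻¹ * ((Additive.toMul w).1 : Ω)⁻¹ := by
      show ((((Additive.toMul (centerEnd Q β w - w)) : Subgroup.center Q) : Q) : Ω) = _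
      simp [div_eq_mul_inv, hβ]
    rw [e, ← commutatorElement_def]
    exact Subgroup.commutator_mem_commutator hg ih

/-- All isomorphisms of a saturated system over a group of class at most `n(p-1)+1` preserve
membership in `℧^n(Z(S))`. -/
theorem mem_agemo_center_iff [Finite S] {p : ℕ} [Fact p.Prime] (hS : IsPGroup p S)
    {F : FusionSystem S} (hF : F.IsSaturated p) {n : ℕ}
    (hcl : Subgroup.lowerCentralSeries S (n * (p - 1) + 1) = ⊥) :
    ∀ (P Q : Subgroup Ω) (e : P ≃* Q), IsIso F e → ∀ x : P,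
      (x : Ω) ∈ powerClosure p n (S ⊓ Subgroup.centralizer (S : Set Ω)) ↔
        (e x : Ω) ∈ powerClosure p n (S ⊓ Subgroup.centralizer (S : Set Ω)) := by
  set Z : Subgroup Ω := S ⊓ Subgroup.centralizer (S : Set Ω) with hZ
  set W : Subgroup Ω := powerClosure p n Z with hW
  refine iso_induction hS hF (fun P Q e => ∀ x : P, (x : Ω) ∈ W ↔ (e x : Ω) ∈ W) ?_ ?_ ?_ ?_
  · intro P Q R e e' _ _ h h' x
    exact (h x).trans (h' (e x))
  · intro P Q e _ h x
    simpa using (h (e.symm x)).symm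
  · intro P Q R R' e e' _ hle hag h x
    rw [hag x]
    exact h ⟨x, hle x.2⟩
  intro Q hQ IH α hα
  have hQS := hQ.1
  have hQfin : Finite Q := finite_of_le ‹_› hQS
  by_cases hC : centralizerIn S Q ≤ Q
  swap
  · obtain ⟨N, N', e, hle, he, hCN, hNn, hag, -⟩ := exists_extend_aut hS hF hQ hα
    intro x
    rw [← hag x]
    refine IH N N' e he (card_lt_card_of_lt (hNn.trans inf_le_left) ?_) ⟨x, hle x.2⟩
    exact lt_of_le_of_ne hle fun h => hC (h ▸ hCN)
  have hZC : Z ≤ centralizerIn S Q := le_inf inf_le_left fun z hz x hx => hz.2 x (hQS hx)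
  have hWQ : W ≤ Q := (powerClosure_le Z).trans (hZC.trans hC)
  suffices h : ∀ β : MulAut Q, β ∈ F.autGroup Q → ∀ x : Q, (x : Ω) ∈ W → (β x : Ω) ∈ W by
    intro x
    refine ⟨h α hα x, fun hx => ?_⟩
    have := h α⁻¹ (inv_mem hα) (α x) hx
    rwa [show α⁻¹ (α x) = x from α.symm_apply_apply x] at this
  intro β hβ
  suffices h : ∀ y ∈ Z, ∀ (hy : y ^ p ^ n ∈ Q), (β ⟨y ^ p ^ n, hy⟩ : Ω) ∈ W by
    intro x hx
    have key : W ≤ ((W.comap Q.subtype).comap β.toMonoidHom).map Q.subtype := by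
      refine (Subgroup.closure_le _).2 ?_
      rintro _ ⟨y, hy, rfl⟩
      exact ⟨⟨_, hWQ (Subgroup.subset_closure ⟨y, hy, rfl⟩)⟩, h y hy _, rfl⟩
    obtain ⟨z, hz, hzx⟩ := key hx
    obtain rfl : z = x := Subtype.ext hzx
    exact hz
  intro y hy hyn
  by_cases hQS' : Q = S
  · subst hQS'
    refine Subgroup.subset_closure ⟨(β ⟨y, hy.1⟩ : Ω), ⟨(β ⟨y, hy.1⟩).2, ?_⟩, ?_⟩
    · intro s hs
      have := congrArg Subtype.val (congrArg β (Subtype.ext (hy.2 _ (β.symm ⟨s, hs⟩).2) :
        β.symm ⟨s, hs⟩ * ⟨y, hy.1⟩ = ⟨y, hy.1⟩ * β.symm ⟨s, hs⟩))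
      simpa using this
    · rw [← Subgroup.coe_pow, ← map_pow]
      rfl
  -- the normal subgroup generated by the elements of `p`-power order
  let G := F.autGroup Q
  let K : Subgroup G := Subgroup.closure {a : G | ∃ k, orderOf a = p ^ k}
  have hK : K.Normal := ⟨fun a ha g => by
    have h0 : K ≤ K.comap (MulAut.conj g).toMonoidHom := by
      refine (Subgroup.closure_le _).2 ?_
      rintro a ⟨k, hk⟩
      refine Subgroup.subset_closure ⟨k, ?_⟩
      show orderOf (MulAut.conj g a) = p ^ k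
      rw [MulEquiv.orderOf_eq, hk]
    exact h0 ha⟩
  obtain ⟨h, k, N, N', e, hle, hβeq, hk, he, -, hNn, hag, hext⟩ :=
    exists_frattini_extend hS hF hQ K ⟨β, hβ⟩
  have hN : N = normalizerIn S Q := by
    refine le_antisymm hNn fun g hg => hext g hg ?_
    have hc : Q.normalizerMonoidHom ⟨g, hg.2⟩ ∈ autInducedBy S Q :=
      mem_autInducedBy.2 ⟨g, hg.1, fun _ => rfl⟩
    refine ⟨⟨_, autInducedBy_le_autGroup F hQS hc⟩, Subgroup.subset_closure ?_, fun _ => rfl⟩
    obtain ⟨j, hj⟩ := (IsPGroup.iff_orderOf).1 (isPGroup_autInducedBy hS Q) ⟨_, hc⟩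
    exact ⟨j, by rw [← Subgroup.orderOf_coe]; rwa [← Subgroup.orderOf_coe] at hj⟩
  -- the elements of `K` fix `y ^ p ^ n`
  have hyQ : y ∈ Q := hC (hZC hy)
  let z : Additive (Subgroup.center Q) := Additive.ofMul ⟨⟨y, hyQ⟩,
    Subgroup.mem_center_iff.2 fun q => Subtype.ext (hy.2 q (hQS q.2))⟩
  let ρ : G →* AddMonoid.End (Additive (Subgroup.center Q)) := (centerEnd Q).comp G.subtype
  have hρ : ∀ a : G, (∃ j, orderOf a = p ^ j) → (ρ a - 1) ^ (n * (p - 1) + 1) = 0 := by
    rintro a ⟨j, hj⟩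
    have hp' : IsPGroup p (Subgroup.zpowers (a : MulAut Q)) :=
      IsPGroup.of_card (n := j) (by rw [Nat.card_zpowers, Subgroup.orderOf_coe, hj])
    obtain ⟨χ, hχ, hχA⟩ := exists_conj_le_autInducedBy (saturated_fullyNormalized hS hF hQ).2 hp'
      (Subgroup.zpowers_le.2 a.2)
    obtain ⟨g, hg, hge⟩ := mem_autInducedBy.1 (hχA _ (Subgroup.mem_zpowers _))
    set b : MulAut Q := χ * (a : MulAut Q) * χ⁻¹ with hb
    have h0 : (centerEnd Q b - 1) ^ (n * (p - 1) + 1) = 0 := by
      apply DFunLike.ext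
      intro w
      apply Additive.toMul.injective
      apply Subtype.ext
      apply Subtype.ext
      have := centerEnd_pow_mem hQS hg hge w (n * (p - 1) + 1)
      rw [hcl, Subgroup.mem_bot] at this
      exact this
    have hconj : ∀ m : ℕ, (ρ a - 1) ^ m =
        centerEnd Q χ⁻¹ * (centerEnd Q b - 1) ^ m * centerEnd Q χ := by
      intro m
      induction m with
      | zero => rw [pow_zero, pow_zero, mul_one, ← map_mul, inv_mul_cancel, map_one]
      | succ m ihm =>
        have h1 : ρ a - 1 = centerEnd Q χ⁻¹ * (centerEnd Q b - 1) * centerEnd Q χ := by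
          rw [mul_sub, sub_mul, mul_one, ← map_mul, ← map_mul, ← map_mul, inv_mul_cancel, map_one,
            hb]
          rw [show χ⁻¹ * (χ * (a : MulAut Q) * χ⁻¹) * χ = (a : MulAut Q) by group]
          rfl
        rw [pow_succ, pow_succ, ihm, h1]
        have h2 : centerEnd Q χ * centerEnd Q χ⁻¹ = 1 := by
          rw [← map_mul, mul_inv_cancel, map_one]
        simp only [mul_assoc]
        rw [← mul_assoc (centerEnd Q χ), h2, one_mul]
    rw [hconj, h0, mul_zero, zero_mul]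
  obtain ⟨R, hR⟩ := (saturated_fullyNormalized hS hF hQ).2.2
  have hfix : ∀ a : G, a ∈ K → ρ a ((p ^ n) • z) = (p ^ n) • z := by
    have hz : ∀ a ∈ (R : Subgroup G), ρ a z = z := by
      intro a ha
      rw [hR, Subgroup.mem_subgroupOf] at ha
      obtain ⟨g, hg, hge⟩ := mem_autInducedBy.1 ha
      apply Additive.toMul.injective
      apply Subtype.ext
      apply Subtype.ext
      show ((a : MulAut Q) ⟨y, hyQ⟩ : Ω) = y
      rw [hge]
      show g * y * g⁻¹ = y
      rw [hy.2 g hg, mul_inv_cancel_right]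
    have : K ≤ stab ρ ((p ^ n) • z) :=
      (Subgroup.closure_le _).2 fun a ha => pow_nsmul_fixed_of_sylow ρ hρ R z hz a ha
    exact fun a ha => this ha
  have hk' : (k : MulAut Q) ⟨y ^ p ^ n, hyn⟩ = ⟨y ^ p ^ n, hyn⟩ := by
    have h1 := congrArg (fun w : Additive (Subgroup.center Q) => (Additive.toMul w).1) (hfix k hk)
    simp only [toMul_nsmul, SubmonoidClass.coe_pow] at h1
    have e1 : (⟨y ^ p ^ n, hyn⟩ : Q) = (⟨y, hyQ⟩ : Q) ^ p ^ n := Subtype.ext rfl
    rw [e1]
    exact h1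
  have hmul : β ⟨y ^ p ^ n, hyn⟩ = (h : MulAut Q) ((k : MulAut Q) ⟨y ^ p ^ n, hyn⟩) := by
    have : β = (h : MulAut Q) * (k : MulAut Q) := congrArg Subtype.val hβeq
    rw [this]; rfl
  rw [hmul, hk', ← hag]
  refine (IH N N' e he ?_ ⟨_, hle hyn⟩).1 (Subgroup.subset_closure ⟨y, hy, rfl⟩)
  rw [hN]
  exact card_lt_card_of_lt (normalizerIn_le Q) (lt_normalizerIn hS hQS hQS')

/-- `℧^n(Z(S))` is normal in a saturated system when `S` has class at most `n(p-1)+1`. -/
theorem isNormal_agemo_center [Finite S] {p : ℕ} [Fact p.Prime] (hS : IsPGroup p S)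
    {F : FusionSystem S} (hF : F.IsSaturated p) {n : ℕ}
    (hcl : Subgroup.lowerCentralSeries S (n * (p - 1) + 1) = ⊥) :
    F.IsNormal (powerClosure p n (S ⊓ Subgroup.centralizer (S : Set Ω))) :=
  isNormal_of_le_center hS hF (powerClosure_le _) (mem_agemo_center_iff hS hF hcl)

end Cfsg.Agent.FusionAux
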