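import Mathlib.GroupTheory.Nilpotent
import Mathlib.GroupTheory.QuotientGroup.Basic
import Mathlib.GroupTheory.Exponent

/-!
The exponent of a nilpotent group is bounded by a power of the exponent of its centre.
-/
set_option autoImplicit false

open scoped commutatorElement

namespace Cfsg.Agent.FusionAux

variable {G : Type*} [Group G]

/-- If `x^m = 1` on the centre then `x ^ m ∈ Z_i` for every `x ∈ Z_(i+1)`. -/
theorem pow_mem_upperCentralSeries {m : ℕ} (hm : ∀ z ∈ Subgroup.center G, z ^ m = 1) :
    ∀ (i : ℕ), ∀ x ∈ Subgroup.upperCentralSeries G (i + 1),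
      x ^ m ∈ Subgroup.upperCentralSeries G i := by
  intro i
  induction i with
  | zero =>
    intro x hx
    rw [Subgroup.upperCentralSeries_one] at hx
    exact Subgroup.mem_bot.2 (hm x hx)
  | succ i ih =>
    intro x hx
    rw [Subgroup.mem_upperCentralSeries_succ_iff] at hx ⊢
    intro y
    let π := QuotientGroup.mk' (Subgroup.upperCentralSeries G i)
    have hc : ∀ t : G ⧸ Subgroup.upperCentralSeries G i, t * π ⁅x, y⁆ = π ⁅x, y⁆ * t := by
      intro t
      obtain ⟨w, rfl⟩ := QuotientGroup.mk'_surjective _ t
      have h := (Subgroup.mem_upperCentralSeries_succ_iff.1 (hx y)) w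
      have : ⁅π ⁅x, y⁆, π w⁆ = 1 := by
        rw [← map_commutatorElement]
        exact (QuotientGroup.eq_one_iff _).2 h
      exact (commutatorElement_eq_one_iff_mul_comm.1 this).symm
    have key : ∀ k : ℕ, π ⁅x ^ k, y⁆ = π ⁅x, y⁆ ^ k := by
      intro k
      induction k with
      | zero => simp
      | succ k ihk =>
        have e : ⁅x ^ (k + 1), y⁆ = x * ⁅x ^ k, y⁆ * x⁻¹ * ⁅x, y⁆ := by
          simp only [commutatorElement_def, pow_succ' x]
          group
        rw [e, map_mul, map_mul, map_mul, ihk, map_inv, pow_succ]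
        congr 1
        have := ((show Commute (π x) (π ⁅x, y⁆) from hc (π x)).pow_right k).eq
        rw [this, mul_inv_cancel_right]
    have h1 : π ⁅x, y⁆ ^ m = 1 := by
      rw [← map_pow]
      exact (QuotientGroup.eq_one_iff _).2 (ih _ (hx y))
    rw [← key m] at h1
    exact (QuotientGroup.eq_one_iff _).1 h1

/-- Nilpotent of class at most `c`, centre of exponent dividing `m`: exponent divides `m ^ c`. -/
theorem exponent_dvd_of_center {m c : ℕ} (hm : ∀ z ∈ Subgroup.center G, z ^ m = 1)
    (hc : Subgroup.lowerCentralSeries (⊤ : Subgroup G) c = ⊥) : Monoid.exponent G ∣ m ^ c := by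
  rw [Subgroup.lowerCentralSeries_eq_bot_iff_upperCentralSeries_eq_top] at hc
  refine Monoid.exponent_dvd_of_forall_pow_eq_one fun x => ?_
  suffices h : ∀ k ≤ c, x ^ m ^ k ∈ Subgroup.upperCentralSeries G (c - k) by
    simpa using h c le_rfl
  intro k
  induction k with
  | zero => intro _; rw [Nat.sub_zero, hc]; trivial
  | succ k ih =>
    intro hk
    have h := ih (by omega)
    rw [show c - k = (c - (k + 1)) + 1 by omega] at h
    rw [pow_succ, pow_mul]
    exact pow_mem_upperCentralSeries hm _ _ h

theorem lowerCentralSeries_map_subtype (S : Subgroup G) : ∀ i : ℕ,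
    (Subgroup.lowerCentralSeries (⊤ : Subgroup S) i).map S.subtype = Subgroup.lowerCentralSeries S i
  | 0 => by
    rw [Subgroup.lowerCentralSeries_zero, Subgroup.lowerCentralSeries_zero, ← MonoidHom.range_eq_map,
      Subgroup.range_subtype]
  | i + 1 => by
    rw [Subgroup.lowerCentralSeries_succ, Subgroup.lowerCentralSeries_succ,
      Subgroup.map_commutator, lowerCentralSeries_map_subtype S i, ← MonoidHom.range_eq_map,
      Subgroup.range_subtype]

end Cfsg.Agent.FusionAux
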