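import Cfsg.Agent.FusionModel.LocalModel

/-!
A form of the chain induction for characteristic functors in which every normalizer met along the
way contains a given normal subgroup, so that local conditions above the largest normal subgroup
descend.
-/

set_option autoImplicit false

open Cfsg Cfsg.FusionSystem Cfsg.Agent.FusionSys Cfsg.Agent.FusionModel

namespace Cfsg.Agent.FusionAux.ChainAbove

universe u

variable {Ω : Type u} [Group Ω] {S : Subgroup Ω}

/-- Variant tracking a normal subgroup `B`: the property holds for all maps of a system containing `N(W(S))`'s good maps, provided it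
passes to normalizer systems and no tracked subgroup is normal. -/
theorem good_of_chain_above {p : ℕ} [Fact p.Prime] [Finite S] (hS : IsPGroup p S) {F : FusionSystem S}
    (hF : F.IsSaturated p) {W : ∀ (Q : Type u) [Group Q], Subgroup Q} (hW : Natural W p)
    {good : ∀ P : Subgroup Ω, (P →* Ω) → Prop} (hg : IsClosedProp F good)
    (Pr : Subgroup Ω → Prop)
    (hWS : ∀ (P : Subgroup Ω) (φ : P →* Ω), φ ∈ F.normalizerHom (wOf W S) P → good P φ)
    (hbase : ∀ Q ≤ S, ¬ Pr Q → ∀ α ∈ F.autGroup Q, good Q (Q.subtype.comp α.toMonoidHom))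
    (hPrW : ∀ V ≤ S, 1 < Nat.card (normalizerIn S V) → Pr (wOf W (normalizerIn S V)))
    (hPrmap : ∀ (N : Subgroup Ω) (θ : N →* Ω), θ ∈ F.Hom N → good N θ → ∀ U ≤ N, Pr U →
      Pr ((U.subgroupOf N).map θ))
    (hno : ∀ U, F.IsNormal U → ¬ Pr U)
    {B : Subgroup Ω} (hB : F.IsNormal B)
    (hsub : ∀ V (hV : F.IsFullyNormalized V), ¬ F.IsNormal V → B ≤ normalizerIn S V →
      (∀ (P : Subgroup Ω) (φ : P →* Ω),
        φ ∈ (FusionAux.normSys F V hV.1).normalizerHom (wOf W (normalizerIn S V)) P → good P φ) →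
      ∀ (P : Subgroup Ω) (φ : P →* Ω), φ ∈ F.normalizerHom V P → good P φ) :
    ∀ (P : Subgroup Ω) (φ : P →* Ω), φ ∈ F.Hom P → good P φ := by
  have toMap : ∀ {P R : Subgroup Ω} {e : P ≃* R} {φ : P →* Ω}, (∀ x, φ x = e x) →
      good P (R.subtype.comp e.toMonoidHom) → good P φ := fun he h =>
    hg.restr h le_rfl fun x => he x
  suffices main : ∀ (P R : Subgroup Ω) (e : P ≃* R), IsIso F e →
      good P (R.subtype.comp e.toMonoidHom) from fun P φ hφ =>
    toMap (fun x => (toIso_coe F hφ rfl x).symm) (main _ _ _ (toIso_isIso F hφ rfl))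
  refine FusionAux.iso_induction hS hF (fun P R e => good P (R.subtype.comp e.toMonoidHom))
    (fun P Q R e e' he he' h h' => hg.comp he he' h h' (fun x => (e x).2) fun _ => rfl)
    (fun P Q e he h => ?_) (fun P Q R R' e e' _ h he' hX => hg.restr hX h he') ?_
  · obtain ⟨ψ, hψ, hψe⟩ := F.inv_mem he
    refine hg.restr (hg.inv he hψ h hψe) (range_subtype_comp e).ge fun y => ?_
    obtain ⟨x, rfl⟩ := e.surjective y
    refine Eq.trans ?_ (hψe x).symm
    simp
  intro Q hQ IH α hα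
  have hαm := autGroup_mem_hom F hQ.1 hα
  by_cases hPr : Pr Q
  swap
  · exact hbase Q hQ.1 hPr α hα
  by_cases hQS : Q = S
  · subst hQS
    exact hWS _ _ (mem_normalizerHom_wOf_self hW hS hαm)
  have hQT := FusionAux.lt_normalizerIn hS hQ.1 hQS
  have big : ∀ (N : Subgroup Ω) (θ : N →* Ω), θ ∈ F.Hom N → Nat.card Q < Nat.card N →
      good N θ := fun N θ hθ hlt =>
    toMap (fun x => (toIso_coe F hθ rfl x).symm) (IH _ _ _ (toIso_isIso F hθ rfl) hlt)
  by_cases hBQ : B ≤ Q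
  swap
  · obtain ⟨ψ, hψ, hψe, -⟩ := hB.2 Q _ hαm
    have hlt : Q < Q ⊔ B := left_lt_sup.2 hBQ
    exact hg.restr (big _ ψ hψ (FusionAux.card_lt_card_of_lt (sup_le hQ.1 hB.1) hlt))
      le_sup_left fun x => (hψe x).symm
  have claim : ∀ (k : ℕ) (V : Subgroup Ω) (hV : F.IsFullyNormalized V), ¬ F.IsNormal V →
      B ≤ normalizerIn S V →
      Nat.card Q < Nat.card (normalizerIn S V) → Nat.card S - Nat.card (normalizerIn S V) = k →
      ∀ (P : Subgroup Ω) (φ : P →* Ω), φ ∈ F.normalizerHom V P → good P φ := by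
    intro k
    induction k using Nat.strong_induction_on with
    | _ k ih =>
    intro V hV hnV hBV hlt hk
    refine hsub V hV hnV hBV fun P φ hφ => ?_
    set T := normalizerIn S V with hT
    have hTS : T ≤ S := normalizerIn_le V
    set U := wOf W T with hU
    obtain ⟨hφN, hPT, hφT, ψ, hψN, hψφ, hψU⟩ := hφ
    have hψ : ψ ∈ F.Hom (P ⊔ U) := hψN.1
    by_cases hTeq : T = S
    · refine hWS _ _ ?_
      have hUS : wOf W S = U := by rw [hU, hTeq]
      have hle := normalizerIn_wOf (S := S) hW hS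
      rw [hUS] at hle ⊢
      exact ⟨hφN.1, hle.symm ▸ le_S F hφN.1, fun x => hle.symm ▸ map_mem_S F hφN.1 x, ψ, hψ,
        hψφ, hψU⟩
    set M := normalizerIn S U with hM
    have hUS : U ≤ S := (wOf_le T).trans hTS
    have hTM : T < M := (FusionAux.lt_normalizerIn hS hTS hTeq).trans_le
      (le_inf (normalizerIn_le T) (normalizerIn_le_normalizer_wOf hW hS hTS))
    have hcM : Nat.card T < Nat.card M := FusionAux.card_lt_card_of_lt (normalizerIn_le U) hTM
    obtain ⟨U', hUU', hU'⟩ := exists_fullyNormalized F hUS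
    obtain ⟨θ, hθ, hθN, hθU⟩ := exists_normalizer_map_fullyNormalized hS hF hU' hUU'
    have hθg : good M θ := big M θ hθ (hlt.trans hcM)
    have hUM : U ≤ M := le_normalizerIn hUS
    have h1 : 1 < Nat.card T := lt_of_le_of_lt
      (by have : Finite Q := finite_of_le ‹_› hQ.1; exact Nat.card_pos) hlt
    have hnU' : ¬ F.IsNormal U' := fun hn =>
      hno U' hn (hθU ▸ hPrmap M θ hθ hθg U hUM (hPrW V hV.1 h1))
    have hcU' : Nat.card M ≤ Nat.card (normalizerIn S U') := hU'.2 U (isConj_symm hUU')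
    have hcS : Nat.card (normalizerIn S U') ≤ Nat.card S :=
      Subgroup.card_le_of_le (normalizerIn_le _)
    have hBU' : B ≤ normalizerIn S U' := by
      intro y hy
      obtain ⟨x, -, hx⟩ := FusionAux.sc_exists_preimage
        (FusionAlperin.isNormal_stronglyClosed hB) hθ (hBV.trans hTM.le) hy
      exact hx ▸ hθN x
    have hgU' := ih _ (by omega) U' hU' hnU' hBU' (by omega) rfl
    -- transport along `θ`
    have hPU : P ⊔ U ≤ M :=
      sup_le (fun x hx => ⟨le_S F hφN.1 hx, (hPT hx).2⟩) hUM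
    have hψM : ∀ x, ψ x ∈ M := fun x => by
      have h := FusionAux.ext_image_le (R := M) hψU
        (fun y => by rw [hψφ]; exact ⟨map_mem_S F hφN.1 y, (hφT y).2⟩) x
      rwa [sup_eq_left.2 hUM] at h
    have hres := restr_mem F hPU hθ
    set A := (restr hPU θ).range with hA
    have hU'A : U' ≤ A := by
      rw [← hθU, hA]
      intro y hy
      obtain ⟨x, hx, rfl⟩ := (mem_map_subgroupOf θ).1 hy
      exact ⟨⟨x, Subgroup.mem_sup_right hx⟩, rfl⟩
    obtain ⟨θinv, hθinv, hθinve⟩ := F.inv_mem hres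
    have hθinvmem : ∀ y, θinv y ∈ P ⊔ U := by
      rintro ⟨_, x, rfl⟩
      rw [hθinve]
      exact x.2
    have hm1 := F.comp_mem hθinv hψ hθinvmem
    have hm2 := F.comp_mem hm1 hθ fun y => hψM _
    set χ := θ.comp ((ψ.comp (θinv.codRestrict (P ⊔ U) hθinvmem)).codRestrict M fun y => hψM _)
      with hχ
    have hχe : ∀ x, χ ⟨restr hPU θ x, ⟨x, rfl⟩⟩ = θ ⟨ψ x, hψM x⟩ := fun x =>
      congrArg θ (Subtype.ext (congrArg ψ (Subtype.ext (hθinve x))))
    have hχN : χ ∈ F.normalizerHom U' A := by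
      have hle : A ⊔ U' ≤ A := sup_le le_rfl hU'A
      refine ⟨hm2, ?_, fun y => hθN _, restr hle χ, restr_mem F hle hm2, fun _ => rfl, ?_⟩
      · rintro _ ⟨x, rfl⟩
        exact hθN _
      refine le_antisymm ?_ (fun y hy => ?_)
      · intro y hy
        obtain ⟨⟨z, hz⟩, hzU, rfl⟩ := (mem_map_subgroupOf _).1 hy
        obtain ⟨x, hx, hxz⟩ := (mem_map_subgroupOf θ).1 (hθU.ge hzU)
        have hxPU : (x : Ω) ∈ P ⊔ U := Subgroup.mem_sup_right hx
        have e := hχe ⟨x, hxPU⟩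
        rw [restr_apply, show Subgroup.inclusion hle ⟨z, hz⟩ =
          ⟨restr hPU θ ⟨x, hxPU⟩, ⟨_, rfl⟩⟩ from Subtype.ext hxz.symm, e, ← hθU]
        exact (mem_map_subgroupOf θ).2 ⟨_, FusionAux.apply_mem_of_map_eq hψU hx, rfl⟩
      · obtain ⟨w, hw, rfl⟩ := (mem_map_subgroupOf θ).1 (hθU.ge hy)
        obtain ⟨x, hx, hxw⟩ := FusionAux.exists_of_map_eq hψU hw
        refine (mem_map_subgroupOf _).2 ⟨⟨restr hPU θ x, Subgroup.mem_sup_left ⟨x, rfl⟩⟩,
          hθU.le ((mem_map_subgroupOf θ).2 ⟨_, hx, rfl⟩), ?_⟩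
        exact (hχe x).trans (congrArg θ (Subtype.ext hxw))
    have hχg := hgU' A χ hχN
    obtain ⟨θ', hθ', hθ'e⟩ := F.inv_mem hθ
    have hθ'g := hg.inv hθ hθ' hθg hθ'e
    have hgres : good _ (restr hPU θ) := hg.restr hθg hPU fun _ => rfl
    let c1 := χ.comp (restr hPU θ).rangeRestrict
    have hc1m : c1 ∈ F.Hom (P ⊔ U) :=
      comp_mem' F hres hm2 (fun x => ⟨x, rfl⟩) fun _ => rfl
    have hc1 : good (P ⊔ U) c1 := hg.comp hres hm2 hgres hχg (fun x => ⟨x, rfl⟩) fun _ => rfl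
    have hc1r : ∀ x, c1 x ∈ θ.range := fun x => ⟨⟨ψ x, hψM x⟩, (hχe x).symm⟩
    have hψg : good (P ⊔ U) ψ := hg.comp hc1m hθ' hc1 hθ'g hc1r fun x => by
      rw [show (⟨c1 x, hc1r x⟩ : θ.range) = ⟨θ ⟨ψ x, hψM x⟩, ⟨_, rfl⟩⟩ from Subtype.ext (hχe x),
        hθ'e]
    exact hg.restr hψg le_sup_left fun x => (hψφ x).symm
  refine claim _ Q hQ (fun h => hno Q h hPr) (hBQ.trans (le_normalizerIn hQ.1)) (FusionAux.card_lt_card_of_lt (normalizerIn_le Q) hQT)
    rfl Q _ ?_
  have hle : Q ⊔ Q ≤ Q := (sup_idem Q).le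
  refine ⟨hαm, le_normalizerIn hQ.1, fun x => le_normalizerIn hQ.1 (α x).2,
    restr hle (Q.subtype.comp α.toMonoidHom), restr_mem F hle hαm, fun _ => rfl, ?_⟩
  refine le_antisymm ?_ (fun y hy => ?_)
  · intro y hy
    obtain ⟨x, -, rfl⟩ := (mem_map_subgroupOf _).1 hy
    exact (α _).2
  · refine (mem_map_subgroupOf _).2 ⟨⟨α.symm ⟨y, hy⟩, Subgroup.mem_sup_left (α.symm _).2⟩,
      (α.symm _).2, ?_⟩
    exact congrArg Subtype.val (α.apply_symm_apply ⟨y, hy⟩)

end Cfsg.Agent.FusionAux.ChainAbove
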