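import Cfsg.Agent.FusionAux.ChainAbove

/-!
Control of the centre by a functor whose local condition is only known in groups not involving a
given group.
-/

set_option autoImplicit false

open Cfsg Cfsg.FusionSystem Cfsg.Agent.FusionSys Cfsg.Agent.FusionModel

namespace Cfsg.Agent.FusionAux.FreeCenter

universe u w

variable {W : ∀ (Q : Type u) [Group Q], Subgroup Q} {p : ℕ}

/-- The local condition for control of weak closure, asked of groups not involving `H`. -/
def FreeCondition (W : ∀ (Q : Type u) [Group Q], Subgroup Q) (H : Type w) [Group H] (p : ℕ) :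
    Prop :=
  ∀ (G : Type u) [Group G] [Finite G] (P : Sylow p G), ¬ Involves H G →
    ∀ x ∈ pCore p G, (∀ n ∈ Subgroup.normalizer ((wOf W (P : Subgroup G)) : Set G),
      n * x * n⁻¹ = x) → x ∈ Subgroup.center G

variable {Ω : Type u} [Group Ω] {S : Subgroup Ω} {H : Type w} [Group H]

/-- In the constrained case every automorphism of the largest normal subgroup fixes `z`. -/
lemma fixes_core [Finite S] [Fact p.Prime] (hW : Natural W p) (hS : IsPGroup p S)
    (hC : FreeCondition W H p) {F : FusionSystem S} {B : Subgroup Ω}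
    (hBS : B ≤ S) (hBn : normalizerIn S B = S) (hloc : LocalData H p F B) {z : Ω} (hzB : z ∈ B)
    (hzW : z ∈ wOf W S)
    (hH : ∀ (P : Subgroup Ω) (φ : P →* Ω), φ ∈ F.normalizerHom (wOf W S) P → FixesElt z P φ) :
    ∀ α ∈ F.autGroup B, (α ⟨z, hzB⟩ : Ω) = z := by
  obtain ⟨L, hL, hfin, j, hj, ⟨P, hP⟩, hjn, -, hni, haut, hhom⟩ := hloc
  have hWS := wOf_le (W := W) S
  let ι : S →* L := j.comp (Subgroup.inclusion hBn.ge)
  have hι : Function.Injective ι := hj.comp (Subgroup.inclusion_injective hBn.ge)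
  have hr : ι.range = (P : Subgroup L) := by
    rw [hP]
    ext y
    constructor
    · rintro ⟨x, rfl⟩
      exact ⟨_, rfl⟩
    · rintro ⟨x, rfl⟩
      exact ⟨⟨x, hBn.le x.2⟩, rfl⟩
  have hWL : wOf W (P : Subgroup L) = ((wOf W S).subgroupOf S).map ι := by
    rw [wOf_map hW hS hι, hr]
  set ζ := ι ⟨z, hBS hzB⟩ with hζ
  have hζB : ζ ∈ (B.subgroupOf (normalizerIn S B)).map j :=
    ⟨Subgroup.inclusion hBn.ge ⟨z, hBS hzB⟩, hzB, rfl⟩
  have hζO : ζ ∈ pCore p L := Cfsg.Agent.Cores.le_pCore hjn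
    ((hS.to_le (normalizerIn_le B)).to_subgroup _ |>.map j) hζB
  have hζc : ζ ∈ Subgroup.center L := by
    refine hC L P hni ζ hζO fun n hn => ?_
    rw [hWL] at hn
    have hnr : ∀ v : wOf W S, n * j ⟨v, hBn.ge (hWS v.2)⟩ * n⁻¹ ∈
        ((wOf W S).subgroupOf S).map ι := fun v =>
      (Subgroup.mem_normalizer_iff.1 hn _).1 ⟨⟨v, hWS v.2⟩, v.2, rfl⟩
    have hle : wOf W S ≤ normalizerIn S B := hWS.trans hBn.ge
    obtain ⟨φ, hφT, hφe⟩ := exists_conj_map hj hle n fun v => by
      obtain ⟨t, -, ht⟩ := hnr v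
      exact ⟨Subgroup.inclusion hBn.ge t, ht⟩
    have hφ : φ ∈ F.Hom (wOf W S) := hhom _ hle φ hφT n hφe
    have hnh := normalizerHom_of_mapsTo hφ le_rfl (le_normalizer_wOf_self hW hS) fun v _ => by
      obtain ⟨t, ht, hte⟩ := hnr v
      have h : (⟨φ v, hφT v⟩ : normalizerIn S B) = Subgroup.inclusion hBn.ge t :=
        hj ((hφe v).trans hte.symm)
      rw [show φ v = (t : Ω) from congrArg Subtype.val h]
      exact ht
    have h1 : φ ⟨z, hzW⟩ = z := hH _ φ hnh ⟨z, hzW⟩ (Or.inl rfl)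
    exact ((congrArg j (Subtype.ext h1.symm)).trans (hφe ⟨z, hzW⟩)).symm
  intro α hα
  obtain ⟨g, hg⟩ := haut α hα
  have h := hg ⟨z, hzB⟩ (hBn.ge (hBS hzB)) (hBn.ge (hBS (α _).2))
  have hc : g * ζ * g⁻¹ = ζ := by
    rw [Subgroup.mem_center_iff.1 hζc g, mul_inv_cancel_right]
  exact congrArg Subtype.val (hj (h.trans hc))

/-- Control of weak closure of elements under a local condition for groups not involving `H`. -/
theorem fixes_of_normalizer_free [Fact p.Prime]
    (hWZ : ∀ (Q : Type u) [Group Q] [Finite Q], IsPGroup p Q → Subgroup.center Q ≤ W Q)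
    (hW : Natural W p) (hC : FreeCondition W H p) :
    ∀ (n m : ℕ) {Ω : Type u} [Group Ω] {S : Subgroup Ω} [Finite S], IsPGroup p S →
      ∀ (F : FusionSystem S), F.IsSaturated p → LocallyFree H p F → Nat.card S = n →
        (morph F).ncard = m →
        ∀ z ∈ S, (∀ (P : Subgroup Ω) (φ : P →* Ω),
            φ ∈ F.normalizerHom (wOf W S) P → FixesElt z P φ) →
          ∀ (P : Subgroup Ω) (φ : P →* Ω), φ ∈ F.Hom P → FixesElt z P φ := by
  intro n
  induction n using Nat.strong_induction_on with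
  | _ n IHn =>
  intro m
  induction m using Nat.strong_induction_on with
  | _ m IHm =>
  intro Ω _ S _ hS F hF hloc hn hm z hzS hH
  have hzc : ∀ g ∈ S, g * z * g⁻¹ = z := fun g hg =>
    hH S _ (mem_normalizerHom_wOf_self hW hS (F.conj_mem le_rfl hg)) ⟨z, hzS⟩ (Or.inl rfl)
  have hzC : ∀ R ≤ S, z ∈ centralizerIn S R := fun R hR =>
    mem_centralizerIn.2 ⟨hzS, fun x hx => eq_mul_inv_iff_mul_eq.1 (hzc x (hR hx)).symm |>.symm ▸ rfl⟩
  have IH : ∀ (V : Subgroup Ω) (hV : F.IsFullyNormalized V), ¬ F.IsNormal V →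
      F.core ≤ normalizerIn S V →
      (∀ (P : Subgroup Ω) (φ : P →* Ω),
        φ ∈ (FusionAux.normSys F V hV.1).normalizerHom (wOf W (normalizerIn S V)) P →
          FixesElt z P φ) →
      ∀ (P : Subgroup Ω) (φ : P →* Ω), φ ∈ F.normalizerHom V P → FixesElt z P φ := by
    intro V hV hnV hB hg
    have hTp : IsPGroup p (normalizerIn S V) := hS.to_le (normalizerIn_le V)
    have hzT : z ∈ normalizerIn S V := centralizerIn_le_normalizerIn V (hzC V hV.1)
    have hl := localData_normSys hS hF hloc hV hB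
    rcases lt_or_eq_of_le (Subgroup.card_le_of_le (normalizerIn_le (S := S) V)) with h | h
    · exact IHn _ (hn ▸ h) _ hTp _ (normSys_saturated hS hF hV) hl rfl rfl z hzT hg
    · exact IHm _ (hm ▸ morph_normSys_lt F hV.1 hnV) hTp _ (normSys_saturated hS hF hV) hl
        (h.trans hn) rfl z hzT hg
  have hzW : ∀ T : Subgroup Ω, T ≤ S → z ∈ T → z ∈ wOf W T := by
    intro T hT hzT
    have : Finite T := finite_of_le ‹_› hT
    refine ⟨⟨z, hzT⟩, hWZ T (hS.to_le hT) (Subgroup.mem_center_iff.2 fun g => Subtype.ext ?_), rfl⟩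
    exact (mem_centralizerIn.1 (hzC T hT)).2 g g.2
  have hB : F.IsNormal F.core := FusionAlperin.isNormal_core F
  by_cases hzB : z ∈ F.core
  · have hBn := FusionAlperin.isNormal_le_normalizer hB
    suffices haut : ∀ α ∈ F.autGroup F.core, (α ⟨z, hzB⟩ : Ω) = z by
      intro P φ hφ x hx
      obtain ⟨ψ, hψ, hψe, hψU⟩ := hB.2 P φ hφ
      have hres := restr_mem F (le_sup_right (a := P)) hψ
      have hrng : (restr le_sup_right ψ).range = F.core := by rw [range_restr]; exact hψU
      have hψz : ψ ⟨z, Subgroup.mem_sup_right hzB⟩ = z := by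
        have h := haut _ (toIso_mem_autGroup F hres hrng)
        rw [toIso_coe] at h
        exact h
      rcases hx with hx | hx
      · rw [hx, ← hψe, show Subgroup.inclusion le_sup_left x =
          (⟨z, Subgroup.mem_sup_right hzB⟩ : ↥(P ⊔ F.core)) from Subtype.ext hx]
        exact hψz
      · have h1 : ψ (Subgroup.inclusion le_sup_left x) = ψ ⟨z, Subgroup.mem_sup_right hzB⟩ := by
          rw [hψe, hψz, hx]
        have h2 := congrArg Subtype.val (F.injective_of_mem hψ h1)
        rw [hx]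
        exact h2.symm
    have hfnB := FusionCrit.isFullyNormalized_of_normal F hB.1 hBn
    by_cases hCN : F.IsNormal (F.core ⊔ centralizerIn S F.core)
    · have hCB : F.core ⊔ centralizerIn S F.core ≤ F.core :=
        le_sSup (s := {Q | F.IsNormal Q}) hCN
      have hBc : F.IsCentric F.core := centric_of_fullyCentralized
        (saturated_fullyNormalized hS hF hfnB).1 (le_sup_right.trans hCB)
      exact fixes_core hW hS hC hB.1 (inf_eq_left.2 hBn) (hloc _ hfnB hBc le_rfl) hzB
        (hzW S le_rfl hzS) hH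
    · intro α hα
      obtain ⟨hCn, χ, hχ, hχe⟩ := exists_ext_sup_centralizer hS hF hB.1 hBn hα
      have hfn := FusionCrit.isFullyNormalized_of_normal F
        (sup_le hB.1 (centralizerIn_le (S := S) F.core)) hCn
      have hgood : FixesElt z _ χ := IH _ hfn hCN (hB.1.trans (inf_eq_left.2 hCn).ge)
        (fun P φ hφ => hH P φ (normalizerHom_of_normSys hfn.1 (inf_eq_left.2 hCn) hφ)) _ χ hχ
      rw [← hχe]
      exact hgood _ (Or.inl rfl)
  refine ChainAbove.good_of_chain_above hS hF hW (isClosedProp_fixes F z) (fun U => z ∈ U) hH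
    ?_ ?_ ?_ (fun U hU hzU => hzB (le_sSup (s := {Q | F.IsNormal Q}) hU hzU)) hB ?_
  · intro Q _ hzQ α _ x hx
    rcases hx with hx | hx
    · exact absurd (hx ▸ x.2) hzQ
    · have hmem : ((α x : Q) : Ω) ∈ Q := (α x).2
      exact absurd (show z ∈ Q from hx ▸ hmem) hzQ
  · intro V hV _
    exact hzW _ (normalizerIn_le V) (centralizerIn_le_normalizerIn V (hzC V hV))
  · intro N θ hθ hg U hUN hzU
    exact (mem_map_subgroupOf θ).2 ⟨⟨z, hUN hzU⟩, hzU, hg ⟨z, hUN hzU⟩ (Or.inl rfl)⟩
  · exact fun V hV hnV hBV hg => IH V hV hnV hBV hg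

end Cfsg.Agent.FusionAux.FreeCenter
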