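import Cfsg.Agent.FusionAux.NoOffender
import Cfsg.Agent.CF.ClassTwoFactor

/-!
In an `S₄`-free group with `C(O₂) ≤ O₂`, a Sylow 2-subgroup `S` satisfies
`X = ⟨C(Z(S)), N(J(S))⟩`, `J` the elementary abelian Thompson subgroup.
-/

set_option autoImplicit false
set_option linter.unusedSectionVars false

open scoped IsMulCommutative

namespace Cfsg.Agent.FusionAux.MinParabolic

open Cfsg.Agent.CF (IsSyl Nz omZ actHom fixSub)
open Cfsg.Agent.Fusion (cj cj_eq_of_mem)

universe u

variable {X : Type u} [Group X] [Finite X]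

/-- `C(O₂) ≤ O₂`. -/
abbrev Constr (X : Type u) [Group X] : Prop :=
  Subgroup.centralizer ((Cfsg.pCore 2 X : Subgroup X) : Set X) ≤ Cfsg.pCore 2 X

/-- The centre of a subgroup, as a subgroup. -/
abbrev zOf (S : Subgroup X) : Subgroup X := S ⊓ Subgroup.centralizer (S : Set X)

/-- Fixed points of a Sylow 2-subgroup in an abelian normal subgroup are central once those of
order two are. -/
theorem commute_of_omega [Fact (Nat.Prime 2)] (S : Sylow 2 X) {H A : Subgroup X}
    (hSH : (S : Subgroup X) ≤ H) [hA : A.Normal] [IsMulCommutative A]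
    (hom : ∀ w ∈ A, (∀ s ∈ (S : Subgroup X), s * w = w * s) → w ^ 2 = 1 → ∀ h ∈ H, h * w = w * h) :
    ∀ j : ℕ, ∀ z ∈ A, (∀ s ∈ (S : Subgroup X), s * z = z * s) → z ^ 2 ^ j = 1 →
      ∀ h ∈ H, h * z = z * h := by
  intro j
  induction j with
  | zero =>
    intro z _ _ hz h _
    rw [pow_zero, pow_one] at hz
    rw [hz, mul_one, one_mul]
  | succ j ih =>
    intro z hzA hzS hz h hh
    have hz2 : ∀ k ∈ H, k * (z * z) = z * z * k := ih (z * z) (A.mul_mem hzA hzA)
      (fun s hs => by rw [← mul_assoc, hzS s hs, mul_assoc, hzS s hs, ← mul_assoc])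
      (by rw [← sq, ← pow_mul, ← pow_succ', hz])
    set S' : Subgroup H := (S : Subgroup X).subgroupOf H with hS'
    have hodd : Odd (Nat.card (H ⧸ S')) := by
      refine Nat.not_even_iff_odd.1 fun he => (IsSyl.sylow_inf hSH).idx ?_
      exact (even_iff_two_dvd.1 he)
    have : Fintype (H ⧸ S') := Fintype.ofFinite _
    let c : H → A := fun k => ⟨(k : X) * z * (k : X)⁻¹, hA.conj_mem z hzA k⟩
    have hc : ∀ k : H, ∀ s ∈ S', c (k * s) = c k := fun k s hs => Subtype.ext (by
      show (k : X) * s * z * ((k : X) * s)⁻¹ = (k : X) * z * (k : X)⁻¹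
      rw [mul_assoc (k : X), hzS s (Subgroup.mem_subgroupOf.1 hs)]
      group)
    have hout : ∀ k : H, c (QuotientGroup.mk (s := S') k).out = c k := fun k => by
      obtain ⟨s, hs⟩ := QuotientGroup.mk_out_eq_mul S' k
      rw [hs, hc k s s.2]
    set N : A := ∏ q : H ⧸ S', c q.out with hN
    let τ : H → (A →* A) := fun k => ((MulAut.conjNormal (H := A)) (k : X)).toMonoidHom
    have hτ : ∀ (k : H) (a : A), ((τ k a : A) : X) = (k : X) * a * (k : X)⁻¹ := fun k a =>
      MulAut.conjNormal_apply _ _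
    have hfix : ∀ k : H, τ k N = N := fun k => by
      rw [hN, map_prod]
      refine Fintype.prod_equiv (MulAction.toPerm k) _ _ fun q => ?_
      refine QuotientGroup.induction_on q fun m => ?_
      rw [hout, MulAction.toPerm_apply, MulAction.Quotient.smul_mk, hout]
      exact Subtype.ext (by rw [hτ]; simp [c, mul_assoc])
    set za : A := ⟨z, hzA⟩
    have hd : ∀ q : H ⧸ S', (za⁻¹ * c q.out) ^ 2 = 1 := by
      intro q
      have h1 : c q.out ^ 2 = za ^ 2 := Subtype.ext (by
        show ((q.out : X) * z * (q.out : X)⁻¹) ^ 2 = z ^ 2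
        rw [conj_pow, sq, hz2 _ q.out.2, mul_inv_cancel_right])
      rw [mul_pow, h1, inv_pow, inv_mul_cancel]
    set w : A := ∏ q : H ⧸ S', za⁻¹ * c q.out with hw
    have hw2 : w ^ 2 = 1 := by
      rw [hw, ← Finset.prod_pow]
      exact Finset.prod_eq_one fun q _ => hd q
    have hNw : N = za ^ Nat.card (H ⧸ S') * w := by
      rw [hN, hw, Finset.prod_mul_distrib, Finset.prod_const, Finset.card_univ,
        Nat.card_eq_fintype_card, ← mul_assoc, inv_pow, mul_inv_cancel, one_mul]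
    have hcomN : ∀ k ∈ H, k * (N : X) = (N : X) * k := fun k hk => by
      have h1 := congrArg Subtype.val (hfix ⟨k, hk⟩)
      rw [hτ] at h1
      exact mul_inv_eq_iff_eq_mul.1 h1
    have hwc : ∀ k ∈ H, k * (w : X) = (w : X) * k := by
      refine hom w w.2 (fun s hs => ?_) (congrArg Subtype.val hw2)
      have h1 : Commute s (N : X) := hcomN s (hSH hs)
      have h2 : Commute s (z ^ Nat.card (H ⧸ S')) := (show Commute s z from hzS s hs).pow_right _
      have h3 : (w : X) = (z ^ Nat.card (H ⧸ S'))⁻¹ * (N : X) := by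
        rw [hNw]
        simp [za]
      rw [h3]
      exact (h2.inv_right.mul_right h1).eq
    obtain ⟨i, hi⟩ := hodd
    have h4 : z = (N : X) * (w : X)⁻¹ * ((z * z) ^ i)⁻¹ := by
      rw [hNw, hi, Subgroup.coe_mul, SubmonoidClass.coe_pow, mul_inv_cancel_right, ← sq,
        ← pow_mul, eq_mul_inv_iff_mul_eq, ← pow_succ']
    have c1 : Commute h (N : X) := hcomN h hh
    have c2 : Commute h (w : X) := hwc h hh
    have c3 : Commute h (z * z) := hz2 h hh
    rw [h4]
    exact ((c1.mul_right c2.inv_right).mul_right (c3.pow_right i).inv_right).eq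

/-- `C(Ω₁Z(S))` centralizes `Z(S)`. -/
theorem centralizer_omZ_le [Fact (Nat.Prime 2)] (hC : Constr X) (S : Sylow 2 X) :
    Subgroup.centralizer (omZ 2 (S : Subgroup X) : Set X) ≤
      Subgroup.centralizer (zOf (S : Subgroup X) : Set X) := by
  set Q := Cfsg.pCore 2 X with hQ
  have hQS : Q ≤ (S : Subgroup X) := Cores.pCore_le_sylow S
  let A : Subgroup X := Q ⊓ Subgroup.centralizer (Q : Set X)
  have : (Subgroup.centralizer (Q : Set X)).Normal := by infer_instance
  have : A.Normal := Subgroup.normal_inf_normal _ _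
  have : IsMulCommutative A := ⟨⟨fun a b => Subtype.ext
    (Subgroup.mem_centralizer_iff.1 b.2.2 a a.2.1)⟩⟩
  have hSC : (S : Subgroup X) ≤ Subgroup.centralizer (omZ 2 (S : Subgroup X) : Set X) :=
    Subgroup.le_centralizer_iff.1 ((CF.omZ_le_inf 2 _).trans inf_le_right)
  intro g hg
  rw [Subgroup.mem_centralizer_iff]
  intro z hz
  have hzQ : z ∈ Q := hC (Subgroup.centralizer_le hQS hz.2)
  obtain ⟨j, hj⟩ := S.2 ⟨z, hz.1⟩
  refine (commute_of_omega S hSC (A := A) (fun w hw hwS hw2 k hk => ?_) j z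
    ⟨hzQ, Subgroup.centralizer_le hQS hz.2⟩ (fun s hs => ?_) (congrArg Subtype.val hj) g hg).symm
  · refine (Subgroup.mem_centralizer_iff.1 hk w (Subgroup.subset_closure
      ⟨⟨hQS hw.1, ?_⟩, hw2⟩)).symm
    exact Subgroup.mem_centralizer_iff.2 hwS
  · exact Subgroup.mem_centralizer_iff.1 hz.2 s hs

theorem elemAb_sq {A : Subgroup X} (hA : Cfsg.IsElementaryAbelian 2 A) :
    ∀ a ∈ A, a * a = 1 := fun a ha => by rw [← sq]; exact hA.2 a ha

/-- A minimal parabolic centralizes `Z(S)` or normalizes `J(S)`. -/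
theorem cases_unique [Fact (Nat.Prime 2)] (hC : Constr X)
    (hS4 : ¬ Cfsg.Involves (Equiv.Perm (Fin 4)) X) (S : Sylow 2 X) {Mx : Subgroup X}
    (hu : NoOffender.Unique (S : Subgroup X) Mx) :
    Subgroup.centralizer (zOf (S : Subgroup X) : Set X) = ⊤ ∨
      Nz (Cfsg.thompsonSubgroupOf 2 (S : Subgroup X)) = ⊤ := by
  set Q := Cfsg.pCore 2 X with hQ
  have hQS : Q ≤ (S : Subgroup X) := Cores.pCore_le_sylow S
  have : (omZ 2 Q).Normal := CF.omZ_normal Q
  set V := Subgroup.normalClosure (omZ 2 (S : Subgroup X) : Set X) with hV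
  have hVn : V.Normal := Subgroup.normalClosure_normal
  have hVQ : V ≤ omZ 2 Q := by
    refine Subgroup.normalClosure_le_normal ((Subgroup.closure_le _).2 fun z hz => ?_)
    exact Subgroup.subset_closure ⟨⟨hC (Subgroup.centralizer_le hQS hz.1.2),
      Subgroup.centralizer_le hQS hz.1.2⟩, hz.2⟩
  have : IsMulCommutative V := ⟨⟨fun a b => Subtype.ext
    (Subgroup.mem_centralizer_iff.1 ((CF.omZ_le_inf 2 Q) (hVQ b.2)).2 a
      (CF.omZ_le 2 Q (hVQ a.2)))⟩⟩
  have hV2 : ∀ v ∈ V, v ^ 2 = 1 := fun v hv => CF.pow_eq_one_of_mem_omZ v (hVQ hv)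
  set C := Subgroup.centralizer (V : Set X) with hCdef
  have hCn : C.Normal := by rw [hCdef]; infer_instance
  have hCz : C ≤ Subgroup.centralizer (zOf (S : Subgroup X) : Set X) :=
    (Subgroup.centralizer_le Subgroup.le_normalClosure).trans (centralizer_omZ_le hC S)
  set π := QuotientGroup.mk' C with hπ
  have hπs : Function.Surjective π := QuotientGroup.mk'_surjective C
  -- the quotient has trivial 2-core
  have hO : Cfsg.pCore 2 (X ⧸ C) = ⊥ := by
    refine eq_bot_iff.2 fun q hq => Subgroup.mem_bot.2 ?_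
    obtain ⟨g, rfl⟩ := hπs q
    refine (QuotientGroup.eq_one_iff g).2 (Subgroup.mem_centralizer_iff.2 fun v hv => ?_)
    have : Cfsg.pCore 2 (X ⧸ C) ≤ (S.mapSurjective hπs : Subgroup (X ⧸ C)) :=
      Cores.pCore_le_sylow _
    have hle : V ≤ Subgroup.centralizer ({g} : Set X) := by
      rw [hV]
      refine (Subgroup.closure_le _).2 fun w hw => ?_
      obtain ⟨z, hz, hc⟩ := Group.mem_conjugatesOfSet_iff.1 hw
      obtain ⟨k, rfl⟩ := isConj_iff.1 hc
      rw [SetLike.mem_coe, Subgroup.mem_centralizer_singleton_iff]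
      have h1 : π (k⁻¹ * g * k) ∈ Cfsg.pCore 2 (X ⧸ C) := by
        simpa using (Cores.pCore_normal_inst (p := 2) (X ⧸ C)).conj_mem _ hq (π k)⁻¹
      obtain ⟨s, hs, he⟩ := (this h1 : π (k⁻¹ * g * k) ∈ (S : Subgroup X).map π)
      have h2 : s⁻¹ * (k⁻¹ * g * k) ∈ C := QuotientGroup.eq.1 he
      have h3 : z * (s⁻¹ * (k⁻¹ * g * k)) = s⁻¹ * (k⁻¹ * g * k) * z :=
        Subgroup.mem_centralizer_iff.1 h2 z (Subgroup.subset_normalClosure hz)
      have h4 : s * z = z * s :=
        Subgroup.mem_centralizer_iff.1 ((CF.omZ_le_inf 2 _) hz).2 s hs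
      have h5 : z * (k⁻¹ * g * k) = (k⁻¹ * g * k) * z := by
        calc z * (k⁻¹ * g * k) = z * s * (s⁻¹ * (k⁻¹ * g * k)) := by group
          _ = s * (z * (s⁻¹ * (k⁻¹ * g * k))) := by rw [← h4]; group
          _ = (k⁻¹ * g * k) * z := by rw [h3]; group
      symm
      calc g * (k * z * k⁻¹) = k * ((k⁻¹ * g * k) * z) * k⁻¹ := by group
        _ = k * (z * (k⁻¹ * g * k)) * k⁻¹ := by rw [h5]
        _ = k * z * k⁻¹ * g := by group
    exact Subgroup.mem_centralizer_singleton_iff.1 (hle hv)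
  by_cases hCM : C ≤ Mx
  swap
  · -- then the quotient is a 2-group, hence trivial
    left
    have hCS : C ⊔ (S : Subgroup X) = ⊤ := by
      by_contra h
      exact hCM (le_sup_left.trans (hu.max _ le_sup_right h))
    have hmap : (S : Subgroup X).map π = ⊤ := by
      rw [eq_top_iff, ← Subgroup.map_top_of_surjective π hπs, ← hCS, Subgroup.map_sup,
        QuotientGroup.map_mk'_self, bot_sup_eq]
    have h2 : IsPGroup 2 (X ⧸ C) := by
      have := (S.2.map π)
      rw [hmap] at this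
      exact this.of_equiv Subgroup.topEquiv
    rw [Cores.pCore_eq_top_of_isPGroup h2] at hO
    refine eq_top_iff.2 fun g _ => hCz ((QuotientGroup.eq_one_iff g).1 ?_)
    exact Subgroup.mem_bot.1 (hO.le (Subgroup.mem_top _))
  -- `J(S)` centralizes `V`
  right
  set S' : Sylow 2 (X ⧸ C) := S.mapSurjective hπs
  have hu' : NoOffender.Unique (S' : Subgroup (X ⧸ C)) (Mx.map π) := by
    refine ⟨Subgroup.map_mono hu.le, fun h => hu.ne ?_, fun K hSK hK => ?_⟩
    · rw [← Subgroup.comap_map_eq_self ((QuotientGroup.ker_mk' C).trans_le hCM), h,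
        Subgroup.comap_top]
    · rw [← Subgroup.map_comap_eq_self_of_surjective hπs K]
      refine Subgroup.map_mono (hu.max _ (Subgroup.map_le_iff_le_comap.1 hSK) fun h => hK ?_)
      rw [← Subgroup.map_comap_eq_self_of_surjective hπs K, h,
        Subgroup.map_top_of_surjective π hπs]
  have hJC : ∀ A ∈ Modules.maxElemAbIn 2 (S : Subgroup X), A ≤ C := by
    rintro A ⟨hAS, hA, hmax⟩
    by_contra hAC
    refine NoOffender.not_isOff (φ := actHom V) (CF.actHom_injective V)
      (fun v => Subtype.ext (by show (v : X) * v = 1; rw [← sq]; exact hV2 v v.2)) hO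
      (CF.not_involves_three V ((IsPGroup.to_le S.2
        (hVQ.trans ((CF.omZ_le 2 Q).trans hQS)))) hS4) S' hu' (A.map π) ⟨?_, ?_, ?_⟩
    · rw [Ne, Subgroup.map_eq_bot_iff, QuotientGroup.ker_mk']
      exact hAC
    · rintro _ ⟨a, ha, rfl⟩
      rw [← map_mul, elemAb_sq hA a ha, map_one]
    · exact CF.card_le_of_max V hA (hmax _
        (sup_le (inf_le_left.trans hAS) (hVQ.trans ((CF.omZ_le 2 Q).trans hQS)))
        (CF.elemAb_competitor V hV2 hA))
  set T := (S : Subgroup X) ⊓ C with hT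
  have hJ : Cfsg.thompsonSubgroupOf 2 T = Cfsg.thompsonSubgroupOf 2 (S : Subgroup X) := by
    obtain ⟨A₀, hA₀⟩ := Modules.maxElemAbIn_nonempty 2 (S : Subgroup X)
    rw [Modules.thompsonSubgroupOf_eq_sSup, Modules.thompsonSubgroupOf_eq_sSup]
    congr 1
    ext A
    constructor
    · exact fun hA => ⟨hA.1.trans inf_le_left, hA.2.1, fun B hB hBe => (hA₀.2.2 B hB hBe).trans
        (hA.2.2 A₀ (le_inf hA₀.1 (hJC A₀ hA₀)) hA₀.2.1)⟩
    · exact fun hA => ⟨le_inf hA.1 (hJC A hA), hA.2.1, fun B hB hBe =>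
        hA.2.2 B (hB.trans inf_le_left) hBe⟩
  by_contra hne
  have hSJ : (S : Subgroup X) ≤ Nz (Cfsg.thompsonSubgroupOf 2 (S : Subgroup X)) := by
    intro s hs
    rw [CF.mem_Nz, cj, Modules.map_thompsonSubgroupOf (MulAut.conj s).injective]
    exact congrArg _ (cj_eq_of_mem (Subgroup.le_normalizer hs))
  have hNM : Nz T ≤ Mx := by
    refine le_trans (fun g hg => ?_) (hu.max _ hSJ hne)
    rw [← hJ, CF.mem_Nz, cj, Modules.map_thompsonSubgroupOf (MulAut.conj g).injective]
    exact congrArg _ (cj_eq_of_mem hg)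
  refine hu.ne (eq_top_iff.2 fun g _ => ?_)
  obtain ⟨n, hn, y, -, hy, rfl⟩ := (CF.isSyl_sylow S).frattini le_top
    (Subgroup.normalizer_eq_top_iff.2 hCn).ge (Subgroup.mem_top g)
  exact Mx.mul_mem (hCM hn) (hNM hy)

/-- The generation theorem. -/
theorem generation [Fact (Nat.Prime 2)] (hC : Constr X)
    (hS4 : ¬ Cfsg.Involves (Equiv.Perm (Fin 4)) X) (S : Sylow 2 X) :
    Subgroup.centralizer (zOf (S : Subgroup X) : Set X) ⊔
      Nz (Cfsg.thompsonSubgroupOf 2 (S : Subgroup X)) = ⊤ := by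
  set G₀ := Subgroup.centralizer (zOf (S : Subgroup X) : Set X) ⊔
    Nz (Cfsg.thompsonSubgroupOf 2 (S : Subgroup X)) with hG₀
  suffices h : ∀ K : Subgroup X, (S : Subgroup X) ≤ K → K ≤ G₀ from eq_top_iff.2 (h ⊤ le_top)
  intro K
  induction K using WellFoundedLT.induction with
  | _ K ih =>
    intro hSK
    have hSC : (S : Subgroup X) ≤ Subgroup.centralizer (zOf (S : Subgroup X) : Set X) :=
      Subgroup.le_centralizer_iff.1 inf_le_right
    rcases eq_or_lt_of_le hSK with h | hlt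
    · exact h ▸ hSC.trans le_sup_left
    obtain ⟨M₁, -, hM₁⟩ := (Set.toFinite {M : Subgroup X | (S : Subgroup X) ≤ M ∧ M < K}).exists_le_maximal
      (a := (S : Subgroup X)) ⟨le_rfl, hlt⟩
    by_cases hu : ∀ M : Subgroup X, (S : Subgroup X) ≤ M → M < K → M ≤ M₁
    swap
    · push Not at hu
      obtain ⟨M₂, hSM₂, hM₂K, hM₂⟩ := hu
      have hsup : M₁ ⊔ M₂ = K := by
        refine (eq_or_lt_of_le (sup_le hM₁.prop.2.le hM₂K.le)).resolve_right fun h => hM₂ ?_
        exact le_sup_right.trans_eq (hM₁.eq_of_le ⟨hM₁.prop.1.trans le_sup_left, h⟩ le_sup_left).symm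
      rw [← hsup]
      exact sup_le (ih M₁ hM₁.prop.2 hM₁.prop.1) (ih M₂ hM₂K hSM₂)
    set SK : Sylow 2 K := S.subtype hSK
    have hSKc : (SK : Subgroup K).map K.subtype = (S : Subgroup X) :=
      Subgroup.map_subgroupOf_eq_of_le hSK
    have hQS : Cfsg.pCore 2 X ≤ (S : Subgroup X) := Cores.pCore_le_sylow S
    have hQK : (Cfsg.pCore 2 X).subgroupOf K ≤ Cfsg.pCore 2 K :=
      Cores.le_pCore inferInstance Cores.pCore_isPGroup.comap_subtype
    have hCK : Constr K := fun k hk => hQK (Subgroup.mem_subgroupOf.2 (hC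
      (Subgroup.mem_centralizer_iff.2 fun q hq => congrArg Subtype.val
        (Subgroup.mem_centralizer_iff.1 hk ⟨q, hSK (hQS hq)⟩
          (hQK (Subgroup.mem_subgroupOf.2 hq))))))
    have huK : NoOffender.Unique (SK : Subgroup K) (M₁.subgroupOf K) := by
      refine ⟨fun s hs => hM₁.prop.1 hs, fun h => hM₁.prop.2.not_ge (Subgroup.subgroupOf_eq_top.1 h),
        fun L hL hne => ?_⟩
      have h1 : L.map K.subtype < K := by
        refine lt_of_le_of_ne (Subgroup.map_subtype_le L) fun h => hne ?_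
        rw [← Subgroup.comap_map_eq_self_of_injective K.subtype_injective L, h]
        exact Subgroup.subgroupOf_self K
      intro l hl
      exact hu _ (hSKc ▸ Subgroup.map_mono hL) h1 ⟨l, hl, rfl⟩
    rcases cases_unique hCK (fun h => hS4 (EvenLocal.involves_subgroup h)) SK huK with h | h
    · refine le_trans (fun k hk => Subgroup.mem_centralizer_iff.2 fun z hz => ?_) le_sup_left
      have hzK : (⟨z, hSK hz.1⟩ : K) ∈ zOf (SK : Subgroup K) := by
        refine ⟨hz.1, Subgroup.mem_centralizer_iff.2 fun s hs => Subtype.ext ?_⟩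
        exact Subgroup.mem_centralizer_iff.1 hz.2 s hs
      exact congrArg Subtype.val (Subgroup.mem_centralizer_iff.1
        (h.ge (Subgroup.mem_top (⟨k, hk⟩ : K))) _ hzK)
    · refine le_trans (fun k hk => ?_) le_sup_right
      have h1 := Subgroup.le_normalizer_map K.subtype
        ⟨⟨k, hk⟩, h.ge (Subgroup.mem_top _), rfl⟩
      rwa [Modules.map_thompsonSubgroupOf K.subtype_injective, hSKc] at h1

end Cfsg.Agent.FusionAux.MinParabolic
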