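import Cfsg.Agent.FusionAux.NPCInstances

/-!
Normal `p`-complements from the automizers of the characteristic subgroups of a Sylow subgroup.
-/

set_option autoImplicit false

open Cfsg Cfsg.FusionSystem Cfsg.Agent.FusionSys Cfsg.Agent.FusionModel Cfsg.Agent.FusionAux
  Cfsg.Agent.FusionBatch

namespace Cfsg.Agent.FusionAux.NPC

universe u

/-- `Q` is invariant under the automorphisms of `P`. -/
def CharIn {G : Type u} [Group G] (Q P : Subgroup G) : Prop :=
  ∀ φ : MulAut P, ∀ x : P, (x : G) ∈ Q → ((φ x : P) : G) ∈ Q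

theorem characteristic_of_charIn {G : Type u} [Group G] {Q P : Subgroup G} (h : CharIn Q P) :
    (Q.subgroupOf P).Characteristic :=
  Subgroup.characteristic_iff_le_comap.2 fun φ _ hx => h φ _ hx

theorem inf_centralizer_jA_le {G : Type u} [Group G] (P : Subgroup G) [Finite P] :
    P ⊓ Subgroup.centralizer (Cfsg.thompsonSubgroupAOf P : Set G) ≤ Cfsg.thompsonSubgroupAOf P :=
  (Modules.centerThompsonAOf_eq_centralizer P).ge.trans inf_le_left

theorem charIn_jA {G : Type u} [Group G] (P : Subgroup G) :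
    CharIn (Cfsg.thompsonSubgroupAOf P) P := by
  rintro φ x ⟨w, hw, hwx⟩
  obtain rfl : w = x := Subtype.ext hwx
  exact ⟨φ w, (Subgroup.characteristic_iff_le_comap.1
    (Modules.thompsonSubgroupA_characteristic P) φ) hw, rfl⟩

theorem charIn_zOf {G : Type u} [Group G] (P : Subgroup G) : CharIn (zOf P) P := by
  intro φ x hx
  refine ⟨(φ x).2, fun t ht => ?_⟩
  obtain ⟨t', ht'⟩ := φ.surjective ⟨t, ht⟩
  have h1 : (φ x : P) * φ t' = φ t' * φ x := by
    rw [← map_mul, ← map_mul, show x * t' = t' * x from Subtype.ext (hx.2 t' t'.2).symm]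
  rw [ht'] at h1
  exact (congrArg Subtype.val h1).symm

/-- The coprime trick. -/
theorem eq_one_of_fixed {G : Type u} [Group G] {p : ℕ} {g q z : G} (h : g * q * g⁻¹ = q * z)
    (hgz : Commute g z) {k : ℕ} (hz : z ^ p ^ k = 1) (hgo : (orderOf g).Coprime p) : z = 1 := by
  have hiter : ∀ n : ℕ, g ^ n * q * (g ^ n)⁻¹ = q * z ^ n := by
    intro n
    induction n with
    | zero => simp
    | succ n ih =>
      calc g ^ (n + 1) * q * (g ^ (n + 1))⁻¹ = g * (g ^ n * q * (g ^ n)⁻¹) * g⁻¹ := by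
            rw [pow_succ' g]; simp [mul_assoc]
        _ = (g * q * g⁻¹) * (g * z ^ n * g⁻¹) := by rw [ih]; simp [mul_assoc]
        _ = _ := by rw [h, (hgz.pow_right n).eq, mul_inv_cancel_right, pow_succ', mul_assoc]
  have h1 := hiter (orderOf g)
  rw [pow_orderOf_eq_one, one_mul, inv_one, mul_one, left_eq_mul] at h1
  have h2 := Nat.dvd_gcd (orderOf_dvd_of_pow_eq_one h1) (orderOf_dvd_of_pow_eq_one hz)
  rwa [(hgo.pow_right k).gcd_eq_one, Nat.dvd_one, orderOf_eq_one_iff] at h2

/-- The criterion in finite groups. -/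
theorem npc_of_char {p : ℕ} [hp : Fact p.Prime] :
    ∀ (n : ℕ) {L : Type u} [Group L] [Finite L], Nat.card L = n →
      (p ≠ 2 ∨ ¬ Involves (Equiv.Perm (Fin 4)) L) → ∀ P : Sylow p L,
      (∀ Q : Subgroup L, Q ≤ (P : Subgroup L) → Q ≠ ⊥ → CharIn Q (P : Subgroup L) →
        ∀ g ∈ Subgroup.normalizer (Q : Set L), (orderOf g).Coprime p →
          g ∈ Subgroup.centralizer (Q : Set L)) → HasNormalPComplement p L := by
  intro n
  induction n using Nat.strong_induction_on with
  | _ n IH =>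
  intro L _ _ hn hfree P h
  rcases eq_or_ne (P : Subgroup L) ⊥ with hP1 | hP1
  · refine ⟨P, ⊤, inferInstance, ?_⟩
    rw [hP1]
    exact Subgroup.isComplement'_top_bot
  set J := Cfsg.thompsonSubgroupAOf (P : Subgroup L) with hJ
  have hJP : J ≤ (P : Subgroup L) := Modules.thompsonSubgroupAOf_le _
  have hJc := inf_centralizer_jA_le (P : Subgroup L)
  have hJ1 : J ≠ ⊥ := fun e => zOf_ne_bot P.2 hP1
    (le_bot_iff.1 ((LocalP.center_le_thompsonA (P : Subgroup L)).trans e.le))
  refine Cfsg.Agent.S2800.npc_aux P hfree ?_ ?_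
  swap
  · -- the normalizer of `J`
    set X := Subgroup.normalizer (J : Set L) with hX
    have hPX : (P : Subgroup L) ≤ X := fun x hx =>
      le_normalizer_wOf_self (ThompsonCenter.jA_natural p) P.2 hx
    refine Transfer.hasNormalPComplement_of_coprime_centralize fun Q hQ _ g hg hgo => ?_
    obtain ⟨Q₁, hQ₁⟩ := hQ.exists_le_sylow
    obtain ⟨c, hc⟩ := MulAction.exists_smul_eq X Q₁ (P.subtype hPX)
    refine Subgroup.mem_centralizer_iff.2 fun q hq => ?_
    set g' : X := c * g * c⁻¹ with hg'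
    set q' : X := c * q * c⁻¹ with hq'
    have hgo' : (orderOf (g' : L)).Coprime p := by
      rw [Subgroup.orderOf_coe, hg', show c * g * c⁻¹ = MulAut.conj c g from rfl,
        MulEquiv.orderOf_eq]
      exact hgo
    have hgJ : (g' : L) ∈ Subgroup.centralizer (J : Set L) :=
      h J hJP hJ1 (charIn_jA _) g' g'.2 hgo'
    have hmem : ∀ r ∈ Q, ((c * r * c⁻¹ : X) : L) ∈ (P : Subgroup L) := by
      intro r hr
      have h1 : c * r * c⁻¹ ∈ ((P.subtype hPX : Sylow p X) : Subgroup X) := by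
        rw [← hc, Sylow.coe_subgroup_smul]
        exact ⟨r, hQ₁ hr, rfl⟩
      exact h1
    have hqP : (q' : L) ∈ (P : Subgroup L) := hmem q hq
    have hgqP : (g' : L) * q' * (g' : L)⁻¹ ∈ (P : Subgroup L) := by
      have h1 := hmem _ ((Subgroup.mem_normalizer_iff.1 hg q).1 hq)
      simpa [hg', hq', mul_assoc] using h1
    set z : L := (q' : L)⁻¹ * ((g' : L) * q' * (g' : L)⁻¹) with hz
    have hzP : z ∈ (P : Subgroup L) := mul_mem (inv_mem hqP) hgqP
    have hzJ : z ∈ J := by
      refine hJc ⟨hzP, fun j hj => ?_⟩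
      have hq1 : (q' : L) * j * (q' : L)⁻¹ ∈ J := (Subgroup.mem_normalizer_iff.1 q'.2 j).1 hj
      have e1 : (g' : L) * ((q' : L) * j * (q' : L)⁻¹) * (g' : L)⁻¹ = (q' : L) * j * (q' : L)⁻¹ := by
        rw [← hgJ _ hq1, mul_inv_cancel_right]
      have e2 : (g' : L) * j * (g' : L)⁻¹ = j := by rw [← hgJ j hj, mul_inv_cancel_right]
      -- both conjugations fix `j`
      have e3 : (g' : L)⁻¹ * j * g' = j := by
        rw [mul_assoc, hgJ j hj, inv_mul_cancel_left]
      have e4 : z * j * z⁻¹ = j := by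
        calc z * j * z⁻¹ = (q' : L)⁻¹ * ((g' : L) * ((q' : L) * ((g' : L)⁻¹ * j * g') *
              (q' : L)⁻¹) * (g' : L)⁻¹) * q' := by rw [hz]; simp [mul_assoc]
          _ = j := by rw [e3, e1]; simp [mul_assoc]
      exact (mul_inv_eq_iff_eq_mul.1 e4).symm
    obtain ⟨k, hk⟩ := P.2 ⟨z, hzP⟩
    have hz1 : z = 1 := eq_one_of_fixed (g := (g' : L)) (q := q') (by rw [hz]; simp [mul_assoc])
      (hgJ z hzJ).symm (congrArg Subtype.val hk :) hgo'
    have h4 : Commute g' q' := Subtype.ext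
      (show (g' : L) * q' = q' * g' from mul_inv_eq_iff_eq_mul.1 (inv_mul_eq_one.1 hz1).symm)
    have h5 : Commute g q := by
      simpa [hg', hq', mul_assoc] using h4.map (MulAut.conj c⁻¹).toMonoidHom
    exact h5.eq.symm
  · -- the centralizer of the centre
    set Z := zOf (P : Subgroup L) with hZ
    have hZ1 : Z ≠ ⊥ := zOf_ne_bot P.2 hP1
    set X := Subgroup.centralizer (Z : Set L) with hX
    have hPX : (P : Subgroup L) ≤ X := fun x hx z hz => (hz.2 x hx).symm
    rcases eq_or_ne X ⊤ with hXtop | hXtop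
    swap
    · have hlt : Nat.card X < n := by
        rw [← hn, ← Subgroup.card_top (G := L)]
        exact FusionAux.card_lt_card_of_lt (S := (⊤ : Subgroup L)) le_rfl (lt_top_iff_ne_top.2 hXtop)
      refine IH _ hlt rfl (hfree.imp_right fun hni hi => hni (EvenLocal.involves_subgroup hi))
        (P.subtype hPX) fun Q hQP hQ1 hQc g hg hgo => ?_
      have hmap : ∀ y : X, (y : L) ∈ Q.map X.subtype ↔ y ∈ Q := fun y =>
        Subgroup.mem_map_iff_mem X.subtype_injective
      have hQP' : Q.map X.subtype ≤ (P : Subgroup L) := by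
        rintro _ ⟨y, hy, rfl⟩
        exact hQP hy
      refine Subgroup.mem_centralizer_iff.2 fun q hq => Subtype.ext ?_
      refine (h (Q.map X.subtype) hQP' ?_ ?_ g ?_ (by rwa [Subgroup.orderOf_coe])) q
        ((hmap q).2 hq)
      · rwa [ne_eq, Subgroup.map_eq_bot_iff_of_injective _ X.subtype_injective]
      · intro φ x hx
        let e : ((P.subtype hPX : Sylow p X) : Subgroup X) ≃* (P : Subgroup L) :=
          Subgroup.subgroupOfEquivOfLe hPX
        obtain ⟨w, hw⟩ := e.surjective x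
        have hwQ : (w : X) ∈ Q := by
          rw [← hmap]
          rwa [← hw] at hx
        have := hQc ((MulAut.congr e.symm) φ) w hwQ
        rw [← hmap] at this
        have e1 : ((e.symm (φ (e w)) : X) : L) = (φ x : L) := by
          rw [hw]
          rfl
        exact e1 ▸ this
      · have key : ∀ a ∈ Subgroup.normalizer (Q : Set X), ∀ y ∈ Q.map X.subtype,
            (a : L) * y * (a : L)⁻¹ ∈ Q.map X.subtype := by
          rintro a ha _ ⟨y, hy, rfl⟩
          exact ⟨a * y * a⁻¹, (Subgroup.mem_normalizer_iff.1 ha y).1 hy, rfl⟩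
        refine Subgroup.mem_normalizer_iff.2 fun y => ⟨key g hg y, fun hy => ?_⟩
        simpa [mul_assoc] using key g⁻¹ (inv_mem hg) _ hy
    -- the centre is central
    have hcen : ∀ z ∈ Z, ∀ g : L, g * z = z * g := fun z hz g =>
      ((hXtop.ge (Subgroup.mem_top g) : g ∈ Subgroup.centralizer (Z : Set L)) z hz).symm
    have hZn : Z.Normal := ⟨fun z hz g => by rwa [hcen z hz g, mul_inv_cancel_right]⟩
    set π := QuotientGroup.mk' Z with hπ
    have hπs : Function.Surjective π := QuotientGroup.mk'_surjective Z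
    have hπk : ∀ x, π x = 1 ↔ x ∈ Z := fun x => QuotientGroup.eq_one_iff x
    have hquot : HasNormalPComplement p (L ⧸ Z) := by
      have hlt : Nat.card (L ⧸ Z) < n := by
        rw [← hn, Subgroup.card_eq_card_quotient_mul_card_subgroup (α := L) Z]
        exact lt_mul_of_one_lt_right Nat.card_pos
          (Finite.one_lt_card_iff_nontrivial.2 ((Subgroup.nontrivial_iff_ne_bot Z).2 hZ1))
      refine IH _ hlt rfl (hfree.imp_right fun hni hi => hni
        (EvenLocal.involves_of_involves_image (A := (⊤ : Subgroup L))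
          (π.comp (⊤ : Subgroup L).subtype) (fun q => by
            obtain ⟨x, rfl⟩ := hπs q
            exact ⟨⟨x, trivial⟩, rfl⟩) hi)) (P.mapSurjective hπs) ?_
      intro Q hQP hQ1 hQc g hg hgo
      set Q' := (P : Subgroup L) ⊓ Q.comap π with hQ'
      have hQ'c : CharIn Q' (P : Subgroup L) := by
        intro φ x hx
        let f : (P : Subgroup L) →* ((P.mapSurjective hπs : Sylow p (L ⧸ Z)) : Subgroup (L ⧸ Z)) :=
          (π.comp (P : Subgroup L).subtype).codRestrict _ fun y => ⟨y, y.2, rfl⟩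
        have hf : Function.Surjective f := by
          rintro ⟨_, y, hy, rfl⟩
          exact ⟨⟨y, hy⟩, rfl⟩
        have hker : f.ker ≤ (f.comp φ.toMonoidHom).ker := by
          intro y hy
          have hy' : (y : L) ∈ Z := (hπk _).1 (congrArg Subtype.val hy)
          exact Subtype.ext ((hπk _).2 (charIn_zOf (P : Subgroup L) φ y hy'))
        let ψ := f.liftOfSurjective hf ⟨f.comp φ.toMonoidHom, hker⟩
        have hψ : ∀ y, ψ (f y) = f (φ y) := fun y =>
          f.liftOfRightInverse_comp_apply _ _ ⟨f.comp φ.toMonoidHom, hker⟩ y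
        have hψs : Function.Surjective ψ := by
          intro w
          obtain ⟨y, rfl⟩ := hf w
          obtain ⟨y', rfl⟩ := φ.surjective y
          exact ⟨f y', hψ y'⟩
        have hψb : Function.Bijective ψ := ⟨Finite.injective_iff_surjective.2 hψs, hψs⟩
        have h1 := hQc (MulEquiv.ofBijective ψ hψb) (f x) hx.2
        rw [MulEquiv.ofBijective_apply, hψ] at h1
        exact ⟨(φ x).2, h1⟩
      have hQ'1 : Q' ≠ ⊥ := by
        intro e
        refine hQ1 (le_bot_iff.1 fun y hy => ?_)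
        obtain ⟨x, hx, rfl⟩ := hQP hy
        rw [Subgroup.mem_bot.1 (e.le (⟨hx, hy⟩ : x ∈ Q'))]
        simp
      obtain ⟨x, rfl⟩ := hπs g
      obtain ⟨i, hi, hxi⟩ : ∃ i : ℕ, (orderOf (x ^ i)).Coprime p ∧ π (x ^ i) = π x := by
        obtain ⟨a, b, hb, hab⟩ := Nat.exists_eq_pow_mul_and_not_dvd
          (orderOf_pos x).ne' p hp.out.ne_one
        have hco : (p ^ a).Coprime (orderOf (π x)) := (hgo.pow_right a).symm
        obtain ⟨m, hm⟩ := exists_pow_eq_self_of_coprime hco
        refine ⟨p ^ a * m, ?_, by rw [map_pow, pow_mul, hm]⟩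
        have hd : orderOf (x ^ (p ^ a * m)) ∣ b := by
          refine orderOf_dvd_of_pow_eq_one ?_
          rw [← pow_mul, show p ^ a * m * b = (p ^ a * b) * m by ring, ← hab, pow_mul,
            pow_orderOf_eq_one, one_pow]
        exact (Nat.Coprime.coprime_dvd_left hd ((hp.out.coprime_iff_not_dvd.2 hb).symm))
      rw [← hxi] at hg ⊢
      have hxN : x ^ i ∈ Subgroup.normalizer (Q' : Set L) := by
        have key : ∀ a : L, π a ∈ Subgroup.normalizer (Q : Set (L ⧸ Z)) → ∀ y ∈ Q',
            a * y * a⁻¹ ∈ Q' := by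
          intro a ha y hy
          have h1 : π (a * y * a⁻¹) ∈ Q := by
            rw [map_mul, map_mul, map_inv]
            exact (Subgroup.mem_normalizer_iff.1 ha _).1 hy.2
          refine ⟨?_, h1⟩
          obtain ⟨w, hw, hwe⟩ := hQP h1
          have h2 : w⁻¹ * (a * y * a⁻¹) ∈ Z := (hπk _).1 (by
            rw [map_mul, map_inv, hwe, inv_mul_cancel])
          have h3 := mul_mem hw (show w⁻¹ * (a * y * a⁻¹) ∈ (P : Subgroup L) from h2.1)
          rw [mul_inv_cancel_left] at h3
          exact h3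
        refine Subgroup.mem_normalizer_iff.2 fun y => ⟨key _ hg y, fun hy => ?_⟩
        simpa [mul_assoc] using key (x ^ i)⁻¹ (by rw [map_inv]; exact inv_mem hg) _ hy
      have hc := h Q' inf_le_left hQ'1 hQ'c _ hxN hi
      refine Subgroup.mem_centralizer_iff.2 fun y hy => ?_
      obtain ⟨w, hw, rfl⟩ := hQP hy
      rw [← map_mul, hc w ⟨hw, hy⟩, map_mul]
    have hall : HasNormalPComplement p L := by
      refine Transfer.hasNormalPComplement_of_coprime_centralize fun Q hQ _ g hg hgo => ?_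
      refine Subgroup.mem_centralizer_iff.2 fun q hq => ?_
      have h1 := Transfer.centralize_of_hasNormalPComplement hquot (Q.map π) (hQ.map π)
        (g := π g) ?_ (hgo.coprime_dvd_left (orderOf_map_dvd π g))
      · set z := q⁻¹ * (g * q * g⁻¹) with hz
        have hzQ : z ∈ Q := mul_mem (inv_mem hq) ((Subgroup.mem_normalizer_iff.1 hg q).1 hq)
        have hzZ : z ∈ Z := (hπk z).1 (by
          have h2 := h1 (π q) ⟨q, hq, rfl⟩
          rw [hz, map_mul, map_mul, map_mul, map_inv, map_inv, ← h2, mul_inv_cancel_right,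
            inv_mul_cancel])
        obtain ⟨k, hk⟩ := hQ ⟨z, hzQ⟩
        have hz1 : z = 1 := eq_one_of_fixed (g := g) (q := q) (by rw [hz]; simp [mul_assoc])
          (hcen z hzZ g) (congrArg Subtype.val hk :) hgo
        exact (mul_inv_eq_iff_eq_mul.1 (inv_mul_eq_one.1 hz1).symm).symm
      · have key : ∀ a ∈ Subgroup.normalizer (Q : Set L), ∀ y ∈ Q.map π,
            π a * y * (π a)⁻¹ ∈ Q.map π := by
          rintro a ha _ ⟨y, hy, rfl⟩
          exact ⟨a * y * a⁻¹, (Subgroup.mem_normalizer_iff.1 ha y).1 hy, by simp⟩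
        refine Subgroup.mem_normalizer_iff.2 fun y => ⟨key g hg y, fun hy => ?_⟩
        simpa [mul_assoc] using key g⁻¹ (inv_mem hg) _ hy
    exact Transfer.hasNormalPComplement_subgroup X hall

/-! ### Fusion systems -/

/-- The automizers of the characteristic subgroups are `p`-groups. -/
def CharP {Ω : Type u} [Group Ω] {S : Subgroup Ω} (F : FusionSystem S) (p : ℕ) : Prop :=
  ∀ Q : Subgroup Ω, Q ≤ S → Q ≠ ⊥ → CharIn Q S → IsPGroup p (F.autGroup Q)

variable {Ω : Type u} [Group Ω] {S : Subgroup Ω} [Finite S] {p : ℕ} [Fact p.Prime]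

theorem normP_jA (hS : IsPGroup p S) (hS1 : S ≠ ⊥) {F : FusionSystem S} (hF : F.IsSaturated p)
    (h : CharP F p) : NormP F p (Cfsg.thompsonSubgroupAOf S) := by
  set J := Cfsg.thompsonSubgroupAOf S with hJ
  have hJS : J ≤ S := Modules.thompsonSubgroupAOf_le S
  have hJn : S ≤ Subgroup.normalizer (J : Set Ω) :=
    le_normalizer_wOf_self (ThompsonCenter.jA_natural p) hS
  have hJc : F.IsCentric J := centric_of_fullyCentralized
    (saturated_fullyNormalized hS hF (FusionCrit.isFullyNormalized_of_normal F hJS hJn)).1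
    (inf_centralizer_jA_le S)
  have hJ1 : J ≠ ⊥ := fun e => zOf_ne_bot hS hS1
    (le_bot_iff.1 (((Modules.center_le_centerThompsonAOf S).trans inf_le_left).trans e.le))
  intro P hP hJP α hα hαJ
  have hPS : P ≤ S := hP.trans (normalizerIn_le J)
  have : Finite P := finite_of_le ‹_› hPS
  have : Finite J := finite_of_le ‹_› hJS
  have hres := restr_mem F hJP (autGroup_mem_hom F hPS hα)
  have hr : (restr hJP (P.subtype.comp α.toMonoidHom)).range = J := by
    refine range_eq_of_image_le (F.injective_of_mem hres) ?_ le_rfl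
    rintro _ ⟨x, rfl⟩
    exact hαJ _ x.2
  obtain ⟨k, hk⟩ := h J hJS hJ1 (charIn_jA S) ⟨_, toIso_mem_autGroup F hres hr⟩
  have hk' : (toIso F hres hr) ^ p ^ k = 1 := congrArg Subtype.val hk
  have hfix : ∀ x : P, (x : Ω) ∈ J → (α ^ p ^ k) x = x := by
    intro x hx
    let f : J → P := Subgroup.inclusion hJP
    have h5 := pow_apply_of_factor (f := f) (α := toIso F hres hr) (β := α)
      (fun y => Subtype.ext rfl) (p ^ k) ⟨x, hx⟩
    rw [hk'] at h5
    exact h5
  obtain ⟨z, -, -, hz⟩ := maps_agree_on_centric hS hF hJP hJc (subtype_mem F hPS)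
    (autGroup_mem_hom F hPS (pow_mem hα (p ^ k))) fun x hx => congrArg Subtype.val (hfix x hx).symm
  have hconj : α ^ p ^ k = MulAut.conj z := MulEquiv.ext fun y => Subtype.ext (hz y)
  obtain ⟨l, hl⟩ := hS.to_le hPS z
  exact ⟨k + l, by rw [pow_add, pow_mul, hconj, ← map_pow, hl, map_one]⟩

omit [Finite S] in
/-- The criterion for fusion systems. -/
theorem inner_of_char : ∀ (m : ℕ) {Ω : Type u} [Group Ω] {S : Subgroup Ω} [Finite S],
    IsPGroup p S → ∀ (F : FusionSystem S), F.IsSaturated p →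
      (p ≠ 2 ∨ LocallyFree (Equiv.Perm (Fin 4)) p F) → CharP F p → (morph F).ncard = m →
        F = innerFusionSystem S := by
  intro m
  induction m using Nat.strong_induction_on with
  | _ m IH =>
  intro Ω _ S _ hS F hF hfree h hm
  rcases eq_or_ne S ⊥ with hS1 | hS1
  · exact inner_of_bot hS hF hS1
  have hcF := FusionAlperin.isNormal_core F
  have dich : ∀ V, V ≤ S → S ≤ Subgroup.normalizer (V : Set Ω) → ¬ F.IsNormal V →
      NormP F p V := by
    intro V hVS hVn hnV
    have hfn := FusionCrit.isFullyNormalized_of_normal F hVS hVn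
    have hT : normalizerIn S V = S := inf_eq_left.2 hVn
    refine normP_of_inner hS hfn.1 fun P => ?_
    have key : ∀ (T : Subgroup Ω) (E : FusionSystem T), T = S → (∀ P, E.Hom P ⊆ F.Hom P) →
        CharP E p := by
      rintro T E rfl hle Q hQ hQ1 hQc
      exact (h Q hQ hQ1 hQc).to_le fun α hα =>
        (mem_autGroup_iff_hom F hQ).2 (hle Q (autGroup_mem_hom E hQ hα))
    rw [IH _ (hm ▸ morph_normSys_lt F hfn.1 hnV) (hS.to_le (normalizerIn_le V)) _
      (normSys_saturated hS hF hfn)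
      (hfree.imp_right fun hl => localData_normSys hS hF hl hfn (hcF.1.trans hT.ge))
      (key _ _ hT fun P φ h => h.1) rfl]
  rcases inner_or_constrained hS hF hfree dich with h1 | ⟨-, hBc⟩
  · exact h1
  set B := F.core
  have hBn := FusionAlperin.isNormal_le_normalizer hcF
  have hfn := FusionCrit.isFullyNormalized_of_normal F hcF.1 hBn
  obtain ⟨L, hL, hfin, j, hj, ⟨P, hP⟩, hn, hcB, hni, haut, hhom⟩ :
      ∃ (L : Type u) (_ : Group L) (_ : Finite L) (j : S →* L), Function.Injective j ∧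
      (∃ P : Sylow p L, (P : Subgroup L) = j.range) ∧ ((B.subgroupOf S).map j).Normal ∧
      Subgroup.centralizer (((B.subgroupOf S).map j : Subgroup L) : Set L) ≤
        (B.subgroupOf S).map j ∧ (p ≠ 2 ∨ ¬ Involves (Equiv.Perm (Fin 4)) L) ∧
      (∀ α ∈ F.autGroup B, ∃ g : L, ∀ (x : B) (hx : (x : Ω) ∈ S) (hαx : (α x : Ω) ∈ S),
        j ⟨α x, hαx⟩ = g * j ⟨x, hx⟩ * g⁻¹) ∧
      ∀ (A : Subgroup Ω) (hA : A ≤ S) (φ : A →* Ω) (hφ : ∀ x, φ x ∈ S) (g : L),
        (∀ x : A, j ⟨φ x, hφ x⟩ = g * j ⟨x, hA x.2⟩ * g⁻¹) → φ ∈ F.Hom A := by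
    rcases hfree with hp | hl
    · have hl : LocallyFree (Multiplicative ℤ) p F := locallyFree_of_sectionFree hS hF
        fun _ _ _ _ _ L _ _ hM => have := hM.1; not_involves_infinite
      obtain ⟨L, iL, hfin, j, h1, h2, h3, h4, -, h6, h7⟩ :=
        localData_self (hl B hfn hBc le_rfl) (inf_eq_left.2 hBn)
      exact ⟨L, iL, hfin, j, h1, h2, h3, h4, Or.inl hp, h6, h7⟩
    · obtain ⟨L, iL, hfin, j, h1, h2, h3, h4, h5, h6, h7⟩ :=
        localData_self (hl B hfn hBc le_rfl) (inf_eq_left.2 hBn)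
      exact ⟨L, iL, hfin, j, h1, h2, h3, h4, Or.inr h5, h6, h7⟩
  refine inner_of_local hS hF hcF hBc hj P hP hn hcB haut
    (npc_of_char _ rfl hni P fun Q hQP hQ1 hQc g hg hgo => ?_)
  rw [hP] at hQP
  set A := (Q.comap j).map S.subtype with hA
  have hAS : A ≤ S := Subgroup.map_subtype_le _
  have hAmem : ∀ s : S, (s : Ω) ∈ A ↔ j s ∈ Q := by
    intro s
    constructor
    · rintro ⟨t, ht, hts⟩
      obtain rfl : t = s := Subtype.ext hts
      exact ht
    · exact fun h => ⟨s, h, rfl⟩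
  have hA1 : A ≠ ⊥ := by
    intro e
    refine hQ1 (le_bot_iff.1 fun y hy => ?_)
    obtain ⟨s, rfl⟩ := hQP hy
    rw [show s = 1 from Subtype.ext (Subgroup.mem_bot.1 (e.le ((hAmem s).2 hy)))]
    simp
  have hAc : CharIn A S := by
    intro φ x hx
    let e : S ≃* (P : Subgroup L) :=
      (MonoidHom.ofInjective hj).trans (MulEquiv.subgroupCongr hP.symm)
    have hex : ∀ s : S, ((e s : (P : Subgroup L)) : L) = j s := fun _ => rfl
    have h1 := hQc (MulAut.congr e φ) (e x) (by rw [hex]; exact (hAmem x).1 hx)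
    rw [show MulAut.congr e φ (e x) = e (φ x) from
      show e (φ (e.symm (e x))) = e (φ x) by rw [MulEquiv.symm_apply_apply], hex] at h1
    exact (hAmem _).2 h1
  obtain ⟨φ, hφS, hφe⟩ := exists_conj_map hj hAS g fun x =>
    hQP ((Subgroup.mem_normalizer_iff.1 hg _).1 ((hAmem ⟨x, hAS x.2⟩).1 x.2))
  have hφF := hhom A hAS φ hφS _ hφe
  have : Finite A := finite_of_le ‹_› hAS
  have hr : φ.range = A := by
    refine range_eq_of_image_le (F.injective_of_mem hφF) ?_ le_rfl
    rintro _ ⟨x, rfl⟩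
    refine (hAmem ⟨φ x, hφS x⟩).2 ?_
    rw [hφe x]
    exact (Subgroup.mem_normalizer_iff.1 hg _).1 ((hAmem ⟨x, hAS x.2⟩).1 x.2)
  obtain ⟨k, hk⟩ := h A hAS hA1 hAc ⟨_, toIso_mem_autGroup F hφF hr⟩
  have hiter : ∀ (m : ℕ) (x : A), j ⟨((toIso F hφF hr) ^ m) x, hAS (((toIso F hφF hr) ^ m) x).2⟩ =
      g ^ m * j ⟨x, hAS x.2⟩ * (g ^ m)⁻¹ := by
    intro m
    induction m with
    | zero => intro x; simp
    | succ m ih =>
      intro x
      calc j ⟨((toIso F hφF hr) ^ (m + 1)) x, hAS (((toIso F hφF hr) ^ (m + 1)) x).2⟩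
          = j ⟨φ (((toIso F hφF hr) ^ m) x), hφS _⟩ :=
            congrArg j (Subtype.ext (by rw [pow_succ']; rfl))
        _ = _ := hφe _
        _ = _ := by rw [ih x, pow_succ' g]; simp [mul_assoc]
  obtain ⟨t, ht⟩ := exists_pow_eq_self_of_coprime ((hgo.pow_right k).symm)
  refine Subgroup.mem_centralizer_iff.2 fun y hy => ?_
  obtain ⟨s, rfl⟩ := hQP hy
  have h1 := hiter (p ^ k) ⟨s, (hAmem s).2 hy⟩
  rw [show toIso F hφF hr ^ p ^ k = 1 from congrArg Subtype.val hk] at h1
  have h2 : Commute (g ^ p ^ k) (j s) := (eq_mul_inv_iff_mul_eq.1 h1).symm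
  have h3 := h2.pow_left t
  rw [ht] at h3
  exact h3.eq.symm

end Cfsg.Agent.FusionAux.NPC
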