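import Cfsg.Agent.CF.Offender
import Cfsg.Agent.CF.Basic
import Cfsg.Agent.EvenLocal.Involved
import Cfsg.Agent.Cores.Basic

/-!
An elementary no-offender theorem: a finite group without section `S₃`, with trivial 2-core and with
a Sylow 2-subgroup contained in a unique maximal subgroup, has no failure-of-factorization offender
on any faithful module over the field with two elements.

Proof: take an offender `A` of smallest order; it acts quadratically. Pushing up shows that `A` lies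
in a unique maximal subgroup; then `A` and a conjugate split the module as a natural module, and two
of their involutions induce `S₃` on a four-group.
-/

set_option autoImplicit false
set_option linter.unusedSectionVars false
set_option linter.style.haveILetI false

namespace Cfsg.Agent.FusionAux.NoOffender

open Subgroup
open Cfsg.Agent.Fusion (cj mem_cj conj_mem_cj cj_cj cj_inv_cj card_cj)
open Cfsg.Agent.CF (fixSub apply_mul IsSyl isSyl_sylow Nz)

universe u

variable {G : Type u} [Group G] {M : Type u} [CommGroup M]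

/-- The map `m ↦ a m / m`. -/
def delta (φ : G →* MulAut M) (a : G) : M →* M where
  toFun m := φ a m * m⁻¹
  map_one' := by simp
  map_mul' x y := by rw [map_mul, mul_inv, mul_mul_mul_comm]

theorem delta_apply (φ : G →* MulAut M) (a : G) (m : M) : delta φ a m = φ a m * m⁻¹ := rfl

theorem apply_eq_delta_mul (φ : G →* MulAut M) (a : G) (m : M) : φ a m = delta φ a m * m := by
  rw [delta_apply, inv_mul_cancel_right]

/-- An elementary abelian offender. -/
def IsOff (φ : G →* MulAut M) (A : Subgroup G) : Prop :=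
  A ≠ ⊥ ∧ (∀ a ∈ A, a * a = 1) ∧ Nat.card M ≤ Nat.card A * Nat.card (fixSub φ A)

/-- An offender none of whose proper subgroups is one. -/
def IsMinOff (φ : G →* MulAut M) (A : Subgroup G) : Prop :=
  IsOff φ A ∧ ∀ B, B < A → ¬ IsOff φ B

theorem commute_of_sq {A : Subgroup G} (hA : ∀ a ∈ A, a * a = 1) {a b : G} (ha : a ∈ A)
    (hb : b ∈ A) : a * b = b * a := by
  have inv : ∀ x ∈ A, x⁻¹ = x := fun x hx => inv_eq_of_mul_eq_one_right (hA x hx)
  rw [← inv _ (A.mul_mem ha hb), mul_inv_rev, inv a ha, inv b hb]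

theorem isPGroup_of_sq {A : Subgroup G} (hA : ∀ a ∈ A, a * a = 1) : IsPGroup 2 A := fun a =>
  ⟨1, Subtype.ext (by show (a : G) ^ 2 ^ 1 = 1; rw [pow_one, sq]; exact hA a a.2)⟩

theorem fixSub_anti (φ : G →* MulAut M) {A B : Subgroup G} (h : A ≤ B) :
    fixSub φ B ≤ fixSub φ A := fun _ hm a ha => hm a (h ha)

theorem fixSub_cj (φ : G →* MulAut M) (g : G) (A : Subgroup G) :
    fixSub φ (cj g A) = (fixSub φ A).map (φ g).toMonoidHom := by
  ext m
  constructor
  · intro hm
    refine ⟨φ g⁻¹ m, fun a ha => ?_, ?_⟩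
    · have h := hm (g * a * g⁻¹) (conj_mem_cj.2 ha)
      calc φ a (φ g⁻¹ m) = φ g⁻¹ (φ (g * a * g⁻¹) m) := by
            rw [← apply_mul, ← apply_mul]; congr 2; group
        _ = φ g⁻¹ m := by rw [h]
    · show φ g (φ g⁻¹ m) = m
      rw [← apply_mul, mul_inv_cancel, map_one]
      rfl
  · rintro ⟨m, hm, rfl⟩ x hx
    show φ x (φ g m) = φ g m
    rw [← apply_mul, show x * g = g * (g⁻¹ * x * g) by group, apply_mul, hm _ (mem_cj.1 hx)]

theorem IsOff.cj {φ : G →* MulAut M} {A : Subgroup G} (h : IsOff φ A) (g : G) :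
    IsOff φ (Cfsg.Agent.Fusion.cj g A) := by
  refine ⟨CF.cj_ne_bot h.1, ?_, ?_⟩
  · rintro _ ⟨a, ha, rfl⟩
    rw [← map_mul, h.2.1 a ha, map_one]
  · rw [card_cj, fixSub_cj, card_map_of_injective (φ g).injective]
    exact h.2.2

theorem IsMinOff.cj {φ : G →* MulAut M} {A : Subgroup G} (h : IsMinOff φ A) (g : G) :
    IsMinOff φ (Cfsg.Agent.Fusion.cj g A) := by
  refine ⟨h.1.cj g, fun B hB hoff => h.2 _ ?_ (hoff.cj g⁻¹)⟩
  have := CF.cj_lt_cj (g := g⁻¹) hB
  rwa [cj_inv_cj] at this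

theorem exists_minOff [Finite G] {φ : G →* MulAut M} {A : Subgroup G} (h : IsOff φ A) :
    ∃ B ≤ A, IsMinOff φ B := by
  induction A using WellFoundedLT.induction with
  | _ A ih =>
    by_cases hmin : ∀ B, B < A → ¬ IsOff φ B
    · exact ⟨A, le_rfl, h, hmin⟩
    · push Not at hmin
      obtain ⟨B, hB, hoff⟩ := hmin
      obtain ⟨C, hC, hCm⟩ := ih B hB hoff
      exact ⟨C, hC.trans hB.le, hCm⟩

variable [Finite G] [Finite M]

/-- A minimal offender is a best offender. -/
theorem IsMinOff.best {φ : G →* MulAut M} {A : Subgroup G} (h : IsMinOff φ A) {B : Subgroup G}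
    (hB : B ≤ A) :
    Nat.card B * Nat.card (fixSub φ B) ≤ Nat.card A * Nat.card (fixSub φ A) := by
  rcases eq_or_lt_of_le hB with rfl | hlt
  · exact le_rfl
  by_cases hb : B = ⊥
  · subst hb
    rw [Subgroup.card_bot, one_mul]
    exact ((fixSub φ (⊥ : Subgroup G)).card_le_card_group).trans h.1.2.2
  by_contra hlt'
  exact h.2 B hlt ⟨hb, fun a ha => h.1.2.1 a (hB ha), h.1.2.2.trans (not_le.1 hlt').le⟩

/-- A subgroup swallowed by the commutators with commuting quadratic maps is trivial. -/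
theorem eq_bot_of_le_delta {φ : G →* MulAut M} {A : Subgroup G} (hA : ∀ a ∈ A, a * a = 1)
    (hM : ∀ m : M, m * m = 1) (s : Finset G) :
    (∀ a ∈ s, a ∈ A) → ∀ N : Subgroup M, N ≤ (⨆ a ∈ s, N.map (delta φ a)) → N = ⊥ := by
  classical
  have hdd : ∀ a ∈ A, ∀ m, delta φ a (delta φ a m) = 1 := by
    intro a ha m
    simp only [delta_apply, map_mul, map_inv]
    rw [← apply_mul, hA a ha, map_one]
    show m * (φ a m)⁻¹ * (φ a m * m⁻¹)⁻¹ = 1
    rw [inv_eq_of_mul_eq_one_right (hM (φ a m)), inv_eq_of_mul_eq_one_right (hM m),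
      inv_eq_of_mul_eq_one_right (hM (φ a m * m)), mul_comm (φ a m) m, hM]
  have hcomm : ∀ a ∈ A, ∀ b ∈ A, (delta φ a).comp (delta φ b) = (delta φ b).comp (delta φ a) := by
    intro a ha b hb
    ext m
    simp only [MonoidHom.comp_apply, delta_apply, map_mul, map_inv]
    rw [← apply_mul, ← apply_mul, commute_of_sq hA ha hb]
    simp only [mul_inv, inv_inv]
    ac_rfl
  induction s using Finset.induction with
  | empty =>
    intro _ N hN
    rw [eq_bot_iff]
    simpa using hN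
  | insert a s _ ih =>
    intro hs N hN
    have ha : a ∈ A := hs a (Finset.mem_insert_self a s)
    have hs' : ∀ b ∈ s, b ∈ A := fun b hb => hs b (Finset.mem_insert_of_mem hb)
    have h0 : N.map (delta φ a) = ⊥ := by
      refine ih hs' _ ?_
      refine (Subgroup.map_mono hN).trans ?_
      rw [Subgroup.map_iSup]
      refine iSup_le fun b => ?_
      rw [Subgroup.map_iSup]
      refine iSup_le fun hb => ?_
      rcases Finset.mem_insert.1 hb with rfl | hb'
      · rintro _ ⟨_, ⟨m, hm, rfl⟩, rfl⟩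
        rw [hdd b ha m]
        exact one_mem _
      · rw [Subgroup.map_map, hcomm a ha b (hs' b hb'), ← Subgroup.map_map]
        exact le_iSup₂_of_le b hb' le_rfl
    refine ih hs' N (hN.trans (iSup₂_le fun b hb => ?_))
    rcases Finset.mem_insert.1 hb with rfl | hb'
    · rw [h0]; exact bot_le
    · exact le_iSup₂_of_le b hb' le_rfl

/-- A minimal offender acts quadratically. -/
theorem IsMinOff.quadratic {φ : G →* MulAut M} {A : Subgroup G} (h : IsMinOff φ A)
    (hM : ∀ m : M, m * m = 1) {a : G} (ha : a ∈ A) (m : M) : delta φ a m ∈ fixSub φ A := by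
  classical
  have hA := h.1.2.1
  set U := fixSub φ A with hU
  set W := Subgroup.closure ((fun b => delta φ b m) '' (A : Set G)) with hW
  have hWmem : ∀ b ∈ A, delta φ b m ∈ W := fun b hb => subset_closure ⟨b, hb, rfl⟩
  have hcc : ∀ b ∈ A, ∀ c ∈ A, φ b (delta φ c m) = delta φ c (φ b m) := fun b hb c hc => by
    rw [delta_apply, delta_apply, map_mul, map_inv, ← apply_mul, ← apply_mul,
      commute_of_sq hA hb hc]
  let B : Subgroup G := A ⊓
    { carrier := {b | ∀ w ∈ W, φ b w = w}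
      one_mem' := fun w _ => by rw [map_one]; rfl
      mul_mem' := fun hx hy w hw => by rw [apply_mul, hy w hw, hx w hw]
      inv_mem' := fun {x} hx w hw => by
        calc φ x⁻¹ w = φ x⁻¹ (φ x w) := by rw [hx w hw]
          _ = w := by rw [← apply_mul, inv_mul_cancel, map_one]; rfl }
  -- elements with equal images modulo `U` agree modulo `B`
  have key : ∀ b ∈ A, ∀ c ∈ A, (delta φ b m)⁻¹ * delta φ c m ∈ U → b⁻¹ * c ∈ B := by
    intro b hb c hc hd
    set d := b⁻¹ * c with hdd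
    have hdA : d ∈ A := A.mul_mem (A.inv_mem hb) hc
    have h1 : delta φ c m = φ b (delta φ d m) * delta φ b m := by
      have hcd : c = b * d := by rw [hdd]; group
      rw [hcd, delta_apply, delta_apply, delta_apply, apply_mul, map_mul (φ b), map_inv (φ b),
        mul_assoc, inv_mul_cancel_left]
    have h2 : φ b (delta φ d m) ∈ U := by
      rw [h1, mul_comm (φ b _), inv_mul_cancel_left] at hd
      exact hd
    have h3 : delta φ d m ∈ U := by
      have h3' := h2 b⁻¹ (A.inv_mem hb)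
      rw [← apply_mul, inv_mul_cancel, map_one] at h3'
      exact (show delta φ d m = φ b (delta φ d m) from h3') ▸ h2
    refine ⟨hdA, fun w hw => ?_⟩
    induction hw using Subgroup.closure_induction with
    | mem x hx =>
      obtain ⟨e, he, rfl⟩ := hx
      show φ d (delta φ e m) = delta φ e m
      rw [hcc d hdA e he, apply_eq_delta_mul φ d m, map_mul,
        show delta φ e (delta φ d m) = 1 by rw [delta_apply, h3 e he, mul_inv_cancel], one_mul]
    | one => exact map_one _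
    | mul x y _ _ hx hy => rw [map_mul, hx, hy]
    | inv x _ hx => rw [map_inv, hx]
  have hle : U ⊔ W ≤ fixSub φ B := by
    refine sup_le (fixSub_anti φ inf_le_left) fun w hw b hb => hb.2 w hw
  have hcard : Nat.card A * Nat.card U ≤ Nat.card B * Nat.card (U ⊔ W : Subgroup M) := by
    let f : A ⧸ B.subgroupOf A → (U ⊔ W : Subgroup M) ⧸ U.subgroupOf (U ⊔ W) := fun q =>
      QuotientGroup.mk ⟨delta φ (q.out : A) m, mem_sup_right (hWmem _ q.out.2)⟩
    have hf : Function.Injective f := fun q r hqr => by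
      rw [← q.out_eq, ← r.out_eq]
      refine QuotientGroup.eq.2 (mem_subgroupOf.2 ?_)
      exact key _ q.out.2 _ r.out.2 (mem_subgroupOf.1 (QuotientGroup.eq.1 hqr))
    have h1 := Nat.card_le_card_of_injective f hf
    rw [Subgroup.card_eq_card_quotient_mul_card_subgroup (B.subgroupOf A),
      Subgroup.card_eq_card_quotient_mul_card_subgroup (U.subgroupOf (U ⊔ W)),
      Nat.card_congr (subgroupOfEquivOfLe (inf_le_left : B ≤ A)).toEquiv,
      Nat.card_congr (subgroupOfEquivOfLe (le_sup_left : U ≤ U ⊔ W)).toEquiv]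
    calc _ * Nat.card B * Nat.card U ≤ Nat.card ((U ⊔ W : Subgroup M) ⧸ U.subgroupOf (U ⊔ W)) *
          Nat.card B * Nat.card U := by gcongr
      _ = _ := by ring
  by_cases hB : B = ⊥
  · -- then `W` and `U` generate, which forces trivial action
    exfalso
    rw [hB, Subgroup.card_bot, one_mul] at hcard
    have htop : U ⊔ W = ⊤ := eq_top_of_card_eq _
      (le_antisymm (card_le_card_group _) (h.1.2.2.trans hcard))
    have : Fintype G := Fintype.ofFinite G
    set s : Finset G := Finset.univ.filter (· ∈ A) with hs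
    have hsA : ∀ b, b ∈ s ↔ b ∈ A := fun b => by simp [hs]
    set N : Subgroup M := ⨆ b ∈ s, (⊤ : Subgroup M).map (delta φ b) with hN
    have hWN : W ≤ N := by
      rw [hW, closure_le]
      rintro _ ⟨b, hb, rfl⟩
      exact le_iSup₂_of_le (f := fun b _ => (⊤ : Subgroup M).map (delta φ b)) b ((hsA b).2 hb)
        le_rfl ⟨m, mem_top m, rfl⟩
    have hbot : N = ⊥ := eq_bot_of_le_delta hA hM s (fun b hb => (hsA b).1 hb) N
      (iSup₂_le fun b hb => by
        refine le_trans ?_ (le_iSup₂_of_le b hb le_rfl)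
        rintro _ ⟨x, -, rfl⟩
        obtain ⟨v, hv, w, hw, rfl⟩ := mem_sup.1 (htop.ge (mem_top x))
        refine ⟨w, hWN hw, ?_⟩
        rw [map_mul, show delta φ b v = 1 by
          rw [delta_apply, hv b ((hsA b).1 hb), mul_inv_cancel], one_mul])
    have hUtop : U = ⊤ := by
      refine eq_top_iff.2 fun x _ b hb => mul_inv_eq_one.1 (mem_bot.1 (hbot.le ?_))
      exact le_iSup₂_of_le (f := fun b _ => (⊤ : Subgroup M).map (delta φ b)) b ((hsA b).2 hb)
        le_rfl ⟨x, mem_top x, rfl⟩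
    have hall : ∀ b ∈ A, b ∈ B := fun b hb =>
      ⟨hb, fun w _ => (hUtop.ge (mem_top w) : w ∈ U) b hb⟩
    exact h.1.1 (eq_bot_iff.2 fun b hb => hB ▸ hall b hb)
  · have hBA : B = A := by
      refine (eq_or_lt_of_le (inf_le_left : B ≤ A)).resolve_right fun hlt => h.2 B hlt
        ⟨hB, fun b hb => hA b hb.1, ?_⟩
      exact (h.1.2.2.trans hcard).trans (Nat.mul_le_mul_left _ (card_le_of_le hle))
    intro b hb
    exact (hBA.ge hb : b ∈ B).2 _ (hWmem a ha)

/-- A minimal offender is an offender on every invariant subgroup. -/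
theorem IsMinOff.card_le_restrict {φ : G →* MulAut M} {A : Subgroup G} (h : IsMinOff φ A)
    (N : Subgroup M) {C : Subgroup G} (hC : C ≤ A) (hCN : N ≤ fixSub φ C) :
    Nat.card C * Nat.card N ≤ Nat.card A * Nat.card (N ⊓ fixSub φ A : Subgroup M) := by
  set U := fixSub φ A
  have h1 := h.best hC
  have h2 : Nat.card (N ⊔ U : Subgroup M) ≤ Nat.card (fixSub φ C) :=
    card_le_of_le (sup_le hCN (fixSub_anti φ hC))
  have h3 : Nat.card (N ⊔ U : Subgroup M) * Nat.card (N ⊓ U : Subgroup M) =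
      Nat.card N * Nat.card U := by
    have e1 := relIndex_mul_relIndex ⊥ U (N ⊔ U) bot_le le_sup_right
    have e2 := relIndex_mul_relIndex ⊥ (N ⊓ U) N bot_le inf_le_left
    rw [relIndex_bot_left, relIndex_bot_left, relIndex_sup_right] at e1
    rw [relIndex_bot_left, relIndex_bot_left, inf_relIndex_left] at e2
    rw [← e1, ← e2]; ring
  refine Nat.le_of_mul_le_mul_right (c := Nat.card U) ?_ Nat.card_pos
  calc Nat.card C * Nat.card N * Nat.card U
      = Nat.card C * Nat.card (N ⊔ U : Subgroup M) * Nat.card (N ⊓ U : Subgroup M) := by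
        rw [mul_assoc, ← h3, mul_assoc]
    _ ≤ Nat.card A * Nat.card U * Nat.card (N ⊓ U : Subgroup M) :=
        Nat.mul_le_mul_right _ ((Nat.mul_le_mul_left _ h2).trans h1)
    _ = _ := by ring

/-! ### Auxiliary subgroups and actions -/

omit [Finite M] in
theorem card_lt_of_lt {A B : Subgroup G} (h : A < B) : Nat.card A < Nat.card B :=
  lt_of_le_of_ne (Subgroup.card_le_of_le h.le) fun he =>
    h.ne (Subgroup.eq_of_le_of_card_ge h.le he.ge)

/-- The stabilizer of a point. -/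
def stab (φ : G →* MulAut M) (m : M) : Subgroup G where
  carrier := {g | φ g m = m}
  one_mem' := by show φ 1 m = m; rw [map_one]; rfl
  mul_mem' {x y} hx hy := by
    show φ (x * y) m = m
    rw [apply_mul, show φ y m = m from hy, show φ x m = m from hx]
  inv_mem' {x} hx := by
    show φ x⁻¹ m = m
    calc φ x⁻¹ m = φ x⁻¹ (φ x m) := by rw [show φ x m = m from hx]
      _ = m := by rw [← apply_mul, inv_mul_cancel, map_one]; rfl

omit [Finite G] [Finite M] in
theorem mem_stab {φ : G →* MulAut M} {m : M} {g : G} : g ∈ stab φ m ↔ φ g m = m := Iff.rfl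

omit [Finite G] [Finite M] in
theorem apply_inv_apply (φ : G →* MulAut M) (g : G) (m : M) : φ g (φ g⁻¹ m) = m := by
  rw [← apply_mul, mul_inv_cancel, map_one]; rfl

omit [Finite G] [Finite M] in
theorem inv_apply_apply (φ : G →* MulAut M) (g : G) (m : M) : φ g⁻¹ (φ g m) = m := by
  rw [← apply_mul, inv_mul_cancel, map_one]; rfl

omit [Finite G] [Finite M] in
/-- The action of a subgroup on an invariant subgroup of the module. -/
def restrictHom (φ : G →* MulAut M) (H : Subgroup G) (W : Subgroup M)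
    (hW : ∀ h ∈ H, ∀ w ∈ W, φ h w ∈ W) : H →* MulAut W where
  toFun h :=
    { toFun := fun w => ⟨φ (h : G) w, hW h h.2 w w.2⟩
      invFun := fun w => ⟨φ (h : G)⁻¹ w, hW _ (H.inv_mem h.2) w w.2⟩
      left_inv := fun w => Subtype.ext (inv_apply_apply φ (h : G) (w : M))
      right_inv := fun w => Subtype.ext (apply_inv_apply φ (h : G) (w : M))
      map_mul' := fun v w => Subtype.ext (map_mul (φ (h : G)) (v : M) (w : M)) }
  map_one' := MulEquiv.ext fun w => Subtype.ext (by
    show φ ((1 : H) : G) (w : M) = w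
    rw [OneMemClass.coe_one, map_one]; rfl)
  map_mul' h k := MulEquiv.ext fun w => Subtype.ext (apply_mul φ (h : G) (k : G) (w : M))

omit [Finite G] [Finite M] in
theorem restrictHom_coe (φ : G →* MulAut M) (H : Subgroup G) (W : Subgroup M)
    (hW : ∀ h ∈ H, ∀ w ∈ W, φ h w ∈ W) (h : H) (w : W) :
    (restrictHom φ H W hW h w : M) = φ (h : G) (w : M) := rfl

/-- A 2-subgroup fixes a nontrivial point of the module. -/
theorem exists_fixed_two (φ : G →* MulAut M) {T : Subgroup G} (hT : IsPGroup 2 T)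
    (hM : ∀ m : M, m * m = 1) {m₀ : M} (h₀ : m₀ ≠ 1) : ∃ u ∈ fixSub φ T, u ≠ 1 := by
  have : Fact (Nat.Prime 2) := ⟨Nat.prime_two⟩
  letI : MulAction T M := MulAction.compHom M (φ.comp T.subtype)
  have h2 : 2 ∣ Nat.card M := by
    rw [← orderOf_eq_prime (p := 2) (by rw [sq]; exact hM m₀) h₀]
    exact orderOf_dvd_natCard m₀
  have h1 : (1 : M) ∈ MulAction.fixedPoints T M := fun t => map_one (φ (t : G))
  obtain ⟨u, hu, hne⟩ := hT.exists_fixed_point_of_prime_dvd_card_of_fixed_point M h2 h1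
  exact ⟨u, fun a ha => hu ⟨a, ha⟩, hne.symm⟩

/-- The join of the minimal offenders inside `T`. -/
def jOff (φ : G →* MulAut M) (T : Subgroup G) : Subgroup G :=
  sSup {A | IsMinOff φ A ∧ A ≤ T}

theorem normalizer_le_normalizer_jOff (φ : G →* MulAut M) (T : Subgroup G) :
    Nz T ≤ Nz (jOff φ T) := by
  have key : ∀ g ∈ Nz T, cj g (jOff φ T) ≤ jOff φ T := by
    intro g hg
    refine Subgroup.map_le_iff_le_comap.2 (sSup_le fun A hA => Subgroup.map_le_iff_le_comap.1 ?_)
    exact le_sSup ⟨hA.1.cj g, (Cfsg.Agent.Fusion.cj_mono g hA.2).trans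
      (Cfsg.Agent.Fusion.cj_eq_of_mem hg).le⟩
  intro g hg
  rw [CF.mem_Nz]
  refine le_antisymm (key g hg) ?_
  have h := Cfsg.Agent.Fusion.cj_mono g (key g⁻¹ (inv_mem hg))
  rwa [cj_cj, mul_inv_cancel, Cfsg.Agent.Fusion.cj_one] at h

/-! ### A unique maximal subgroup over a Sylow 2-subgroup -/

/-- `Mx` is the only maximal subgroup containing `S`. -/
structure Unique (S : Subgroup G) (Mx : Subgroup G) : Prop where
  le : S ≤ Mx
  ne : Mx ≠ ⊤
  max : ∀ K : Subgroup G, S ≤ K → K ≠ ⊤ → K ≤ Mx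

omit [Finite M] in
theorem eq_bot_of_normal_two (hO : Cfsg.pCore 2 G = ⊥) {N : Subgroup G} (hN : IsPGroup 2 N)
    (h : Nz N = ⊤) : N = ⊥ := by
  have hn : N.Normal := Subgroup.normalizer_eq_top_iff.1 h
  exact eq_bot_iff.2 ((Cores.le_pCore hn hN).trans hO.le)

omit [Finite M] in
theorem Unique.inf_normal_eq_bot [Fact (Nat.Prime 2)] {S : Sylow 2 G} {Mx : Subgroup G}
    (hu : Unique (S : Subgroup G) Mx) (hO : Cfsg.pCore 2 G = ⊥) {N : Subgroup G} (hN : N.Normal)
    (hle : N ≤ Mx) : (S : Subgroup G) ⊓ N = ⊥ := by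
  refine eq_bot_of_normal_two hO S.2.to_inf_left ?_
  by_contra hne
  refine hu.ne (eq_top_iff.2 fun x _ => ?_)
  have hNz : (⊤ : Subgroup G) ≤ Nz N := (Subgroup.normalizer_eq_top_iff.2 hN).ge
  obtain ⟨n, hn, y, -, hy, rfl⟩ := (isSyl_sylow S).frattini le_top hNz (Subgroup.mem_top x)
  refine Mx.mul_mem (hle hn) (hu.max _ (fun s hs => ?_) hne hy)
  rw [CF.mem_Nz, cj, Subgroup.map_inf _ _ _ (MulAut.conj s).injective]
  exact congrArg₂ (· ⊓ ·) (Cfsg.Agent.Fusion.cj_eq_of_mem (Subgroup.le_normalizer hs))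
    (Cfsg.Agent.Fusion.cj_eq_of_mem (hNz trivial))

omit [Finite M] in
theorem Unique.normalizer_le [Fact (Nat.Prime 2)] {S : Sylow 2 G} {Mx : Subgroup G}
    (hu : Unique (S : Subgroup G) Mx) (hO : Cfsg.pCore 2 G = ⊥) (hS : (S : Subgroup G) ≠ ⊥) :
    Nz Mx ≤ Mx := by
  refine hu.max _ (hu.le.trans Subgroup.le_normalizer) fun h => hS ?_
  have := hu.inf_normal_eq_bot hO (Subgroup.normalizer_eq_top_iff.1 h) le_rfl
  rwa [inf_eq_left.2 hu.le] at this

omit [Finite M] in
theorem Unique.eq_one_of_conj_mem [Fact (Nat.Prime 2)] {S : Sylow 2 G} {Mx : Subgroup G}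
    (hu : Unique (S : Subgroup G) Mx) (hO : Cfsg.pCore 2 G = ⊥) {a : G}
    (ha : a ∈ (S : Subgroup G)) (h : ∀ g : G, g * a * g⁻¹ ∈ Mx) : a = 1 := by
  have := hu.inf_normal_eq_bot hO Mx.normalCore_normal Mx.normalCore_le
  exact Subgroup.mem_bot.1 (this.le (show a ∈ (S : Subgroup G) ⊓ Mx.normalCore from ⟨ha, h⟩))

/-! ### Pushing up -/

/-- The smaller groups have no offenders. -/
def Inductive (c : ℕ) : Prop :=
  ∀ {X : Type u} [Group X] [Finite X] {W : Type u} [CommGroup W] [Finite W] (ψ : X →* MulAut W),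
    Nat.card X + Nat.card W < c → Function.Injective ψ → (∀ w : W, w * w = 1) →
    Cfsg.pCore 2 X = ⊥ → ¬ Cfsg.Involves (Equiv.Perm (Fin 3)) X →
    ∀ (S : Sylow 2 X) (Mx : Subgroup X), Unique (S : Subgroup X) Mx → ∀ A, ¬ IsOff ψ A

theorem le_of_minOff_le [Fact (Nat.Prime 2)] {φ : G →* MulAut M}
    (ih : Inductive.{u} (Nat.card G + Nat.card M)) (hM : ∀ m : M, m * m = 1)
    (hO : Cfsg.pCore 2 G = ⊥) (hS3 : ¬ Cfsg.Involves (Equiv.Perm (Fin 3)) G)
    {S : Sylow 2 G} {Mx : Subgroup G} (hu : Unique (S : Subgroup G) Mx)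
    (hC0 : fixSub φ (⊤ : Subgroup G) = ⊥) {m₀ : M} (h₀ : m₀ ≠ 1)
    {K A : Subgroup G} (hK : K ≠ ⊤) (hA : IsMinOff φ A) (hAS : A ≤ (S : Subgroup G))
    (hAK : A ≤ K) : K ≤ Mx := by
  by_contra hKM
  let 𝒯 : Set (Subgroup G) := {T | T ≤ (S : Subgroup G) ∧ (∃ B, IsMinOff φ B ∧ B ≤ T) ∧
    ∃ L : Subgroup G, L ≠ ⊤ ∧ ¬ L ≤ Mx ∧ T ≤ L}
  obtain ⟨T, ⟨hTS, ⟨B, hB, hBT⟩, L, hLtop, hLM, hTL⟩, hTmax⟩ :=
    Set.exists_max_image 𝒯 (fun T => Nat.card T) 𝒯.toFinite
      ⟨A, hAS, ⟨A, hA, le_rfl⟩, K, hK, hKM, hAK⟩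
  have hTne : T ≠ (S : Subgroup G) := fun h => hLM (hu.max L (h ▸ hTL) hLtop)
  have hTP : IsPGroup 2 T := S.2.to_le hTS
  set J := jOff φ T with hJ
  have hJT : J ≤ T := sSup_le fun X hX => hX.2
  have hJne : J ≠ ⊥ := fun h => hB.1.1 (eq_bot_iff.2 (h ▸ le_sSup ⟨hB, hBT⟩))
  have hlt := CF.lt_inf_normalizer S hTS hTne
  have hNJ : Nz J ≤ Mx := by
    by_contra hc
    have htop : Nz J ≠ ⊤ := fun h => hJne (eq_bot_of_normal_two hO (hTP.to_le hJT) h)
    exact (hTmax ((S : Subgroup G) ⊓ Nz T) ⟨inf_le_left, ⟨B, hB, hBT.trans hlt.le⟩, Nz J, htop, hc,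
      inf_le_right.trans (normalizer_le_normalizer_jOff φ T)⟩).not_gt
      (card_lt_of_lt hlt)
  have hNT : Nz T ≤ Mx := (normalizer_le_normalizer_jOff φ T).trans hNJ
  obtain ⟨H, ⟨hTH, hHtop, hHM⟩, hHmin⟩ :=
    Set.exists_min_image {H : Subgroup G | T ≤ H ∧ H ≠ ⊤ ∧ ¬ H ≤ Mx} (fun H => Nat.card H)
      (Set.toFinite _) ⟨L, hTL, hLtop, hLM⟩
  have hmin : ∀ X : Subgroup G, T ≤ X → X < H → X ≤ Mx := fun X hX hXH => by
    by_contra hc
    exact (hHmin X ⟨hX, (hXH.trans_le le_top).ne, hc⟩).not_gt (card_lt_of_lt hXH)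
  -- `T` is a Sylow subgroup of `H`
  have hSyl : IsSyl 2 T H := by
    obtain ⟨R, hR, hTR⟩ := CF.exists_isSyl_ge hTP hTH
    rcases eq_or_lt_of_le hTR with rfl | hTR'
    · exact hR
    exfalso
    have h1 := Cfsg.Agent.Fusion.lt_normalizer_inf hR.isP hTR'
    have h2 : R ⊓ Nz T ≤ Mx := inf_le_right.trans hNT
    obtain ⟨y, hy, hy'⟩ := (IsSyl.sylow_inf hu.le).exists_conj_le (hR.isP.to_inf_left) h2
    have h3 : cj y (R ⊓ Nz T) ∈ 𝒯 := by
      refine ⟨hy', ⟨cj y B, hB.cj y, Cfsg.Agent.Fusion.cj_mono y (hBT.trans h1.le)⟩, cj y H,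
        ?_, ?_, Cfsg.Agent.Fusion.cj_mono y (inf_le_left.trans hR.le)⟩
      · exact fun h => hHtop (by rw [← cj_inv_cj y H, h, CF.cj_top])
      · intro h
        refine hHM ?_
        have h' := Cfsg.Agent.Fusion.cj_mono y⁻¹ h
        rwa [cj_inv_cj, Cfsg.Agent.Fusion.cj_eq_of_mem (Subgroup.le_normalizer (inv_mem hy))] at h'
    refine (hTmax _ h3).not_gt ?_
    rw [card_cj]
    exact card_lt_of_lt h1
  set V := fixSub φ T with hV
  set W := Subgroup.closure {x : M | ∃ h ∈ H, ∃ m ∈ V, φ h m = x} with hW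
  have hgenW : ∀ h ∈ H, ∀ m ∈ V, φ h m ∈ W := fun h hh m hm =>
    Subgroup.subset_closure ⟨h, hh, m, hm, rfl⟩
  have hinv : ∀ h ∈ H, ∀ w ∈ W, φ h w ∈ W := by
    intro h hh w hw
    have : W ≤ W.comap (φ h).toMonoidHom := (Subgroup.closure_le _).2 (by
      rintro _ ⟨k, hk, m, hm, rfl⟩
      show φ h (φ k m) ∈ W
      rw [← apply_mul]
      exact hgenW _ (H.mul_mem hh hk) m hm)
    exact this hw
  set C := H ⊓ (⨅ w ∈ W, stab φ w) with hC
  have hmemC : ∀ x, x ∈ C ↔ x ∈ H ∧ ∀ w ∈ W, φ x w = w := fun x => by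
    simp [hC, Subgroup.mem_iInf, mem_stab]
  -- the fixed points of `S` lie in `W`
  obtain ⟨u, huS, hu1⟩ := exists_fixed_two φ S.2 hM h₀
  have hCM : C ≤ Mx := by
    have huW : u ∈ W := by
      have h := hgenW 1 H.one_mem u (fixSub_anti φ hTS huS)
      rwa [map_one] at h
    refine le_trans (fun x hx => ?_) (hu.max (stab φ u) (fun s hs => huS s hs) fun h => hu1 ?_)
    · exact ((hmemC x).1 hx).2 u huW
    · exact Subgroup.mem_bot.1 (hC0.le fun g _ => (h.ge (Subgroup.mem_top g) : g ∈ stab φ u))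
  by_cases hall : ∀ X, IsMinOff φ X → X ≤ T → X ≤ C
  · -- all minimal offenders act trivially on `W`
    refine hHM fun x hx => ?_
    have hCn : H ≤ Nz C := fun h hh => by
      have key : ∀ g ∈ H, ∀ c ∈ C, g * c * g⁻¹ ∈ C := fun g hg c hc => by
        rw [hmemC] at hc ⊢
        refine ⟨H.mul_mem (H.mul_mem hg hc.1) (H.inv_mem hg), fun w hw => ?_⟩
        rw [apply_mul, apply_mul, hc.2 _ (hinv _ (H.inv_mem hg) w hw), apply_inv_apply]
      refine Subgroup.mem_normalizer_iff.2 fun c => ⟨key h hh c, fun hc => ?_⟩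
      have := key h⁻¹ (H.inv_mem hh) _ hc
      simpa [mul_assoc] using this
    obtain ⟨n, hn, y, -, hy, rfl⟩ := hSyl.frattini inf_le_left hCn hx
    refine Mx.mul_mem (hCM hn) (hNJ ?_)
    have hJJ : jOff φ (T ⊓ C) = J := le_antisymm
      (sSup_le fun X hX => le_sSup ⟨hX.1, hX.2.trans inf_le_left⟩)
      (sSup_le fun X hX => le_sSup ⟨hX.1, le_inf hX.2 (hall X hX.1 hX.2)⟩)
    exact hJJ ▸ normalizer_le_normalizer_jOff φ (T ⊓ C) hy
  · push Not at hall
    obtain ⟨X, hX, hXT, hXC⟩ := hall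
    have hXH : X ≤ H := hXT.trans hTH
    set ψ := restrictHom φ H W hinv with hψ
    set π := ψ.rangeRestrict with hπ
    have hπs : Function.Surjective π := ψ.rangeRestrict_surjective
    have hπval : ∀ (h : H) (w : W), ((π h : MulAut W) w : M) = φ (h : G) (w : M) := fun h w => rfl
    have hker : ∀ h : H, π h = 1 ↔ (h : G) ∈ C := by
      intro h
      rw [hmemC]
      constructor
      · exact fun he => ⟨h.2, fun w hw => by
          rw [← hπval h ⟨w, hw⟩, he]; rfl⟩
      · exact fun he => Subtype.ext (MulEquiv.ext fun w => Subtype.ext (he.2 w w.2))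
    let P : Sylow 2 H := IsPGroup.toSylow (P := T.subgroupOf H) hTP.comap_subtype hSyl.idx
    let S' : Sylow 2 ψ.range := P.mapSurjective hπs
    have hS'coe : (S' : Subgroup ψ.range) = (T.subgroupOf H).map π :=
      congrArg (Subgroup.map π) (IsPGroup.toSylow_coe _ _)
    set M' := ((H ⊓ Mx).subgroupOf H).map π with hM'
    have hO' : Cfsg.pCore 2 ψ.range = ⊥ := by
      refine eq_bot_iff.2 fun q hq => Subgroup.mem_bot.2 ?_
      refine Subtype.ext (MulEquiv.ext fun w => Subtype.ext ?_)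
      obtain ⟨w, hw⟩ := w
      show ((q : MulAut W) ⟨w, hw⟩ : M) = w
      induction hw using Subgroup.closure_induction with
      | mem x hx =>
        obtain ⟨k, hk, m, hm, rfl⟩ := hx
        have hq' : (π ⟨k, hk⟩)⁻¹ * q * π ⟨k, hk⟩ ∈ Cfsg.pCore 2 ψ.range := by
          simpa using (Cores.pCore_normal_inst (p := 2) ψ.range).conj_mem q hq (π ⟨k, hk⟩)⁻¹
        obtain ⟨t, ht, he⟩ := hS'coe.le (Cores.pCore_le_sylow S' hq')
        have hq2 : q = π (⟨k, hk⟩ * t * ⟨k, hk⟩⁻¹) := by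
          rw [map_mul, map_mul, map_inv, he]; group
        rw [hq2, hπval]
        show φ (k * (t : G) * k⁻¹) (φ k m) = φ k m
        rw [apply_mul, inv_apply_apply, apply_mul, hm _ (Subgroup.mem_subgroupOf.1 ht)]
      | one => exact congrArg Subtype.val (map_one (q : MulAut W))
      | mul x y hx hy ihx ihy =>
        have := congrArg Subtype.val (map_mul (q : MulAut W) ⟨x, hx⟩ ⟨y, hy⟩)
        exact this.trans (by rw [Subgroup.coe_mul, ihx, ihy])
      | inv x hx ihx =>
        have := congrArg Subtype.val (map_inv (q : MulAut W) ⟨x, hx⟩)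
        exact this.trans (by rw [Subgroup.coe_inv, ihx])
    have hu' : Unique (S' : Subgroup ψ.range) M' := by
      refine ⟨hS'coe.le.trans (Subgroup.map_mono fun t ht => Subgroup.mem_subgroupOf.2
        ⟨t.2, hu.le (hTS (Subgroup.mem_subgroupOf.1 ht))⟩), fun h => hHM fun x hx => ?_,
        fun K' hK' hK'ne => ?_⟩
      · obtain ⟨m, hm, he⟩ := h.ge (Subgroup.mem_top (π ⟨x, hx⟩))
        have h1 : π (⟨x, hx⟩ * m⁻¹) = 1 := by rw [map_mul, map_inv, ← he, mul_inv_cancel]
        have h2 := Mx.mul_mem (hCM ((hker _).1 h1)) (Subgroup.mem_subgroupOf.1 hm).2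
        simpa using h2
      · set K0 := (K'.comap π).map H.subtype with hK0
        have hK0H : K0 < H := by
          refine lt_of_le_of_ne (Subgroup.map_subtype_le _) fun h => hK'ne ?_
          refine eq_top_iff.2 fun q _ => ?_
          obtain ⟨h', rfl⟩ := hπs q
          obtain ⟨h'', hh'', he⟩ := h.ge h'.2
          rwa [show h' = h'' from Subtype.ext he.symm]
        have hTK0 : T ≤ K0 := fun t ht =>
          ⟨⟨t, hTH ht⟩, hK' (hS'coe.ge ⟨⟨t, hTH ht⟩, Subgroup.mem_subgroupOf.2 ht, rfl⟩), rfl⟩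
        intro q hq
        obtain ⟨h', rfl⟩ := hπs q
        exact ⟨h', Subgroup.mem_subgroupOf.2 ⟨h'.2, hmin K0 hTK0 hK0H ⟨h', hq, rfl⟩⟩, rfl⟩
    have hS3' : ¬ Cfsg.Involves (Equiv.Perm (Fin 3)) ψ.range := fun h =>
      hS3 (EvenLocal.involves_of_involves_image π hπs h)
    have hlt' : Nat.card ψ.range + Nat.card W < Nat.card G + Nat.card M := by
      have h1 : Nat.card ψ.range ≤ Nat.card H := Nat.card_le_card_of_surjective π hπs
      have h2 : Nat.card H < Nat.card (⊤ : Subgroup G) := card_lt_of_lt hHtop.lt_top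
      have h3 := W.card_le_card_group
      rw [Subgroup.card_top] at h2
      omega
    have : Finite (MulAut W) :=
      Finite.of_injective (fun e : MulAut W => (e : W → W)) DFunLike.coe_injective
    refine ih ψ.range.subtype hlt' Subtype.coe_injective (fun w => Subtype.ext (hM w)) hO' hS3'
      S' M' hu' ((X.subgroupOf H).map π) ?_
    let f : X →* ψ.range := π.comp (Subgroup.inclusion hXH)
    have hrange : f.range = (X.subgroupOf H).map π := by
      rw [MonoidHom.range_comp, Subgroup.inclusion_range]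
    refine ⟨fun h => hXC fun x hx => ?_, ?_, ?_⟩
    · exact (hker ⟨x, hXH hx⟩).1 (Subgroup.mem_bot.1
        (h.le ⟨⟨x, hXH hx⟩, Subgroup.mem_subgroupOf.2 hx, rfl⟩))
    · rintro _ ⟨x, hx, rfl⟩
      rw [← map_mul, show x * x = 1 from Subtype.ext (hX.1.2.1 x hx), map_one]
    · have hkerf : f.ker = (X ⊓ C).subgroupOf X := by
        ext x
        rw [MonoidHom.mem_ker, Subgroup.mem_subgroupOf, Subgroup.mem_inf]
        exact (hker _).trans ⟨fun h => ⟨x.2, h⟩, fun h => h.2⟩
      have hcardX : Nat.card ((X.subgroupOf H).map π) * Nat.card (X ⊓ C : Subgroup G) =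
          Nat.card X := by
        rw [← hrange, ← Subgroup.index_ker f, hkerf,
          ← Nat.card_congr (Subgroup.subgroupOfEquivOfLe (inf_le_left : X ⊓ C ≤ X)).toEquiv,
          mul_comm, Subgroup.card_mul_index]
      have hfix : (fixSub ψ.range.subtype ((X.subgroupOf H).map π)).map W.subtype =
          W ⊓ fixSub φ X := by
        ext m
        constructor
        · rintro ⟨w, hw, rfl⟩
          exact ⟨w.2, fun x hx => congrArg Subtype.val
            (hw (π ⟨x, hXH hx⟩) ⟨⟨x, hXH hx⟩, Subgroup.mem_subgroupOf.2 hx, rfl⟩)⟩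
        · rintro ⟨hmW, hm⟩
          refine ⟨⟨m, hmW⟩, ?_, rfl⟩
          rintro _ ⟨x, hx, rfl⟩
          exact Subtype.ext (hm _ hx)
      have h := hX.card_le_restrict W (C := X ⊓ C) inf_le_left
        fun w hw c hc => ((hmemC c).1 hc.2).2 w hw
      rw [← hfix, Subgroup.card_map_of_injective W.subtype_injective, ← hcardX] at h
      refine Nat.le_of_mul_le_mul_left (?_ : Nat.card (X ⊓ C : Subgroup G) * _ ≤
        Nat.card (X ⊓ C : Subgroup G) * _) Nat.card_pos
      calc _ ≤ _ := h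
        _ = _ := by ring

/-! ### The final configuration -/

theorem perm_three_top {K : Subgroup (Equiv.Perm (Fin 3))} (h1 : Equiv.swap 1 2 ∈ K)
    (h2 : Equiv.swap 0 2 ∈ K) : K = ⊤ := by
  refine eq_top_iff.2 fun σ _ => ?_
  have h : ∀ σ : Equiv.Perm (Fin 3), σ = 1 ∨ σ = Equiv.swap 1 2 ∨ σ = Equiv.swap 0 2 ∨
      σ = Equiv.swap 1 2 * Equiv.swap 0 2 ∨ σ = Equiv.swap 0 2 * Equiv.swap 1 2 ∨
      σ = Equiv.swap 1 2 * Equiv.swap 0 2 * Equiv.swap 1 2 := by decide
  rcases h σ with rfl | rfl | rfl | rfl | rfl | rfl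
  · exact K.one_mem
  · exact h1
  · exact h2
  · exact K.mul_mem h1 h2
  · exact K.mul_mem h2 h1
  · exact K.mul_mem (K.mul_mem h1 h2) h1

omit [Finite M] in
/-- Two elements inducing two transpositions on a four-group give a section `S₃`. -/
theorem involves_three (φ : G →* MulAut M) {u w : M} {a b : G} (hu : u ≠ 1) (hw : w ≠ 1)
    (huw : u ≠ w) (hau : φ a u = u) (haw : φ a w = u * w) (haq : φ a (u * w) = w)
    (hbw : φ b w = w) (hbu : φ b u = u * w) (hbq : φ b (u * w) = u) :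
    Cfsg.Involves (Equiv.Perm (Fin 3)) G := by
  set e : Fin 3 → M := ![u, w, u * w] with he
  have e1 : u * w ≠ u := fun h => hw (mul_eq_left.1 h)
  have e2 : u * w ≠ w := fun h => hu (mul_eq_right.1 h)
  have hinj : Function.Injective e := by
    intro i j hij
    fin_cases i <;> fin_cases j <;>
      first
      | rfl
      | exact absurd hij huw | exact absurd hij.symm huw | exact absurd hij e1
      | exact absurd hij.symm e1 | exact absurd hij e2 | exact absurd hij.symm e2
  let D : Subgroup G :=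
    { carrier := {g | ∃ σ : Equiv.Perm (Fin 3), ∀ i, φ g (e i) = e (σ i)}
      one_mem' := ⟨1, fun i => by rw [map_one]; rfl⟩
      mul_mem' := by
        rintro x y ⟨σ, hσ⟩ ⟨τ, hτ⟩
        exact ⟨σ * τ, fun i => by rw [apply_mul, hτ, hσ]; rfl⟩
      inv_mem' := by
        rintro x ⟨σ, hσ⟩
        refine ⟨σ⁻¹, fun i => ?_⟩
        have h := hσ (σ⁻¹ i)
        rw [← h.trans (congrArg e (σ.apply_symm_apply i)), inv_apply_apply] }
  choose f hf using fun g : D => g.2
  let χ : D →* Equiv.Perm (Fin 3) := MonoidHom.mk' f fun x y => Equiv.ext fun i => hinj (by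
    show e (f (x * y) i) = e (f x (f y i))
    rw [← hf, ← hf, ← hf, Subgroup.coe_mul, apply_mul])
  have hval : ∀ (g : D) (σ : Equiv.Perm (Fin 3)), (∀ i, φ g (e i) = e (σ i)) → χ g = σ :=
    fun g σ h => Equiv.ext fun i => hinj (by rw [← h]; exact (hf g i).symm)
  have ha : ∀ i, φ a (e i) = e (Equiv.swap (1 : Fin 3) 2 i) := by
    intro i
    fin_cases i
    · exact hau
    · exact haw
    · exact haq
  have hb : ∀ i, φ b (e i) = e (Equiv.swap (0 : Fin 3) 2 i) := by
    intro i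
    fin_cases i
    · exact hbu
    · exact hbw
    · exact hbq
  exact EvenLocal.involves_of_surjective χ (MonoidHom.range_eq_top.1 (perm_three_top
    ⟨⟨a, _, ha⟩, hval _ _ ha⟩ ⟨⟨b, _, hb⟩, hval _ _ hb⟩))

theorem not_isOff_of_fix_eq_bot [Fact (Nat.Prime 2)] {φ : G →* MulAut M}
    (ih : Inductive.{u} (Nat.card G + Nat.card M)) (hinj : Function.Injective φ)
    (hM : ∀ m : M, m * m = 1) (hO : Cfsg.pCore 2 G = ⊥)
    (hS3 : ¬ Cfsg.Involves (Equiv.Perm (Fin 3)) G) {S : Sylow 2 G} {Mx : Subgroup G}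
    (hu : Unique (S : Subgroup G) Mx) (hC0 : fixSub φ (⊤ : Subgroup G) = ⊥) (A₀ : Subgroup G) :
    ¬ IsOff φ A₀ := by
  intro hoff
  obtain ⟨A₁, -, hA₁⟩ := exists_minOff hoff
  obtain ⟨y, -, hy⟩ := (isSyl_sylow S).exists_conj_le (isPGroup_of_sq hA₁.1.2.1) le_top
  obtain ⟨A, hA, hAS⟩ : ∃ A, IsMinOff φ A ∧ A ≤ (S : Subgroup G) := ⟨_, hA₁.cj y, hy⟩
  obtain ⟨a₀, ha₀, ha₀1⟩ := (Subgroup.ne_bot_iff_exists_ne_one.1 hA.1.1 : ∃ a : A, a ≠ 1) |>
    fun ⟨a, ha⟩ => (⟨a, a.2, fun h => ha (Subtype.ext h)⟩ : ∃ a ∈ A, a ≠ (1 : G))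
  obtain ⟨m₀, h₀⟩ : ∃ m : M, m ≠ 1 := by
    by_contra h
    push Not at h
    refine ha₀1 (hinj (MulEquiv.ext fun m => ?_))
    rw [h m, map_one, map_one]
  have hSne : (S : Subgroup G) ≠ ⊥ := fun h => hA.1.1 (eq_bot_iff.2 (h ▸ hAS))
  have step : ∀ K : Subgroup G, K ≠ ⊤ → A ≤ K → K ≤ Mx := fun K hK hAK =>
    le_of_minOff_le ih hM hO hS3 hu hC0 h₀ hK hA hAS hAK
  have hAM : A ≤ Mx := hAS.trans hu.le
  have hgen : ∀ g, g ∉ Mx → A ⊔ cj g A = ⊤ := by
    intro g hg
    by_contra hne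
    have h1 : cj g A ≤ Mx := le_sup_right.trans (step _ hne le_sup_left)
    obtain ⟨z, hz, hz'⟩ := (IsSyl.sylow_inf hu.le).exists_conj_le
      (Cfsg.Agent.Fusion.isPGroup_cj (isPGroup_of_sq hA.1.2.1) g) h1
    rw [cj_cj] at hz'
    have h2 : cj (z * g) Mx ≤ Mx :=
      le_of_minOff_le ih hM hO hS3 hu hC0 h₀
        (fun h => hu.ne (by rw [← cj_inv_cj (z * g) Mx, h, CF.cj_top])) (hA.cj _) hz'
        (Cfsg.Agent.Fusion.cj_mono _ hAM)
    have h3 : cj (z * g) Mx = Mx := Subgroup.eq_of_le_of_card_ge h2 (card_cj _ _).ge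
    have h4 := hu.normalizer_le hO hSne (CF.mem_Nz.2 h3)
    exact hg (by simpa using Mx.mul_mem (Mx.inv_mem hz) h4)
  set U := fixSub φ A with hU
  -- centralizers of fixed points
  have hstab : ∀ (g : G) (z : M), z ∈ U → z ≠ 1 → ∀ x, φ x (φ g z) = φ g z →
      g⁻¹ * x * g ∈ Mx := by
    intro g z hz hz1 x hx
    refine step (stab φ z) (fun h => hz1 ?_) (fun a ha => hz a ha) ?_
    · exact Subgroup.mem_bot.1 (hC0.le fun k _ => (h.ge (Subgroup.mem_top k) : k ∈ stab φ z))
    · show φ (g⁻¹ * x * g) z = z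
      rw [apply_mul, apply_mul, hx, inv_apply_apply]
  have hdisj : ∀ g, g ∉ Mx → ∀ z, z ∈ U → φ g z ∈ U → z = 1 := by
    intro g hg z hz hgz
    have h : A ⊔ cj g A ≤ stab φ (φ g z) := sup_le (fun a ha => hgz a ha) fun x hx => by
      show φ x (φ g z) = φ g z
      have : φ g z ∈ fixSub φ (cj g A) := by rw [fixSub_cj]; exact ⟨z, hz, rfl⟩
      exact this x hx
    rw [hgen g hg] at h
    exact (φ g).injective ((Subgroup.mem_bot.1 (hC0.le fun k _ => h (Subgroup.mem_top k))).trans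
      (map_one _).symm)
  -- the natural module
  set P : G → Subgroup M := fun g => U ⊔ U.map (φ g).toMonoidHom with hP
  have hPinv : ∀ g, g ∉ Mx → ∀ x, ∀ v ∈ P g, φ x v ∈ P g := by
    intro g hg
    have hgA : ∀ x ∈ A ⊔ cj g A, ∀ v ∈ P g, φ x v ∈ P g := by
      let D : Submonoid G :=
        { carrier := {x | ∀ v ∈ P g, φ x v ∈ P g}
          one_mem' := fun v hv => by rw [map_one]; exact hv
          mul_mem' := fun hx hy v hv => by rw [apply_mul]; exact hx _ (hy v hv) }
      suffices (A ⊔ cj g A).toSubmonoid ≤ D from fun x hx => this hx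
      rw [Subgroup.sup_eq_closure, Subgroup.closure_toSubmonoid_of_finite, Submonoid.closure_le]
      rintro x (hx | hx) v hv
      · rw [apply_eq_delta_mul φ x v]
        exact (P g).mul_mem (Subgroup.mem_sup_left (hA.quadratic hM hx v)) hv
      · rw [apply_eq_delta_mul φ x v]
        refine (P g).mul_mem (Subgroup.mem_sup_right ?_) hv
        rw [← fixSub_cj]
        exact (hA.cj g).quadratic hM hx v
    exact fun x => hgA x ((hgen g hg).ge (Subgroup.mem_top x))
  have hPcard : ∀ g, g ∉ Mx → Nat.card (P g) = Nat.card U * Nat.card U := by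
    intro g hg
    set U' := U.map (φ g).toMonoidHom with hU'
    have hd : U ⊓ U' = ⊥ := by
      refine eq_bot_iff.2 fun v hv => ?_
      obtain ⟨hv, z, hz, rfl⟩ := hv
      rw [Subgroup.mem_bot, hdisj g hg z hz hv]
      exact map_one _
    have e1 := Subgroup.relIndex_mul_relIndex ⊥ U' (U ⊔ U') bot_le le_sup_right
    have e2 := Subgroup.relIndex_mul_relIndex ⊥ (U ⊓ U') U bot_le inf_le_left
    rw [Subgroup.relIndex_bot_left, Subgroup.relIndex_bot_left, Subgroup.relIndex_sup_right] at e1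
    rw [Subgroup.relIndex_bot_left, Subgroup.relIndex_bot_left, Subgroup.inf_relIndex_left, hd,
      Subgroup.card_bot, one_mul] at e2
    show Nat.card (U ⊔ U' : Subgroup M) = _
    rw [← e1, e2, hU', Subgroup.card_map_of_injective (φ g).injective]
  have hPeq : ∀ g g', g ∉ Mx → g' ∉ Mx → P g' = P g := by
    intro g g' hg hg'
    refine Subgroup.eq_of_le_of_card_ge (sup_le le_sup_left ?_)
      (by rw [hPcard g hg, hPcard g' hg'])
    rintro _ ⟨v, hv, rfl⟩
    exact hPinv g hg g' v (Subgroup.mem_sup_left hv)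
  obtain ⟨g, hg⟩ : ∃ g, g ∉ Mx := by
    by_contra h
    push Not at h
    exact hu.ne (eq_top_iff.2 fun x _ => h x)
  have hfree : ∀ v ∈ P g, v ∉ U → ∀ a ∈ A, φ a v = v → a = 1 := by
    intro v hv hvU a ha hav
    refine hu.eq_one_of_conj_mem hO (hAS ha) fun k => ?_
    by_cases hk : k ∈ Mx
    · exact Mx.mul_mem (Mx.mul_mem hk (hAM ha)) (Mx.inv_mem hk)
    have hk' : k⁻¹ ∉ Mx := fun h => hk (inv_mem_iff.1 h)
    obtain ⟨x, hx, _, ⟨z, hz, rfl⟩, hxy⟩ := Subgroup.mem_sup.1 ((hPeq g k⁻¹ hg hk').ge hv)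
    have hz1 : z ≠ 1 := fun h => hvU (by
      rw [← hxy, h, map_one, mul_one]; exact hx)
    have hfix : φ a (φ k⁻¹ z) = φ k⁻¹ z := by
      have h := hav
      rw [← hxy, map_mul, hx a ha] at h
      exact mul_left_cancel h
    simpa using hstab k⁻¹ z hz hz1 a hfix
  obtain ⟨u, huU, hu1⟩ := exists_fixed_two φ (isPGroup_of_sq hA.1.2.1) hM h₀
  have hAU : ∀ v ∈ P g, v ∉ U → ∀ z ∈ U, ∃ a ∈ A, φ a v = z * v := by
    intro v hv hvU
    let f : A → U := fun a => ⟨delta φ a v, hA.quadratic hM a.2 v⟩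
    have hf : Function.Injective f := fun a b hab => by
      have h : φ (a : G) v = φ (b : G) v := by
        rw [apply_eq_delta_mul φ (a : G) v, apply_eq_delta_mul φ (b : G) v]
        exact congrArg (· * v) (congrArg Subtype.val hab)
      have h1 : φ ((a : G)⁻¹ * b) v = v := by rw [apply_mul, ← h, inv_apply_apply]
      exact Subtype.ext (inv_mul_eq_one.1 (hfree v hv hvU _ (A.mul_mem (A.inv_mem a.2) b.2) h1))
    have hle : Nat.card U ≤ Nat.card A := by
      refine Nat.le_of_mul_le_mul_right (c := Nat.card U) ?_ Nat.card_pos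
      rw [← hPcard g hg]
      exact (P g).card_le_card_group.trans hA.1.2.2
    have hsurj := ((Nat.bijective_iff_injective_and_card f).2
      ⟨hf, le_antisymm (Nat.card_le_card_of_injective f hf) hle⟩).2
    intro z hz
    obtain ⟨a, ha⟩ := hsurj ⟨z, hz⟩
    exact ⟨a, a.2, by rw [apply_eq_delta_mul φ (a : G) v, show delta φ a v = z from
      congrArg Subtype.val ha]⟩
  -- two transpositions on a four-group
  set w := φ g u with hw
  have hw1 : w ≠ 1 := fun h => hu1 ((φ g).injective (h.trans (map_one _).symm))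
  have hwU : w ∉ U := fun h => hu1 (hdisj g hg u huU h)
  have hwP : w ∈ P g := Subgroup.mem_sup_right ⟨u, huU, rfl⟩
  obtain ⟨a, ha, haw⟩ := hAU w hwP hwU u huU
  have hg' : g⁻¹ ∉ Mx := fun h => hg (inv_mem_iff.1 h)
  obtain ⟨a', ha', ha'v⟩ := hAU (φ g⁻¹ u) (hPinv g hg g⁻¹ u (Subgroup.mem_sup_left huU))
    (fun h => hu1 (hdisj g⁻¹ hg' u huU h)) u huU
  have hbu : φ (g * a' * g⁻¹) u = u * w := by
    rw [apply_mul, apply_mul, ha'v, map_mul, apply_inv_apply, mul_comm]
  have hbw : φ (g * a' * g⁻¹) w = w := by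
    rw [hw, apply_mul, apply_mul, inv_apply_apply, huU a' ha']
  have hau : φ a u = u := huU a ha
  refine hS3 (involves_three φ hu1 hw1 (fun h => hwU (h ▸ huU)) hau haw ?_ hbw hbu ?_)
  · rw [map_mul, hau, haw, ← mul_assoc, hM, one_mul]
  · rw [map_mul, hbw, hbu, mul_assoc, hM, mul_one]

/-- An elementary no-offender theorem. -/
theorem not_isOff {φ : G →* MulAut M} (hinj : Function.Injective φ) (hM : ∀ m : M, m * m = 1)
    (hO : Cfsg.pCore 2 G = ⊥) (hS3 : ¬ Cfsg.Involves (Equiv.Perm (Fin 3)) G)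
    (S : Sylow 2 G) {Mx : Subgroup G} (hu : Unique (S : Subgroup G) Mx) (A : Subgroup G) :
    ¬ IsOff φ A := by
  have : Fact (Nat.Prime 2) := ⟨Nat.prime_two⟩
  suffices h : ∀ n, Inductive.{u} n from
    h _ φ (Nat.lt_succ_self (Nat.card G + Nat.card M)) hinj hM hO hS3 S Mx hu A
  intro n
  induction n with
  | zero => exact fun ψ h => absurd h (Nat.not_lt_zero _)
  | succ n ih =>
    intro X _ _ W _ _ ψ hlt hψ hW hO' hS' T Mx' hu' B hB
    rcases Nat.lt_succ_iff_lt_or_eq.1 hlt with h | h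
    · exact ih ψ h hψ hW hO' hS' T Mx' hu' B hB
    subst h
    by_cases hC : fixSub ψ (⊤ : Subgroup X) = ⊥
    · exact not_isOff_of_fix_eq_bot ih hψ hW hO' hS' hu' hC B hB
    set C := fixSub ψ (⊤ : Subgroup X) with hCdef
    have hCmap : ∀ x, C.map (ψ x).toMonoidHom = C := fun x => by
      refine le_antisymm ?_ fun m hm => ⟨m, hm, hm x trivial⟩
      rintro _ ⟨m, hm, rfl⟩
      show ψ x m ∈ C
      rwa [hm x trivial]
    let ψ' : X →* MulAut (W ⧸ C) :=
      { toFun := fun x => QuotientGroup.congr C C (ψ x) (hCmap x)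
        map_one' := MulEquiv.ext fun q => QuotientGroup.induction_on q fun m => by
          show ((ψ 1 m : W) : W ⧸ C) = (m : W ⧸ C)
          rw [map_one]; rfl
        map_mul' := fun x y => MulEquiv.ext fun q => QuotientGroup.induction_on q fun m => by
          show ((ψ (x * y) m : W) : W ⧸ C) = ((ψ x (ψ y m) : W) : W ⧸ C)
          rw [apply_mul] }
    have hψ'2 : ∀ x ∈ ψ'.ker, x * x = 1 := by
      intro x hx
      refine hψ (MulEquiv.ext fun m => ?_)
      rw [map_one, apply_mul]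
      have h1 : ((ψ x m : W) : W ⧸ C) = (m : W ⧸ C) :=
        DFunLike.congr_fun (MonoidHom.mem_ker.1 hx) (m : W ⧸ C)
      have h2 : delta ψ x m ∈ C := by
        rw [delta_apply, mul_comm]
        exact QuotientGroup.eq.1 h1.symm
      rw [apply_eq_delta_mul ψ x m, map_mul, h2 x trivial, apply_eq_delta_mul ψ x m, ← mul_assoc,
        hW, one_mul]
      rfl
    have hψ'inj : Function.Injective ψ' := (MonoidHom.ker_eq_bot_iff ψ').1 (eq_bot_of_normal_two hO'
      (isPGroup_of_sq hψ'2) (Subgroup.normalizer_eq_top_iff.2 inferInstance))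
    have hcard : Nat.card W = Nat.card (W ⧸ C) * Nat.card C :=
      Subgroup.card_eq_card_quotient_mul_card_subgroup C
    have hlt' : Nat.card X + Nat.card (W ⧸ C) < Nat.card X + Nat.card W := by
      have h2 : 1 < Nat.card C := by
        by_contra h
        exact hC (Subgroup.eq_bot_of_card_le C (by omega))
      have h3 : 0 < Nat.card (W ⧸ C) := Nat.card_pos
      rw [hcard]
      exact Nat.add_lt_add_left (lt_mul_of_one_lt_right h3 h2) _
    refine ih ψ' hlt' hψ'inj (fun q => QuotientGroup.induction_on q fun m => ?hex) hO' hS' T Mx' hu'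
      B ⟨hB.1, hB.2.1, ?hoff⟩
    case hex => rw [← QuotientGroup.mk_mul, hW, QuotientGroup.mk_one]
    case hoff =>
      set U := fixSub ψ B with hU
      have hle : U.map (QuotientGroup.mk' C) ≤ fixSub ψ' B := by
        rintro _ ⟨m, hm, rfl⟩ b hb
        show ((ψ b m : W) : W ⧸ C) = (m : W ⧸ C)
        rw [hm b hb]
      have hCU : C ≤ U := fixSub_anti ψ le_top
      have hUcard : Nat.card U = Nat.card (U.map (QuotientGroup.mk' C)) * Nat.card C := by
        rw [← Cores.card_comap_mk_eq C (U.map (QuotientGroup.mk' C)) |>.trans (mul_comm _ _),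
          Subgroup.comap_map_eq, QuotientGroup.ker_mk', sup_eq_left.2 hCU]
      refine Nat.le_of_mul_le_mul_right (c := Nat.card C) ?_ Nat.card_pos
      rw [← hcard]
      calc Nat.card W ≤ Nat.card B * Nat.card U := hB.2.2
        _ = Nat.card B * Nat.card (U.map (QuotientGroup.mk' C)) * Nat.card C := by
            rw [hUcard, mul_assoc]
        _ ≤ _ := by
            gcongr
            exact Subgroup.card_le_of_le hle

end Cfsg.Agent.FusionAux.NoOffender
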