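import Cfsg.Agent.Modules.Replacement
import Mathlib.GroupTheory.Nilpotent

/-!
Thompson replacement in the form: if `J(U)` does not lie in a normal subgroup `W` of the `p`-group
`U`, then some element outside `W` fixes the `p`-th powers of the elements of `Z(W)`.
-/

set_option autoImplicit false

open Cfsg Cfsg.Agent.Modules
open scoped commutatorElement

namespace Cfsg.Agent.FusionAux

variable {Ω : Type*} [Group Ω] {p : ℕ}

/-- The elements of `U` fixing the `p`-th powers of the elements of `V`. -/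
def powFix (p : ℕ) (U V : Subgroup Ω) : Subgroup Ω where
  carrier := {g | g ∈ U ∧ ∀ m ∈ V, g * m ^ p * g⁻¹ = m ^ p}
  one_mem' := ⟨U.one_mem, fun m _ => by simp⟩
  mul_mem' := by
    rintro a b ⟨ha, ha'⟩ ⟨hb, hb'⟩
    refine ⟨U.mul_mem ha hb, fun m hm => ?_⟩
    rw [show a * b * m ^ p * (a * b)⁻¹ = a * (b * m ^ p * b⁻¹) * a⁻¹ by simp [mul_assoc],
      hb' m hm, ha' m hm]
  inv_mem' := by
    rintro a ⟨ha, ha'⟩
    refine ⟨U.inv_mem ha, fun m hm => ?_⟩
    conv_lhs => rw [← ha' m hm]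
    simp [mul_assoc]

theorem mem_powFix {U V : Subgroup Ω} {g : Ω} :
    g ∈ powFix p U V ↔ g ∈ U ∧ ∀ m ∈ V, g * m ^ p * g⁻¹ = m ^ p := Iff.rfl

theorem powFix_normal {U V : Subgroup Ω} (hV : U ≤ Subgroup.normalizer (V : Set Ω)) :
    U ≤ Subgroup.normalizer (powFix p U V : Set Ω) := by
  have key : ∀ g ∈ U, ∀ x ∈ powFix p U V, g * x * g⁻¹ ∈ powFix p U V := by
    rintro g hg x ⟨hx, hx'⟩
    refine ⟨U.mul_mem (U.mul_mem hg hx) (U.inv_mem hg), fun m hm => ?_⟩
    have hm' : g⁻¹ * m * g ∈ V :=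
      ((Subgroup.mem_normalizer_iff''.1 (hV hg)) m).1 hm
    have h1 := hx' _ hm'
    have h2 : (g⁻¹ * m * g) ^ p = g⁻¹ * m ^ p * g := by
      simpa using conj_pow (a := g⁻¹) (b := m) (i := p)
    rw [h2] at h1
    rw [show g * x * g⁻¹ * m ^ p * (g * x * g⁻¹)⁻¹ = g * (x * (g⁻¹ * m ^ p * g) * x⁻¹) * g⁻¹ by
      simp [mul_assoc], h1]
    simp [mul_assoc]
  intro g hg
  refine Subgroup.mem_normalizer_iff.2 fun y => ⟨key g hg y, fun hy => ?_⟩
  have := key g⁻¹ (U.inv_mem hg) _ hy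
  simpa [mul_assoc] using this

/-- If `J(U)` is not inside the normal subgroup `W`, some element of `U` outside `W` fixes
`℧¹(Z(W))`. -/
theorem exists_powFix_not_mem [hp : Fact p.Prime] {U W : Subgroup Ω} [Finite U]
    (hU : IsPGroup p U) (hWU : W ≤ U) (hW : U ≤ Subgroup.normalizer (W : Set Ω))
    (hJ : ¬ thompsonSubgroupAOf U ≤ W) :
    ∃ a ∈ powFix p U (W ⊓ Subgroup.centralizer (W : Set Ω)), a ∉ W := by
  set V := W ⊓ Subgroup.centralizer (W : Set Ω) with hVdef
  have hVc : IsMulCommutative V := comm_iff.2 fun a ha b hb =>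
    (Subgroup.mem_centralizer_iff.1 ha.2 b hb.1).symm
  have hVU : V ≤ U := inf_le_left.trans hWU
  have hUV : U ≤ Subgroup.normalizer (V : Set Ω) := by
    intro g hg
    have hn := Subgroup.mem_normalizer_iff.1 (hW hg)
    refine Subgroup.mem_normalizer_iff.2 fun y => ?_
    simp only [hVdef, Subgroup.mem_inf, Subgroup.mem_centralizer_iff, SetLike.mem_coe]
    constructor
    · rintro ⟨h1, h2⟩
      refine ⟨(hn y).1 h1, fun w hw => ?_⟩
      have h3 : g⁻¹ * w * g ∈ W := (hn _).2 (by simpa [mul_assoc] using hw)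
      have h4 := congrArg (fun t => g * t * g⁻¹) (h2 _ h3)
      simpa [mul_assoc] using h4
    · rintro ⟨h1, h2⟩
      refine ⟨(hn y).2 h1, fun w hw => ?_⟩
      have h4 := congrArg (fun t => g⁻¹ * t * g) (h2 _ ((hn w).1 hw))
      simpa [mul_assoc] using h4
  -- an abelian subgroup of largest order, quadratic on `V`, outside `W`
  obtain ⟨A, hA, hAq, hAW⟩ : ∃ A ∈ maxAbIn U, ⁅⁅V, A⁆, A⁆ = ⊥ ∧ ¬ A ≤ W := by
    obtain ⟨A, hA, hAW⟩ : ∃ A ∈ maxAbIn U, ¬ A ≤ W := by
      by_contra hc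
      push Not at hc
      exact hJ (thompsonSubgroupAOf_eq_sSup U ▸ sSup_le hc)
    have hAV : A ≤ Subgroup.normalizer (V : Set Ω) := hA.1.trans hUV
    have : Finite V := Finite.of_injective _ (Subgroup.inclusion_injective hVU)
    by_cases hD : ⁅V, A⁆ = ⊥
    · exact ⟨A, hA, by rw [hD, Subgroup.commutator_bot_left], hAW⟩
    obtain ⟨h1, h2⟩ := ab_replacement hA hVc hVU hAV
    refine ⟨_, h1, h2, fun hle => hD ?_⟩
    have hDV : ⁅V, A⁆ ≤ V := commutator_le_of_normalizes hAV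
    set B := A ⊓ Subgroup.centralizer ((⁅V, A⁆ : Subgroup Ω) : Set Ω) with hBdef
    have hVA' : V ≤ ⁅V, A⁆ ⊔ B := fun v hv => mem_maxAbIn_of_centralizing h1 (hVU hv) (by
      rw [Subgroup.mem_centralizer_iff]
      exact fun w hw => Subgroup.mem_centralizer_iff.1 hv.2 w (hle hw))
    refine commutator_eq_bot_of_le_commutator (hU.to_le hVU) hAV (fun a ha => ?_) ?_
    · obtain ⟨k, hk⟩ := hU ⟨a, hA.1 ha⟩
      exact ⟨k, by
        rw [show a ^ p ^ k = 1 from congrArg Subtype.val hk]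
        exact one_mem _⟩
    refine Subgroup.commutator_le.2 fun v hv a ha => ?_
    have hBn : B ≤ Subgroup.normalizer ((⁅V, A⁆ : Subgroup Ω) : Set Ω) :=
      inf_le_right.trans (Subgroup.centralizer_le_normalizer _)
    have hv' := hVA' hv
    rw [← SetLike.mem_coe, Subgroup.coe_mul_of_right_le_normalizer_left _ _ hBn] at hv'
    obtain ⟨d, hd, b, hb, rfl⟩ := hv'
    have hbv : b * a = a * b := comm_iff.1 hA.2.1 b hb.1 a ha
    have he : ⁅d * b, a⁆ = ⁅d, a⁆ := by
      simp only [commutatorElement_def, mul_inv_rev]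
      calc d * b * a * (b⁻¹ * d⁻¹) * a⁻¹ = d * (b * a) * b⁻¹ * d⁻¹ * a⁻¹ := by group
        _ = d * a * d⁻¹ * a⁻¹ := by rw [hbv]; group
    rw [he]
    exact Subgroup.commutator_mem_commutator hd ha
  obtain ⟨a₀, ha₀, ha₀W⟩ := SetLike.not_le_iff_exists.1 hAW
  -- an element of `A` outside `W` with `p`-th power in `W`
  obtain ⟨a, ha, haW, hapW⟩ : ∃ a ∈ A, a ∉ W ∧ a ^ p ∈ W := by
    obtain ⟨k, hk⟩ := hU ⟨a₀, hA.1 ha₀⟩
    have hk' : a₀ ^ p ^ k ∈ W := by
      rw [show a₀ ^ p ^ k = 1 from congrArg Subtype.val hk]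
      exact W.one_mem
    clear hk
    induction k generalizing a₀ with
    | zero => simp at hk'; contradiction
    | succ k ih =>
      by_cases h : a₀ ^ p ∈ W
      · exact ⟨a₀, ha₀, ha₀W, h⟩
      · refine ih (a₀ ^ p) (A.pow_mem ha₀ p) h ?_
        rwa [← pow_mul, ← pow_succ']
  refine ⟨a, ⟨hA.1 ha, fun m hm => ?_⟩, haW⟩
  set e := ⁅a, m⁆ with he
  have hcomm : ∀ x ∈ ⁅V, A⁆, a * x = x * a := fun x hx =>
    Subgroup.mem_centralizer_iff.1 (Subgroup.commutator_eq_bot_iff_le_centralizer.1 hAq hx) a ha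
  have heD : e ∈ ⁅V, A⁆ := by
    rw [he, ← commutatorElement_inv m a]
    exact Subgroup.inv_mem _ (Subgroup.commutator_mem_commutator hm ha)
  have heV : e ∈ V := commutator_le_of_normalizes (hA.1.trans hUV) heD
  have hk : ∀ k : ℕ, a ^ k * m * (a ^ k)⁻¹ = e ^ k * m := by
    intro k
    induction k with
    | zero => simp
    | succ k ih =>
      have h1 : a * e ^ k = e ^ k * a :=
        (Commute.pow_right (hcomm e heD : Commute a e) k).eq
      calc a ^ (k + 1) * m * (a ^ (k + 1))⁻¹ = a * (a ^ k * m * (a ^ k)⁻¹) * a⁻¹ := by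
            rw [pow_succ' a, mul_inv_rev]; group
        _ = a * e ^ k * m * a⁻¹ := by rw [ih]; group
        _ = e ^ k * (a * m * a⁻¹ * m⁻¹) * m := by rw [h1]; group
        _ = e ^ (k + 1) * m := by rw [pow_succ, he, commutatorElement_def]
  have hep : e ^ p = 1 := by
    have h1 := hk p
    have h2 : a ^ p * m * (a ^ p)⁻¹ = m := by
      rw [Subgroup.mem_centralizer_iff.1 hm.2 _ hapW, mul_inv_cancel_right]
    rw [h2] at h1
    exact (mul_eq_right.1 h1.symm)
  have hem : Commute e m := comm_iff.1 hVc e heV m hm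
  rw [← conj_pow, show a * m * a⁻¹ = e * m by simpa using hk 1, hem.mul_pow, hep, one_mul]

end Cfsg.Agent.FusionAux
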