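import Cfsg.Agent.FusionAux.SeriesStab
import Cfsg.Agent.FusionAlperin.NormalCriteria
import Cfsg.Agent.Lib.IndexP

/-!
Essential subgroups over a `p`-group with a unique abelian subgroup of index `p`.
-/

set_option autoImplicit false

open Cfsg Cfsg.FusionSystem Cfsg.Agent.FusionSys Cfsg.Agent.FusionAux
open Cfsg.Agent.FusionAlperin (isRadical_of_essential)
open scoped commutatorElement

namespace Cfsg.Agent.FusionAux.UniqueAbelian

variable {Ω : Type*} [Group Ω] {S : Subgroup Ω}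

/-- The centre of `S`, in the ambient group. -/
abbrev zS (S : Subgroup Ω) : Subgroup Ω := S ⊓ Subgroup.centralizer (S : Set Ω)

theorem relIndex_ne_zero' {G : Type*} [Group G] (H L : Subgroup G) [Finite L] :
    H.relIndex L ≠ 0 := Subgroup.index_ne_zero_of_finite (H := H.subgroupOf L)

theorem le_of_mem_bound {p : ℕ} (hp : p.Prime) {k : ℕ} {n : ℕ} (hn : n = p ^ k) (h1 : n ≠ 1)
    (hle : n ≤ p) : n = p := by
  subst hn
  rcases k with _ | k
  · exact absurd (pow_zero p) h1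
  · refine le_antisymm hle ?_
    exact Nat.le_self_pow (Nat.succ_ne_zero k) p

theorem relIndex_eq_prime {p : ℕ} [hp : Fact p.Prime] [Finite S] (hS : IsPGroup p S)
    {H K : Subgroup Ω} (hK : K ≤ S) (hne : ¬ K ≤ H) (hle : H.relIndex K ≤ p) :
    H.relIndex K = p := by
  have : Finite K := finite_of_le ‹_› hK
  obtain ⟨k, hk⟩ := (hS.to_le hK).index (H.subgroupOf K)
  exact le_of_mem_bound hp.out hk (fun h => hne (Subgroup.relIndex_eq_one.1 h)) hle

/-- A bound for the index of a kernel type subgroup. -/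
theorem relIndex_le_of_hom {G H : Type*} [Group G] [Group H] [Finite G] [Finite H] (f : G →* H)
    {L K : Subgroup G} {W X : Subgroup H} (hX : ∀ a ∈ K, f a ∈ X)
    (hW : ∀ a ∈ K, f a ∈ W → a ∈ L) : L.relIndex K ≤ W.relIndex X := by
  have h1 : L.relIndex K ≤ (W.comap f).relIndex K := by
    rw [← Subgroup.inf_relIndex_right (W.comap f) K]
    refine Nat.le_of_dvd (Nat.pos_of_ne_zero (relIndex_ne_zero' _ _))
      (Subgroup.relIndex_dvd_of_le_left K ?_)
    exact fun a ha => hW a ha.2 ha.1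
  refine h1.trans ?_
  rw [Subgroup.relIndex_comap]
  exact Subgroup.relIndex_le_of_le_right (Subgroup.map_le_iff_le_comap.2 hX)
    (relIndex_ne_zero' _ _)

theorem comm_pow_mem {X : Subgroup Ω} {a y : Ω} (hy : ∀ w ∈ X, y * w * y⁻¹ ∈ X)
    (h : ⁅a, y⁆ ∈ X) : ∀ n : ℕ, ⁅a, y ^ n⁆ ∈ X := by
  intro n
  induction n with
  | zero => simp
  | succ n ih =>
    rw [show ⁅a, y ^ (n + 1)⁆ = ⁅a, y⁆ * (y * ⁅a, y ^ n⁆ * y⁻¹) by
      rw [pow_succ']; simp [commutatorElement_def, mul_assoc]]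
    exact X.mul_mem h (hy _ ih)

section

variable (F : FusionSystem S) (p : ℕ) (A P : Subgroup Ω) (x : Ω)

/-- The setting. -/
structure Setup : Prop where
  /-- `S` is a `p`-group -/
  hS : IsPGroup p S
  /-- the system is saturated -/
  hF : F.IsSaturated p
  /-- `A` lies in `S` -/
  hAS : A ≤ S
  /-- `A` is abelian -/
  comm : ∀ a ∈ A, ∀ b ∈ A, a * b = b * a
  /-- `A` has index `p` -/
  index : (A.subgroupOf S).index = p
  /-- `S` is not abelian -/
  nonab : ¬ IsMulCommutative S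
  /-- `A` is the only abelian subgroup of index `p` -/
  huniq : ∀ B : Subgroup Ω, B ≤ S → IsMulCommutative B → (B.subgroupOf S).index = p → B = A
  /-- `P` is essential -/
  hP : F.IsEssential p P
  /-- `x` lies in `P` -/
  hxP : x ∈ P
  /-- `x` lies outside `A` -/
  hxA : x ∉ A

end

variable [Finite S] {p : ℕ} [hp : Fact p.Prime] {F : FusionSystem S} {A P : Subgroup Ω} {x : Ω}

theorem exists_mem_notMem (hS : IsPGroup p S) (hP : F.IsEssential p P) (hAS : A ≤ S)
    (hcomm : ∀ a ∈ A, ∀ b ∈ A, a * b = b * a) (hPA : P ≠ A) : ∃ x ∈ P, x ∉ A := by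
  by_contra h
  push Not at h
  have hle : P ≤ A := h
  refine hPA (le_antisymm hle fun a ha => centralizerIn_self_centric hP.1 ?_)
  exact ⟨hAS ha, fun v hv => hcomm v (hle hv) a ha⟩

theorem Setup.hPS (h : Setup F p A P x) : P ≤ S := h.hP.1.1

theorem Setup.normA (h : Setup F p A P x) : ∀ g ∈ S, ∀ a ∈ A, g * a * g⁻¹ ∈ A := fun g hg a ha =>
  (IndexP.normal_of_index h.hS h.index).conj_mem ⟨a, h.hAS ha⟩ ha ⟨g, hg⟩

theorem Setup.relA (h : Setup F p A P x) {X : Subgroup Ω} (hX : X ≤ S) (hne : ¬ X ≤ A) :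
    A.relIndex X = p :=
  relIndex_eq_prime h.hS hX hne
    ((Subgroup.relIndex_le_of_le_right hX (relIndex_ne_zero' _ _)).trans h.index.le)

theorem Setup.decomp (h : Setup F p A P x) {y : Ω} (hy : y ∈ S) (hyA : y ∉ A) :
    ∀ g ∈ S, ∃ a ∈ A, ∃ n : ℕ, g = a * y ^ n := by
  have hn : (A.subgroupOf S).Normal := IndexP.normal_of_index h.hS h.index
  have hq : Nat.card (S ⧸ A.subgroupOf S) = p := by rw [← Subgroup.index_eq_card, h.index]
  intro g hg
  have hy1 : ((⟨y, hy⟩ : S) : S ⧸ A.subgroupOf S) ≠ 1 := fun e =>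
    hyA ((QuotientGroup.eq_one_iff (N := A.subgroupOf S) _).1 e)
  have hyo : orderOf ((⟨y, hy⟩ : S) : S ⧸ A.subgroupOf S) = Nat.card (S ⧸ A.subgroupOf S) := by
    rcases hp.out.eq_one_or_self_of_dvd _ (hq ▸ orderOf_dvd_natCard _) with e | e
    · exact absurd (orderOf_eq_one_iff.1 e) hy1
    · rw [hq]; exact e
  have hmem : ((⟨g, hg⟩ : S) : S ⧸ A.subgroupOf S) ∈
      Subgroup.zpowers ((⟨y, hy⟩ : S) : S ⧸ A.subgroupOf S) := by
    rw [(Subgroup.card_eq_iff_eq_top _).1 ((Nat.card_zpowers _).trans hyo)]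
    trivial
  obtain ⟨n, hn'⟩ := (isOfFinOrder_of_finite _).mem_powers_iff_mem_zpowers.2 hmem
  refine ⟨g * (y ^ n)⁻¹, ?_, n, (inv_mul_cancel_right _ _).symm⟩
  have h1 : (((⟨g, hg⟩ : S) * (⟨y, hy⟩ ^ n)⁻¹ : S) : S ⧸ A.subgroupOf S) = 1 := by
    rw [QuotientGroup.mk_mul, QuotientGroup.mk_inv, QuotientGroup.mk_pow, mul_inv_eq_one]
    exact hn'.symm
  exact (QuotientGroup.eq_one_iff (N := A.subgroupOf S) _).1 h1

theorem Setup.xS (h : Setup F p A P x) : x ∈ S := h.hPS h.hxP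

/-- An element of `A` commuting with an element outside `A` is central. -/
theorem Setup.centr (h : Setup F p A P x) {a y : Ω} (ha : a ∈ A) (hy : y ∈ S) (hyA : y ∉ A)
    (hay : Commute a y) : a ∈ zS S := by
  refine ⟨h.hAS ha, Subgroup.mem_centralizer_iff.2 fun g hg => ?_⟩
  obtain ⟨b, hb, n, rfl⟩ := h.decomp hy hyA g hg
  have h1 : Commute a b := h.comm a ha b hb
  exact (h1.mul_right (hay.pow_right n)).eq.symm

theorem Setup.center_le (h : Setup F p A P x) : zS S ≤ A := by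
  intro z hz
  by_contra hzA
  refine h.nonab ⟨⟨fun u v => Subtype.ext ?_⟩⟩
  obtain ⟨a, ha, n, hu⟩ := h.decomp hz.1 hzA u u.2
  obtain ⟨b, hb, m, hv⟩ := h.decomp hz.1 hzA v v.2
  have hc : ∀ g ∈ S, Commute z g := fun g hg => (hz.2 g hg).symm
  show (u : Ω) * v = v * u
  rw [hu, hv]
  have h1 : Commute a b := h.comm a ha b hb
  exact ((h1.mul_right ((hc a (h.hAS ha)).pow_left m).symm).mul_left
    (((hc b (h.hAS hb)).pow_left n).mul_right ((Commute.refl z).pow_pow n m))).eq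

theorem Setup.center_le_P (h : Setup F p A P x) : zS S ≤ P := fun _ hz =>
  centralizerIn_self_centric h.hP.1 ⟨hz.1, fun v hv => hz.2 v (h.hPS hv)⟩

theorem Setup.comm_mem_A (h : Setup F p A P x) {a g : Ω} (ha : a ∈ A) (hg : g ∈ S) :
    ⁅a, g⁆ ∈ A := by
  have := A.mul_mem ha (h.normA g hg a⁻¹ (A.inv_mem ha))
  simpa [commutatorElement_def, mul_assoc] using this

theorem Setup.comm_mem_A' (h : Setup F p A P x) {g k : Ω} (hg : g ∈ S) (hk : k ∈ S) :
    g * k * g⁻¹ * k⁻¹ ∈ A := by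
  have hn : (A.subgroupOf S).Normal := IndexP.normal_of_index h.hS h.index
  have hc : ∀ u v : S ⧸ A.subgroupOf S, u * v = v * u := by
    have : IsCyclic (S ⧸ A.subgroupOf S) :=
      isCyclic_of_prime_card (p := p) (by rw [← Subgroup.index_eq_card, h.index])
    intro u v
    obtain ⟨w, hw⟩ := IsCyclic.exists_generator (α := S ⧸ A.subgroupOf S)
    obtain ⟨i, rfl⟩ := Subgroup.mem_zpowers_iff.1 (hw u)
    obtain ⟨j, rfl⟩ := Subgroup.mem_zpowers_iff.1 (hw v)
    exact ((Commute.refl w).zpow_zpow i j).eq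
  have h1 : (((⟨g, hg⟩ : S) * ⟨k, hk⟩ * (⟨g, hg⟩ : S)⁻¹ * (⟨k, hk⟩ : S)⁻¹ : S) :
      S ⧸ A.subgroupOf S) = 1 := by
    rw [QuotientGroup.mk_mul, QuotientGroup.mk_mul, QuotientGroup.mk_mul, QuotientGroup.mk_inv,
      QuotientGroup.mk_inv, hc ((⟨g, hg⟩ : S) : S ⧸ A.subgroupOf S), mul_inv_cancel_right,
      mul_inv_cancel]
  exact (QuotientGroup.eq_one_iff (N := A.subgroupOf S) _).1 h1

/-- Commutation with `x` on `A`. -/
def Setup.disp (h : Setup F p A P x) : A →* A where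
  toFun a := ⟨⁅(a : Ω), x⁆, h.comm_mem_A a.2 h.xS⟩
  map_one' := Subtype.ext (by simp)
  map_mul' a b := Subtype.ext (by
    show ⁅(a : Ω) * b, x⁆ = ⁅(a : Ω), x⁆ * ⁅(b : Ω), x⁆
    have hc : (a : Ω) * ⁅(b : Ω), x⁆ * (a : Ω)⁻¹ = ⁅(b : Ω), x⁆ := by
      rw [h.comm a a.2 _ (h.comm_mem_A b.2 h.xS), mul_inv_cancel_right]
    calc ⁅(a : Ω) * b, x⁆ = ((a : Ω) * ⁅(b : Ω), x⁆ * (a : Ω)⁻¹) * ⁅(a : Ω), x⁆ := by
          simp [commutatorElement_def, mul_assoc]
      _ = _ := by rw [hc, h.comm _ (h.comm_mem_A b.2 h.xS) _ (h.comm_mem_A a.2 h.xS)])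

@[simp] theorem Setup.disp_apply (h : Setup F p A P x) (a : A) :
    (h.disp a : Ω) = ⁅(a : Ω), x⁆ := rfl

theorem Setup.disp_eq_one (h : Setup F p A P x) {a : A} :
    h.disp a = 1 ↔ (a : Ω) ∈ zS S := by
  rw [← OneMemClass.coe_eq_one, h.disp_apply, commutatorElement_eq_one_iff_mul_comm]
  exact ⟨fun e => h.centr a.2 h.xS h.hxA e, fun e => (e.2 x h.xS).symm⟩

theorem Setup.decompP (h : Setup F p A P x) {y : Ω} (hy : y ∈ P) (hyA : y ∉ A) :
    ∀ g ∈ P, ∃ b ∈ P ⊓ A, ∃ n : ℕ, g = b * y ^ n := by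
  intro g hg
  obtain ⟨b, hb, n, rfl⟩ := h.decomp (h.hPS hy) hyA g (h.hPS hg)
  refine ⟨b, ⟨?_, hb⟩, n, rfl⟩
  simpa using P.mul_mem hg (P.inv_mem (P.pow_mem hy n))

theorem Setup.mem_norm (h : Setup F p A P x) {a : Ω} (ha : a ∈ A) (hax : ⁅a, x⁆ ∈ P) :
    a ∈ Subgroup.normalizer (P : Set Ω) := by
  have key : ∀ a ∈ A, ⁅a, x⁆ ∈ P → ∀ v ∈ P, a * v * a⁻¹ ∈ P := by
    intro a ha hax v hv
    obtain ⟨b, hb, n, rfl⟩ := h.decompP h.hxP h.hxA v hv
    rw [show a * (b * x ^ n) * a⁻¹ = (a * b * a⁻¹) * (⁅a, x⁆ * x) ^ n by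
      rw [show ⁅a, x⁆ * x = a * x * a⁻¹ by simp [commutatorElement_def, mul_assoc], conj_pow]
      simp [mul_assoc], h.comm a ha b hb.2, mul_inv_cancel_right]
    exact P.mul_mem hb.1 (P.pow_mem (P.mul_mem hax h.hxP) n)
  refine Subgroup.mem_normalizer_iff.2 fun v => ⟨key a ha hax v, fun hv => ?_⟩
  have hax' : ⁅a⁻¹, x⁆ ∈ P := by
    have e : ((h.disp ⟨a, ha⟩)⁻¹ : A) = h.disp ⟨a⁻¹, A.inv_mem ha⟩ := (map_inv h.disp ⟨a, ha⟩).symm
    rw [← h.disp_apply ⟨a⁻¹, A.inv_mem ha⟩, ← e]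
    exact P.inv_mem hax
  simpa [mul_assoc] using key a⁻¹ (A.inv_mem ha) hax' _ hv

theorem Setup.norm_comm (h : Setup F p A P x) {a y : Ω} (ha : a ∈ A)
    (haN : a ∈ Subgroup.normalizer (P : Set Ω)) (hy : y ∈ P) : ⁅a, y⁆ ∈ P ⊓ A := by
  refine ⟨?_, h.comm_mem_A ha (h.hPS hy)⟩
  rw [commutatorElement_def]
  exact P.mul_mem ((Subgroup.mem_normalizer_iff.1 haN y).1 hy) (P.inv_mem hy)

theorem Setup.ne_top (h : Setup F p A P x) : P < S := by
  refine lt_of_le_of_ne h.hPS ?_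
  rintro rfl
  obtain ⟨-, hfn, hn, Y, hY, -⟩ := h.hP
  obtain ⟨-, R, hR⟩ := (saturated_fullyNormalized h.hS h.hF hfn).2
  refine R.not_dvd_index ?_
  rw [hR, ← inn_eq_autInducedBy, Subgroup.index_eq_card]
  exact hY

theorem Setup.exists_norm (h : Setup F p A P x) :
    ∃ a ∈ A, a ∈ Subgroup.normalizer (P : Set Ω) ∧ a ∉ P := by
  obtain ⟨g, hg, hgP⟩ := SetLike.exists_of_lt (lt_normalizerIn_of_lt h.hS h.ne_top)
  obtain ⟨a, ha, n, rfl⟩ := h.decomp h.xS h.hxA g hg.1
  refine ⟨a, ha, ?_, fun e => hgP (P.mul_mem e (P.pow_mem h.hxP n))⟩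
  have := Subgroup.mul_mem _ hg.2
    (Subgroup.inv_mem _ (Subgroup.le_normalizer (P.pow_mem h.hxP n)))
  simpa using this

theorem Setup.stab_two (h : Setup F p A P x) {D : Subgroup Ω} (hDP : D ≤ P)
    (hinv : ∀ α ∈ F.autGroup P, ∀ v : P, (v : Ω) ∈ D → ((α v : P) : Ω) ∈ D)
    {g : Ω} (hg : g ∈ normalizerIn S P) (hfix : ∀ v ∈ D, g * v * g⁻¹ = v)
    (hmove : ∀ v ∈ P, v⁻¹ * (g * v * g⁻¹) ∈ D) : g ∈ P := by
  refine mem_of_stabilizes h.hS h.hP.1 (isRadical_of_essential h.hS h.hP)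
    (fun i => if i = 0 then ⊥ else if i = 1 then D else P) 2 rfl le_rfl ?_ ?_ hg ?_
  · refine monotone_nat_of_le_succ fun i => ?_
    rcases i with _ | _ | i <;> simp [hDP]
  · intro i hi α hα v hv
    rcases i with _ | _ | i
    · have e : v = 1 := Subtype.ext (by simpa using hv)
      simp [e]
    · exact hinv α hα v (by simpa using hv)
    · simp
  · intro i hi v hvP hv
    rcases i with _ | _ | i
    · have := hfix v (by simpa using hv)
      simp [this]
    · simpa using hmove v hvP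
    · omega

theorem Setup.moved (h : Setup F p A P x) :
    ∃ β ∈ F.autGroup P, ∃ b : P, (b : Ω) ∈ A ∧ ((β b : P) : Ω) ∉ A := by
  by_contra hall
  push Not at hall
  obtain ⟨a, ha, haN, haP⟩ := h.exists_norm
  refine haP (h.stab_two (D := P ⊓ A) inf_le_left (fun α hα v hv => ⟨(α v).2, hall α hα v hv.2⟩)
    ⟨h.hAS ha, haN⟩ (fun v hv => ?_) fun v hv => ?_)
  · rw [h.comm a ha v hv.2, mul_inv_cancel_right]
  · refine ⟨P.mul_mem (P.inv_mem hv) ((Subgroup.mem_normalizer_iff.1 haN v).1 hv), ?_⟩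
    have := A.mul_mem (h.normA v⁻¹ (S.inv_mem (h.hPS hv)) a ha) (A.inv_mem ha)
    simpa [mul_assoc] using this

/-! ### The nonabelian case -/

theorem Setup.center_inv (h : Setup F p A P x) (hna : ¬ P ⊓ A ≤ zS S) {α : MulAut P}
    {v : P} (hv : (v : Ω) ∈ zS S) : ((α v : P) : Ω) ∈ zS S := by
  have hc : ∀ u : P, Commute ((α v : P) : Ω) u := by
    intro u
    obtain ⟨u, rfl⟩ := α.surjective u
    have h1 : v * u = u * v := Subtype.ext (hv.2 u (h.hPS u.2)).symm
    exact congrArg Subtype.val (by rw [← map_mul, h1, map_mul] : α v * α u = α u * α v)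
  by_cases hvA : ((α v : P) : Ω) ∈ A
  · exact h.centr hvA h.xS h.hxA (hc ⟨x, h.hxP⟩)
  · refine absurd (fun b hb => ?_) hna
    exact h.centr hb.2 (h.hPS (α v).2) hvA (hc ⟨b, hb.1⟩).symm

theorem Setup.stab_center (h : Setup F p A P x) (hna : ¬ P ⊓ A ≤ zS S) {g : Ω} (hg : g ∈ S)
    (hmove : ∀ v ∈ P, v⁻¹ * (g * v * g⁻¹) ∈ zS S) : g ∈ P := by
  have hN : g ∈ Subgroup.normalizer (P : Set Ω) := by
    refine Subgroup.mem_normalizer_iff.2 fun v => ?_
    have key : ∀ v ∈ P, g * v * g⁻¹ ∈ P := fun v hv => by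
      simpa using P.mul_mem hv (h.center_le_P (hmove v hv))
    refine ⟨key v, fun hv => ?_⟩
    obtain ⟨z, hz, e1⟩ : ∃ z ∈ zS S, g * (g * v * g⁻¹) = (g * v * g⁻¹) * g * z :=
      ⟨_, hmove _ hv, by
        rw [mul_assoc _ g, (hmove _ hv).2 g hg]
        group⟩
    have e2 : v = (g * v * g⁻¹) * z⁻¹ := by
      calc v = g⁻¹ * ((g * v * g⁻¹) * g * z) * z⁻¹ := by group
        _ = g⁻¹ * (g * (g * v * g⁻¹)) * z⁻¹ := by rw [← e1]
        _ = _ := by group
    rw [e2]
    exact P.mul_mem hv (P.inv_mem (h.center_le_P hz))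
  exact h.stab_two h.center_le_P (fun α _ v hv => h.center_inv hna hv) ⟨hg, hN⟩
    (fun v hv => by rw [hv.2 g hg, mul_inv_cancel_right]) hmove

theorem Setup.relIndex_center (h : Setup F p A P x) (hna : ¬ P ⊓ A ≤ zS S) :
    (zS S).relIndex (P ⊓ A) = p := by
  have : Finite P := finite_of_le ‹_› h.hPS
  obtain ⟨β, -, b, hb, hbA⟩ := h.moved
  set Q : Subgroup P := A.subgroupOf P with hQ
  have hQi : Q.index = p := h.relA h.hPS fun e => h.hxA (e h.hxP)
  set Q' := Q.map β.toMonoidHom with hQ'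
  have hQi' : Q'.index = p := by
    rw [hQ', ← hQi]
    exact Subgroup.index_map_equiv Q β
  refine relIndex_eq_prime h.hS (inf_le_left.trans h.hPS) hna ?_
  rw [← Subgroup.relIndex_subgroupOf (inf_le_left : P ⊓ A ≤ P), Subgroup.inf_subgroupOf_left]
  have hle : Q' ⊓ Q ≤ (zS S).subgroupOf P := by
    rintro w ⟨hw', hwA⟩
    obtain ⟨w', hw', rfl⟩ := hw'
    refine h.centr hwA (h.hPS (β b).2) hbA ?_
    have h1 : w' * b = b * w' := Subtype.ext (h.comm _ hw' _ hb)
    exact congrArg Subtype.val (by rw [← map_mul, h1, map_mul] : β w' * β b = β b * β w')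
  calc ((zS S).subgroupOf P).relIndex Q ≤ (Q' ⊓ Q).relIndex Q :=
        Nat.le_of_dvd (Nat.pos_of_ne_zero (relIndex_ne_zero' _ _))
          (Subgroup.relIndex_dvd_of_le_left _ hle)
    _ = Q'.relIndex Q := Subgroup.inf_relIndex_right _ _
    _ ≤ Q'.relIndex ⊤ :=
        Subgroup.relIndex_le_of_le_right le_top (relIndex_ne_zero' _ _)
    _ = p := by rw [Subgroup.relIndex_top_right, hQi']

theorem Setup.comm_center (h : Setup F p A P x) (hna : ¬ P ⊓ A ≤ zS S) {u v : Ω} (hu : u ∈ P)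
    (hv : v ∈ P) : ⁅u, v⁆ ∈ zS S := by
  have : Finite P := finite_of_le ‹_› h.hPS
  have hidx : ((zS S).subgroupOf P).index = p ^ 2 := by
    show (zS S).relIndex P = p ^ 2
    rw [← Subgroup.relIndex_mul_relIndex (zS S) (P ⊓ A) P (le_inf h.center_le_P h.center_le)
      inf_le_left, h.relIndex_center hna, inf_comm, Subgroup.inf_relIndex_right,
      h.relA h.hPS fun e => h.hxA (e h.hxP), pow_two]
  have hn : ((zS S).subgroupOf P).Normal := ⟨fun w hw g => by
    show (g : Ω) * w * (g : Ω)⁻¹ ∈ zS S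
    rw [(Subgroup.mem_inf.1 (Subgroup.mem_subgroupOf.1 hw)).2 g (h.hPS g.2), mul_inv_cancel_right]
    exact hw⟩
  have hcom := IsPGroup.commutative_of_card_eq_prime_sq
    (hG := (Subgroup.index_eq_card _).symm.trans hidx)
  have h1 : (⁅(⟨u, hu⟩ : P), (⟨v, hv⟩ : P)⁆ : P) ∈ (zS S).subgroupOf P := by
    rw [← QuotientGroup.eq_one_iff]
    show (QuotientGroup.mk' _) ⁅(⟨u, hu⟩ : P), (⟨v, hv⟩ : P)⁆ = 1
    rw [map_commutatorElement, commutatorElement_eq_one_iff_mul_comm]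
    exact hcom _ _
  exact h1

/-- The elements of `A` commuting with `x` modulo the centre. -/
def Setup.secondA (h : Setup F p A P x) : Subgroup A := ((zS S).subgroupOf A).comap h.disp

theorem Setup.mem_secondA (h : Setup F p A P x) {a : A} :
    a ∈ h.secondA ↔ ⁅(a : Ω), x⁆ ∈ zS S := Iff.rfl

theorem Setup.comm_central (h : Setup F p A P x) {a : Ω} (ha : a ∈ A) (hax : ⁅a, x⁆ ∈ zS S)
    {g : Ω} (hg : g ∈ S) : ⁅a, g⁆ ∈ zS S := by
  obtain ⟨b, hb, n, rfl⟩ := h.decomp h.xS h.hxA g hg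
  have h1 := comm_pow_mem (fun w hw => by
    rw [hw.2 x h.xS, mul_inv_cancel_right]; exact hw) hax n
  rw [show ⁅a, b * x ^ n⁆ = ⁅a, b⁆ * (b * ⁅a, x ^ n⁆ * b⁻¹) by
    simp [commutatorElement_def, mul_assoc],
    commutatorElement_eq_one_iff_mul_comm.2 (h.comm a ha b hb), one_mul,
    h1.2 b (h.hAS hb), mul_inv_cancel_right]
  exact h1

theorem Setup.secondA_eq (h : Setup F p A P x) (hna : ¬ P ⊓ A ≤ zS S) :
    h.secondA = (P ⊓ A).subgroupOf A := by
  ext a
  rw [h.mem_secondA]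
  refine ⟨fun ha => ⟨?_, a.2⟩, fun ha => h.comm_center hna ha.1 h.hxP⟩
  refine h.stab_center hna (h.hAS a.2) fun v hv => ?_
  show v⁻¹ * ((a : Ω) * v * (a : Ω)⁻¹) ∈ zS S
  have h1 := h.comm_central a.2 ha (h.hPS hv)
  rw [show v⁻¹ * ((a : Ω) * v * (a : Ω)⁻¹) = v⁻¹ * ⁅(a : Ω), v⁆ * v by
    simp [commutatorElement_def, mul_assoc], mul_assoc, ← h1.2 v (h.hPS hv), inv_mul_cancel_left]
  exact h1

/-! ### The abelian case -/

theorem Setup.kernel_abelian (h : Setup F p A P x) (hab : P ⊓ A ≤ zS S) {β : MulAut P}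
    (hβ : β ∈ F.autGroup P) {b : P} (hb : (b : Ω) ∈ A) (hbA : ((β b : P) : Ω) ∉ A) {a : Ω}
    (ha : a ∈ A) (haN : a ∈ Subgroup.normalizer (P : Set Ω))
    (hax : ∀ h' : ⁅a, x⁆ ∈ P, (⟨⁅a, x⁆, h'⟩ : P) ∈ (A.subgroupOf P).map β.toMonoidHom) :
    a ∈ zS S := by
  classical
  have : Finite P := finite_of_le ‹_› h.hPS
  have hcommP : ∀ u v : P, u * v = v * u := by
    have key : ∀ u ∈ P, Commute u x := by
      intro u hu
      obtain ⟨c, hc, n, rfl⟩ := h.decompP h.hxP h.hxA u hu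
      exact (Commute.mul_left ((hab hc).2 x h.xS).symm ((Commute.refl x).pow_left n))
    intro u v
    obtain ⟨c, hc, n, hv⟩ := h.decompP h.hxP h.hxA v v.2
    refine Subtype.ext ?_
    show (u : Ω) * v = v * u
    rw [hv]
    exact (Commute.mul_right ((hab hc).2 u (h.hPS u.2)) ((key u u.2).pow_right n)).eq
  set Q : Subgroup P := A.subgroupOf P with hQ
  set Q' := Q.map β.toMonoidHom with hQ'
  let C : ℕ → Subgroup P := fun i =>
    if i = 0 then ⊥ else if i = 1 then Q ⊓ Q' else if i = 2 then Q' else ⊤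
  let M₀ : Submonoid (F.autGroup P) :=
    { carrier := {u | ∀ i < 3, ∀ v ∈ C (i + 1), v⁻¹ * (u : MulAut P) v ∈ C i}
      one_mem' := fun i _ v _ => by simp
      mul_mem' := fun {u w} hu hw i hi v hv => by
        have hmono : C i ≤ C (i + 1) := by
          rcases i with _ | _ | _ | i <;> simp [C]
        have h1 := hw i hi v hv
        have h2 : (w : MulAut P) v ∈ C (i + 1) := by
          simpa using (C (i + 1)).mul_mem hv (hmono h1)
        have h3 := (C i).mul_mem h1 (hu i hi _ h2)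
        simpa [mul_assoc] using h3 }
  let M : Subgroup (F.autGroup P) :=
    { M₀ with
      inv_mem' := fun {u} hu => by
        obtain ⟨n, hn⟩ := (isOfFinOrder_of_finite u).mem_powers_iff_mem_zpowers.2
          (Subgroup.inv_mem _ (Subgroup.mem_zpowers u))
        exact hn ▸ M₀.pow_mem hu n }
  have hMp : IsPGroup p M := by
    refine isPGroup_of_pow_eq_one _ fun u hu => ?_
    obtain ⟨e, he⟩ := exists_pow_fix_series (h.hS.to_le h.hPS) (α := (u : MulAut P)) C
      (fun v hv => by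
        have : v = 1 := by simpa [C] using hv
        simp [this])
      3 (fun i _ => by rcases i with _ | _ | _ | i <;> simp [C]) hu 3 le_rfl
    exact ⟨e, Subtype.ext (MulEquiv.ext fun v => he v (by simp [C]))⟩
  obtain ⟨-, R, hR⟩ := (saturated_fullyNormalized h.hS h.hF h.hP.2.1).2
  have hRfix : ∀ r : F.autGroup P, r ∈ (R : Subgroup (F.autGroup P)) →
      (∀ v ∈ Q, (r : MulAut P) v = v) ∧ ∀ v, v⁻¹ * (r : MulAut P) v ∈ Q := by
    intro r hr
    rw [hR] at hr
    obtain ⟨g, hg, hgr⟩ := mem_autInducedBy.1 hr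
    refine ⟨fun v hv => Subtype.ext ?_, fun v => ?_⟩
    · rw [show (((r : MulAut P) v : P) : Ω) = g * v * g⁻¹ from hgr v,
        (hab ⟨v.2, hv⟩).2 g hg, mul_inv_cancel_right]
    · show (((v⁻¹ * (r : MulAut P) v : P)) : Ω) ∈ A
      rw [hcommP, Subgroup.coe_mul, Subgroup.coe_inv,
        show (((r : MulAut P) v : P) : Ω) = g * v * g⁻¹ from hgr v]
      exact h.comm_mem_A' hg (h.hPS v.2)
  set β' : F.autGroup P := ⟨β, hβ⟩
  have hRM : (R : Subgroup (F.autGroup P)) ≤ M.comap (MulAut.conj β').toMonoidHom := by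
    intro r hr i hi v hv
    obtain ⟨w, rfl⟩ := β.surjective v
    have hval : ((MulAut.conj β' r : F.autGroup P) : MulAut P) (β w) = β ((r : MulAut P) w) := by
      show β ((r : MulAut P) (β.symm (β w))) = _
      rw [MulEquiv.symm_apply_apply]
    show (β w)⁻¹ * ((MulAut.conj β' r : F.autGroup P) : MulAut P) (β w) ∈ C i
    rw [hval, ← map_inv, ← map_mul]
    obtain ⟨hfix, hmove⟩ := hRfix r hr
    have hQw : β w ∈ Q' → w ∈ Q := fun e => by
      obtain ⟨w', hw', he⟩ := e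
      exact β.injective he ▸ hw'
    rcases i with _ | _ | _ | i
    · have hv' : β w ∈ Q' := by simp [C] at hv; exact hv.2
      simp [hfix w (hQw hv')]
    · have hv' : β w ∈ Q' := by simpa [C] using hv
      simp [hfix w (hQw hv'), C]
    · show _ ∈ Q'
      exact ⟨_, hmove w, rfl⟩
    · omega
  have hMc : IsPGroup p (M.comap (MulAut.conj β').toMonoidHom) :=
    hMp.comap_of_injective _ (MulAut.conj β').injective
  have hMR : M.comap (MulAut.conj β').toMonoidHom ≤ R := (R.3 hMc hRM).le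
  have hτmem : P.normalizerMonoidHom ⟨a, haN⟩ ∈ autInducedBy S P :=
    mem_autInducedBy.2 ⟨a, h.hAS ha, fun _ => rfl⟩
  set τ : F.autGroup P := ⟨_, autInducedBy_le_autGroup F h.hPS hτmem⟩
  have haxA : ⁅a, x⁆ ∈ P ⊓ A := h.norm_comm ha haN h.hxP
  have hτM : τ ∈ M := by
    have hmove : ∀ v : P, v⁻¹ * (τ : MulAut P) v ∈ Q ⊓ Q' := by
      intro v
      have hkey : ((v⁻¹ * (τ : MulAut P) v : P) : Ω) = a * v * a⁻¹ * (v : Ω)⁻¹ := by
        rw [hcommP]; rfl
      obtain ⟨c, hc, n, hv⟩ := h.decompP h.hxP h.hxA v v.2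
      have e : v⁻¹ * (τ : MulAut P) v = (⟨⁅a, x⁆, haxA.1⟩ : P) ^ n := by
        refine Subtype.ext (hkey.trans ?_)
        rw [hv, SubgroupClass.coe_pow]
        have hz : Commute ⁅a, x⁆ x := ((hab haxA).2 x h.xS).symm
        calc a * (c * x ^ n) * a⁻¹ * (c * x ^ n)⁻¹
            = (a * c) * (x ^ n * a⁻¹ * (x ^ n)⁻¹) * c⁻¹ := by simp [mul_assoc]
          _ = (c * a) * (x ^ n * a⁻¹ * (x ^ n)⁻¹) * c⁻¹ := by rw [h.comm a ha c hc.2]
          _ = c * ((a * x * a⁻¹) ^ n * (x ^ n)⁻¹) * c⁻¹ := by rw [conj_pow]; simp [mul_assoc]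
          _ = c * ⁅a, x⁆ ^ n * c⁻¹ := by
              rw [show a * x * a⁻¹ = ⁅a, x⁆ * x by simp [commutatorElement_def, mul_assoc],
                hz.mul_pow, mul_inv_cancel_right]
          _ = ⁅a, x⁆ ^ n := by
              rw [h.comm c hc.2 _ (A.pow_mem haxA.2 n), mul_inv_cancel_right]
      rw [e]
      exact Subgroup.pow_mem _
        (show (⟨⁅a, x⁆, haxA.1⟩ : P) ∈ Q ⊓ Q' from ⟨haxA.2, hax haxA.1⟩) n
    intro i hi v hv
    rcases i with _ | _ | _ | i
    · have hv' : v ∈ Q := by simp [C] at hv; exact hv.1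
      have : (τ : MulAut P) v = v := Subtype.ext (by
        show a * v * a⁻¹ = (v : Ω)
        rw [h.comm a ha v hv', mul_inv_cancel_right])
      simp [this]
    · simpa [C] using hmove v
    · simpa [C] using (hmove v).2
    · omega
  have hτR : β'⁻¹ * τ * β' ∈ (R : Subgroup (F.autGroup P)) := by
    refine hMR ?_
    show MulAut.conj β' (β'⁻¹ * τ * β') ∈ M
    simpa [mul_assoc] using hτM
  have hfixb : (τ : MulAut P) (β b) = β b := by
    have h1 := (hRfix _ hτR).1 b hb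
    change β.symm ((τ : MulAut P) (β b)) = b at h1
    rwa [MulEquiv.symm_apply_eq] at h1
  refine h.centr ha (h.hPS (β b).2) hbA ?_
  have h2 : a * (β b : P) * a⁻¹ = ((β b : P) : Ω) := congrArg Subtype.val hfixb
  exact mul_inv_eq_iff_eq_mul.1 h2

/-- The intersection of `A` with the normalizer of `P` has order `p` over `P ∩ A`. -/
theorem Setup.relIndex_norm (h : Setup F p A P x) :
    (P ⊓ A).relIndex (A ⊓ Subgroup.normalizer (P : Set Ω)) = p := by
  have : Finite P := finite_of_le ‹_› h.hPS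
  have : Finite A := finite_of_le ‹_› h.hAS
  obtain ⟨a, ha, haN, haP⟩ := h.exists_norm
  refine relIndex_eq_prime h.hS (inf_le_left.trans h.hAS) (fun e => haP (e ⟨ha, haN⟩).1) ?_
  set N := A ⊓ Subgroup.normalizer (P : Set Ω) with hN
  rw [← Subgroup.relIndex_subgroupOf (inf_le_left : N ≤ A)]
  by_cases hab : P ⊓ A ≤ zS S
  · obtain ⟨β, hβ, b, hb, hbA⟩ := h.moved
    set Q' := ((A.subgroupOf P).map β.toMonoidHom).map P.subtype with hQ'
    calc ((P ⊓ A).subgroupOf A).relIndex (N.subgroupOf A)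
        ≤ (Q'.subgroupOf A).relIndex ((P ⊓ A).subgroupOf A) := by
          refine relIndex_le_of_hom h.disp (fun c hc => h.norm_comm c.2 hc.2 h.hxP) ?_
          intro c hc hcW
          have hcZ := h.kernel_abelian hab hβ hb hbA c.2 hc.2 fun h' => by
            obtain ⟨w, hw, hwe⟩ := hcW
            rwa [show (⟨⁅(c : Ω), x⁆, h'⟩ : P) = w from Subtype.ext hwe.symm]
          exact ⟨h.center_le_P hcZ, c.2⟩
      _ = Q'.relIndex (P ⊓ A) := Subgroup.relIndex_subgroupOf inf_le_right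
      _ ≤ Q'.relIndex P :=
          Subgroup.relIndex_le_of_le_right inf_le_left (relIndex_ne_zero' _ _)
      _ = p := by
          show (Q'.subgroupOf P).index = p
          rw [hQ', Subgroup.subgroupOf, Subgroup.comap_map_eq_self_of_injective P.subtype_injective]
          exact (Subgroup.index_map_equiv _ β).trans (h.relA h.hPS fun e => h.hxA (e h.hxP))
  · calc ((P ⊓ A).subgroupOf A).relIndex (N.subgroupOf A)
        ≤ ((zS S).subgroupOf A).relIndex ((P ⊓ A).subgroupOf A) := by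
          refine relIndex_le_of_hom h.disp (fun c hc => h.norm_comm c.2 hc.2 h.hxP) ?_
          intro c _ hcW
          exact (h.secondA_eq hab).le hcW
      _ = p := by rw [Subgroup.relIndex_subgroupOf inf_le_right]; exact h.relIndex_center hab

/-- The index of `P` in its normalizer. -/
theorem Setup.index_normalizer (h : Setup F p A P x) :
    (P.subgroupOf (S ⊓ Subgroup.normalizer (P : Set Ω))).index = p := by
  show P.relIndex (S ⊓ Subgroup.normalizer (P : Set Ω)) = p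
  set N := A ⊓ Subgroup.normalizer (P : Set Ω)
  set NS := S ⊓ Subgroup.normalizer (P : Set Ω)
  have hPN : P ≤ NS := le_inf h.hPS Subgroup.le_normalizer
  have h1 : (P ⊓ A).relIndex P = p := by
    rw [inf_comm, Subgroup.inf_relIndex_right]
    exact h.relA h.hPS fun e => h.hxA (e h.hxP)
  have h2 : N.relIndex NS = p := by
    have e : N = A ⊓ NS := by
      apply le_antisymm
      · exact fun y hy => ⟨hy.1, h.hAS hy.1, hy.2⟩
      · exact fun y hy => ⟨hy.1, hy.2.2⟩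
    rw [e, Subgroup.inf_relIndex_right]
    exact h.relA inf_le_left fun e => h.hxA (e (hPN h.hxP))
  have h3 := Subgroup.relIndex_mul_relIndex (P ⊓ A) P NS inf_le_left hPN
  rw [h1, ← Subgroup.relIndex_mul_relIndex (P ⊓ A) N NS
    (fun y hy => ⟨hy.2, Subgroup.le_normalizer hy.1⟩) (fun y hy => ⟨h.hAS hy.1, hy.2⟩),
    h.relIndex_norm, h2] at h3
  exact Nat.eq_of_mul_eq_mul_left hp.out.pos h3

/-- The centre has index `p` in the second centre. -/
theorem Setup.relIndex_second (h : Setup F p A P x) :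
    ((zS S).subgroupOf A).relIndex h.secondA = p := by
  by_cases hab : P ⊓ A ≤ zS S
  · have e : h.secondA = (A ⊓ Subgroup.normalizer (P : Set Ω)).subgroupOf A := by
      ext a
      rw [h.mem_secondA]
      exact ⟨fun ha => ⟨a.2, h.mem_norm a.2 (h.center_le_P ha)⟩,
        fun ha => hab (h.norm_comm a.2 ha.2 h.hxP)⟩
    rw [e, Subgroup.relIndex_subgroupOf inf_le_left,
      show zS S = P ⊓ A from le_antisymm (le_inf h.center_le_P h.center_le) hab, h.relIndex_norm]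
  · rw [h.secondA_eq hab, Subgroup.relIndex_subgroupOf inf_le_right, h.relIndex_center hab]

theorem mem_upperTwo {g : Ω} :
    g ∈ (Subgroup.upperCentralSeries S 2).map S.subtype ↔
      g ∈ S ∧ ∀ s ∈ S, ⁅g, s⁆ ∈ zS S := by
  constructor
  · rintro ⟨u, hu, rfl⟩
    refine ⟨u.2, fun s hs => ?_⟩
    have h1 := Subgroup.mem_upperCentralSeries_succ_iff.1 hu ⟨s, hs⟩
    rw [Subgroup.upperCentralSeries_one, Subgroup.mem_center_iff] at h1
    exact ⟨(⁅u, (⟨s, hs⟩ : S)⁆ : S).2,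
      Subgroup.mem_centralizer_iff.2 fun v hv => congrArg Subtype.val (h1 ⟨v, hv⟩)⟩
  · rintro ⟨hg, hgs⟩
    refine ⟨⟨g, hg⟩, Subgroup.mem_upperCentralSeries_succ_iff.2 fun s => ?_, rfl⟩
    rw [Subgroup.upperCentralSeries_one, Subgroup.mem_center_iff]
    exact fun v => Subtype.ext ((hgs s s.2).2 v v.2)

/-- The second centre lies in `A`. -/
theorem Setup.upperTwo_le (h : Setup F p A P x) :
    (Subgroup.upperCentralSeries S 2).map S.subtype ≤ A := by
  intro g hg
  obtain ⟨hgS, hgs⟩ := mem_upperTwo.1 hg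
  by_contra hgA
  -- all commutators of `A` with `S` are central
  have hall : ∀ a : A, ⁅(a : Ω), x⁆ ∈ zS S := by
    intro a
    obtain ⟨b, hb, n, hx⟩ := h.decomp hgS hgA x h.xS
    have h1 : ⁅(a : Ω), g⁆ ∈ zS S := by
      rw [← commutatorElement_inv]
      exact (zS S).inv_mem (hgs a (h.hAS a.2))
    have h2 := comm_pow_mem (fun w hw => by
      rw [hw.2 g hgS, mul_inv_cancel_right]; exact hw) h1 n
    rw [hx, show ⁅(a : Ω), b * g ^ n⁆ = ⁅(a : Ω), b⁆ * (b * ⁅(a : Ω), g ^ n⁆ * b⁻¹) by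
      simp [commutatorElement_def, mul_assoc],
      commutatorElement_eq_one_iff_mul_comm.2 (h.comm a a.2 b hb), one_mul,
      h2.2 b (h.hAS hb), mul_inv_cancel_right]
    exact h2
  have htop : h.secondA = ⊤ := eq_top_iff.2 fun a _ => hall a
  have hrel := h.relIndex_second
  rw [htop, Subgroup.relIndex_top_right] at hrel
  by_cases hab : P ⊓ A ≤ zS S
  · -- `P` is abelian of index `p`
    have hPA : (zS S).relIndex A = p := hrel
    have hPi : P.relIndex S = p := by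
      have e : P ⊓ A = zS S := le_antisymm hab (le_inf h.center_le_P h.center_le)
      have h1 : (P ⊓ A).relIndex P = p := by
        rw [inf_comm, Subgroup.inf_relIndex_right]
        exact h.relA h.hPS fun e => h.hxA (e h.hxP)
      have h3 := Subgroup.relIndex_mul_relIndex (P ⊓ A) P S inf_le_left h.hPS
      rw [h1, ← Subgroup.relIndex_mul_relIndex (P ⊓ A) A S inf_le_right h.hAS] at h3
      have h4 : A.relIndex S = p := h.index
      rw [h4, e, hPA] at h3
      exact Nat.eq_of_mul_eq_mul_left hp.out.pos h3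
    have hcommP : IsMulCommutative P := ⟨⟨fun u v => by
      obtain ⟨c, hc, n, hu⟩ := h.decompP h.hxP h.hxA u u.2
      obtain ⟨d, hd, m, hv⟩ := h.decompP h.hxP h.hxA v v.2
      refine Subtype.ext ?_
      show (u : Ω) * v = v * u
      rw [hu, hv]
      have hc' : ∀ g ∈ S, Commute c g := fun g hg => ((hab hc).2 g hg).symm
      have hd' : ∀ g ∈ S, Commute d g := fun g hg => ((hab hd).2 g hg).symm
      exact (((hc' d (h.hPS hd.1)).mul_right ((hc' x h.xS).pow_right m)).mul_left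
        ((((hd' x h.xS).symm.pow_left n)).mul_right ((Commute.refl x).pow_pow n m))).eq⟩⟩
    exact h.hxA ((h.huniq P h.hPS hcommP hPi).le h.hxP)
  · rw [h.secondA_eq hab] at htop
    have hAP : A ≤ P := fun a ha => (htop.ge (Subgroup.mem_top (⟨a, ha⟩ : A))).1
    refine h.ne_top.not_ge fun s hs => ?_
    obtain ⟨a, ha, n, rfl⟩ := h.decomp h.xS h.hxA s hs
    exact P.mul_mem (hAP ha) (P.pow_mem h.hxP n)

theorem Setup.upperTwo_eq (h : Setup F p A P x) :
    (Subgroup.upperCentralSeries S 2).map S.subtype = h.secondA.map A.subtype := by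
  apply le_antisymm
  · intro g hg
    refine ⟨⟨g, h.upperTwo_le hg⟩, ?_, rfl⟩
    exact (mem_upperTwo.1 hg).2 x h.xS
  · rintro _ ⟨a, ha, rfl⟩
    exact mem_upperTwo.2 ⟨h.hAS a.2, fun s hs => h.comm_central a.2 ha hs⟩

/-- The shape of `P`. -/
theorem Setup.shape (h : Setup F p A P x) :
    P = zS S ⊔ Subgroup.zpowers x ∨
      P = (Subgroup.upperCentralSeries S 2).map S.subtype ⊔ Subgroup.zpowers x := by
  have key : ∀ X : Subgroup Ω, P ⊓ A = X → P = X ⊔ Subgroup.zpowers x := by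
    rintro X rfl
    refine le_antisymm (fun g hg => ?_) (sup_le inf_le_left (Subgroup.zpowers_le.2 h.hxP))
    obtain ⟨b, hb, n, rfl⟩ := h.decompP h.hxP h.hxA g hg
    exact Subgroup.mul_mem_sup hb (Subgroup.pow_mem _ (Subgroup.mem_zpowers x) n)
  by_cases hab : P ⊓ A ≤ zS S
  · exact Or.inl (key _ (le_antisymm hab (le_inf h.center_le_P h.center_le)))
  · refine Or.inr (key _ ?_)
    rw [h.upperTwo_eq, h.secondA_eq hab, Subgroup.subgroupOf_map_subtype, inf_assoc, inf_idem]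

end Cfsg.Agent.FusionAux.UniqueAbelian
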